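import Mathlib
import Cfsg.Agent.Lib.Helper10.DihSyl
import Cfsg.Agent.Lib.Helper21.Dihedral

/-!
Subgroups of dihedral `2`-groups, and elements of odd order normalizing them.
-/

namespace Cfsg.Agent.Lib.Helper5

open Cfsg.Agent.Lib.Helper10

/-- A subgroup of a dihedral group is cyclic or dihedral. -/
theorem sub_dihedral {X : Type*} [Group X] [Finite X] (S : Subgroup X) {m : ℕ}
    (e : ↥S ≃* DihedralGroup m) (Q : Subgroup X) (hQS : Q ≤ S) :
    IsCyclic Q ∨ ∃ d : ℕ, Nat.card Q = 2 * d ∧ Nonempty (↥Q ≃* DihedralGroup d) := by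
  by_cases hQr : Q ≤ rotSub S e
  · exact Or.inl (isCyclic_of_le_rotSub S e hQr)
  · right
    obtain ⟨t, htQ, htr⟩ := SetLike.not_le_iff_exists.mp hQr
    have hR : IsCyclic ↥(Q ⊓ rotSub S e) := isCyclic_of_le_rotSub S e inf_le_right
    obtain ⟨ρ, hρ⟩ := (Subgroup.isCyclic_iff_exists_zpowers_eq_top _).mp hR
    have hρmem : ρ ∈ Q ⊓ rotSub S e := hρ ▸ Subgroup.mem_zpowers ρ
    have hρQ : ρ ∈ Q := hρmem.1
    have hρr : ρ ∈ rotSub S e := hρmem.2
    have hto : orderOf t = 2 := orderOf_of_not_mem_rotSub S e (hQS htQ) htr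
    have htt : t * t = 1 := by rw [← pow_two, ← hto]; exact pow_orderOf_eq_one t
    have htinv : t⁻¹ = t := inv_eq_of_mul_eq_one_left htt
    have htρ : t * ρ ∉ rotSub S e := by
      intro h
      apply htr
      have h1 := Subgroup.mul_mem _ h (Subgroup.inv_mem _ hρr)
      rwa [mul_inv_cancel_right] at h1
    have htρo : orderOf (t * ρ) = 2 :=
      orderOf_of_not_mem_rotSub S e (hQS (Q.mul_mem htQ hρQ)) htρ
    have htρ2 : t * ρ * (t * ρ) = 1 := by rw [← pow_two, ← htρo]; exact pow_orderOf_eq_one _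
    have hconj : t * ρ * t⁻¹ = ρ⁻¹ := by
      rw [htinv]
      calc t * ρ * t = (t * ρ * (t * ρ)) * ρ⁻¹ := by group
        _ = ρ⁻¹ := by rw [htρ2, one_mul]
    have hd0 : orderOf ρ ≠ 0 := (orderOf_pos ρ).ne'
    have hρc : (⟨ρ, hρQ⟩ : ↥Q) ∈ Subgroup.closure ({⟨t, htQ⟩, ⟨ρ, hρQ⟩} : Set ↥Q) :=
      Subgroup.subset_closure (by simp)
    have htc : (⟨t, htQ⟩ : ↥Q) ∈ Subgroup.closure ({⟨t, htQ⟩, ⟨ρ, hρQ⟩} : Set ↥Q) :=
      Subgroup.subset_closure (by simp)
    have key : ∀ x : X, ∀ hx : x ∈ Q, x ∈ rotSub S e →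
        (⟨x, hx⟩ : ↥Q) ∈ Subgroup.closure ({⟨t, htQ⟩, ⟨ρ, hρQ⟩} : Set ↥Q) := by
      intro x hx hxr
      have h1 : x ∈ Subgroup.zpowers ρ := by rw [hρ]; exact ⟨hx, hxr⟩
      obtain ⟨i, hi⟩ := Subgroup.mem_zpowers_iff.mp h1
      have h2 : (⟨x, hx⟩ : ↥Q) = ⟨ρ, hρQ⟩ ^ i := by
        apply Subtype.ext
        rw [Subgroup.coe_zpow]
        exact hi.symm
      rw [h2]
      exact Subgroup.zpow_mem _ hρc i
    have hgen : Subgroup.closure ({⟨t, htQ⟩, ⟨ρ, hρQ⟩} : Set ↥Q) = ⊤ := by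
      rw [Subgroup.eq_top_iff']
      intro q
      by_cases hqr : (q : X) ∈ rotSub S e
      · exact key q q.2 hqr
      · have h1 : (q : X) * t ∈ rotSub S e := mul_mem_rotSub S e (hQS q.2) (hQS htQ) hqr htr
        have h2 := key ((q : X) * t) (Q.mul_mem q.2 htQ) h1
        have h3 : q = ⟨(q : X) * t, Q.mul_mem q.2 htQ⟩ * (⟨t, htQ⟩ : ↥Q)⁻¹ := by
          apply Subtype.ext
          simp
        rw [h3]
        exact Subgroup.mul_mem _ h2 (Subgroup.inv_mem _ htc)
    have hs' : (⟨t, htQ⟩ : ↥Q) ∉ Subgroup.zpowers (⟨ρ, hρQ⟩ : ↥Q) := by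
      intro h
      obtain ⟨i, hi⟩ := Subgroup.mem_zpowers_iff.mp h
      apply htr
      have h1 : ρ ^ i = t := by
        have h0 := congrArg Subtype.val hi
        simpa using h0
      rw [← h1]
      exact Subgroup.zpow_mem _ hρr i
    obtain ⟨e'⟩ := Cfsg.Agent.Lib.Helper21.nonempty_dihedral_mulEquiv (⟨t, htQ⟩ : ↥Q) ⟨ρ, hρQ⟩
      (orderOf ρ) (Subtype.ext htt) (Subgroup.orderOf_mk ρ hρQ) hd0
      (Subtype.ext (by simpa using hconj)) hgen hs'
    refine ⟨orderOf ρ, ?_, ⟨e'.symm⟩⟩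
    rw [Nat.card_congr e'.symm.toEquiv, DihedralGroup.nat_card]

/-- A dihedral `2`-group of order at least `4` contains a four-group. -/
theorem exists_four_of_dihedral {X : Type*} [Group X] [Finite X] (S : Subgroup X) (j : ℕ)
    (hj : 1 ≤ j) (e : ↥S ≃* DihedralGroup (2 ^ j)) :
    ∃ K : Subgroup X, K ≤ S ∧ Nat.card K = 4 ∧ ∀ k ∈ K, k ^ 2 = 1 := by
  have hne : NeZero (2 ^ j) := ⟨by positivity⟩
  obtain ⟨ρ, hρ⟩ : ∃ ρ : X, ρ = ((e.symm (DihedralGroup.r 1) : ↥S) : X) := ⟨_, rfl⟩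
  have hρr : ρ ∈ rotSub S e := by rw [hρ]; exact Subgroup.mem_zpowers _
  have hρo : orderOf ρ = 2 ^ j := by
    rw [hρ, Subgroup.orderOf_coe, MulEquiv.orderOf_eq, DihedralGroup.orderOf_r_one]
  obtain ⟨z, hz⟩ : ∃ z, z = ρ ^ (orderOf ρ / 2) := ⟨_, rfl⟩
  have h2 : 2 ∣ orderOf ρ := by rw [hρo]; exact dvd_pow_self 2 (by omega)
  have hzo : orderOf z = 2 := by rw [hz]; exact orderOf_pow_orderOf_div (orderOf_pos ρ).ne' h2
  have hzr : z ∈ rotSub S e := by rw [hz]; exact Subgroup.pow_mem _ hρr _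
  obtain ⟨t, ht⟩ : ∃ t : X, t = ((e.symm (DihedralGroup.sr 0) : ↥S) : X) := ⟨_, rfl⟩
  have htS : t ∈ S := by rw [ht]; exact (e.symm (DihedralGroup.sr 0)).2
  have htr : t ∉ rotSub S e := by
    rw [ht]
    exact (not_mem_rotSub_iff S e _).mpr ⟨0, by rw [MulEquiv.apply_symm_apply]⟩
  have hto : orderOf t = 2 := orderOf_of_not_mem_rotSub S e htS htr
  have htt : t * t = 1 := by rw [← pow_two, ← hto]; exact pow_orderOf_eq_one t
  have hzz : z * z = 1 := by rw [← pow_two, ← hzo]; exact pow_orderOf_eq_one z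
  have hzS : z ∈ S := rotSub_le S e hzr
  have htz : t * z ∉ rotSub S e := by
    intro h
    apply htr
    have h1 := Subgroup.mul_mem _ h (Subgroup.inv_mem _ hzr)
    rwa [mul_inv_cancel_right] at h1
  have htzo : orderOf (t * z) = 2 := orderOf_of_not_mem_rotSub S e (S.mul_mem htS hzS) htz
  have htz2 : t * z * (t * z) = 1 := by rw [← pow_two, ← htzo]; exact pow_orderOf_eq_one _
  have hcomm : t * z = z * t := by
    calc t * z = (t * z * (t * z)) * (z⁻¹ * t⁻¹) := by group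
      _ = z⁻¹ * t⁻¹ := by rw [htz2, one_mul]
      _ = z * t := by rw [inv_eq_of_mul_eq_one_left hzz, inv_eq_of_mul_eq_one_left htt]
  have ht1 : t ≠ 1 := by
    intro h
    rw [h, orderOf_one] at hto
    norm_num at hto
  have hz1 : z ≠ 1 := by
    intro h
    rw [h, orderOf_one] at hzo
    norm_num at hzo
  have htz' : t ≠ z := fun h => htr (h ▸ hzr)
  obtain ⟨U, hU, hUmem⟩ := exists_four t z ht1 hz1 htz' htt hzz hcomm
  refine ⟨U, ?_, hU.card_four, ?_⟩
  · intro x hx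
    rcases (hUmem x).mp hx with rfl | rfl | rfl | rfl
    · exact S.one_mem
    · exact htS
    · exact hzS
    · exact S.mul_mem htS hzS
  · intro x hx
    rcases (hUmem x).mp hx with rfl | rfl | rfl | rfl
    · exact one_pow 2
    · rw [pow_two]; exact htt
    · rw [pow_two]; exact hzz
    · rw [pow_two]; exact htz2

/-- An element of odd order commutes with whatever its square commutes with. -/
theorem commute_of_sq_commute {X : Type*} [Group X] (y b : X) (hodd : (orderOf y).Coprime 2)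
    (h : y ^ 2 * b = b * y ^ 2) : y * b = b * y := by
  have ho : Odd (orderOf y) := Nat.coprime_two_right.mp hodd
  obtain ⟨l, hl⟩ := ho
  have h1 : y = (y ^ 2) ^ (l + 1) := by
    rw [← pow_mul]
    have h2 : 2 * (l + 1) = orderOf y + 1 := by omega
    rw [h2, pow_succ, pow_orderOf_eq_one, one_mul]
  have hc : Commute ((y ^ 2) ^ (l + 1)) b := (show Commute (y ^ 2) b from h).pow_left (l + 1)
  rw [← h1] at hc
  exact hc.eq

/-- An element of odd order normalizing a dihedral `2`-group of order at least `8`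
centralizes it. -/
theorem centralizes_dihedral {X : Type*} [Group X] [Finite X] (Q : Subgroup X) (j : ℕ)
    (hj : 2 ≤ j) (e : ↥Q ≃* DihedralGroup (2 ^ j)) (y : X)
    (hyN : y ∈ Subgroup.normalizer (Q : Set X)) (hodd : (orderOf y).Coprime 2) :
    y ∈ Subgroup.centralizer (Q : Set X) := by
  have hF2 : Fact (Nat.Prime 2) := ⟨Nat.prime_two⟩
  have hne : NeZero (2 ^ j) := ⟨by positivity⟩
  have hm4 : 4 ≤ 2 ^ j := by
    calc 4 = 2 ^ 2 := by norm_num
      _ ≤ 2 ^ j := Nat.pow_le_pow_right (by norm_num) hj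
  have hQ2 : IsPGroup 2 Q := by
    apply IsPGroup.of_card (n := j + 1)
    rw [Nat.card_congr e.toEquiv, DihedralGroup.nat_card, pow_succ, mul_comm]
  obtain ⟨ρ, hρ⟩ : ∃ ρ : X, ρ = ((e.symm (DihedralGroup.r 1) : ↥Q) : X) := ⟨_, rfl⟩
  have hRdef : rotSub Q e = Subgroup.zpowers ρ := by rw [hρ]; rfl
  have hρr : ρ ∈ rotSub Q e := by rw [hRdef]; exact Subgroup.mem_zpowers _
  have hρQ : ρ ∈ Q := rotSub_le Q e hρr
  have hρo : orderOf ρ = 2 ^ j := by
    rw [hρ, Subgroup.orderOf_coe, MulEquiv.orderOf_eq, DihedralGroup.orderOf_r_one]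
  have hconjQ : ∀ q ∈ Q, y * q * y⁻¹ ∈ Q := fun q hq =>
    (Subgroup.mem_normalizer_iff.mp hyN q).mp hq
  have hyρ : y * ρ * y⁻¹ ∈ rotSub Q e := by
    by_contra hnot
    have h1 := orderOf_of_not_mem_rotSub Q e (hconjQ ρ hρQ) hnot
    rw [orderOf_conj_eq, hρo] at h1
    omega
  have hyNR : y ∈ Subgroup.normalizer (rotSub Q e : Set X) := by
    apply mem_normalizer_of_conj_mem_finite
    intro u hu
    rw [hRdef] at hu
    obtain ⟨i, rfl⟩ := Subgroup.mem_zpowers_iff.mp hu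
    rw [← conj_zpow]
    exact Subgroup.zpow_mem _ hyρ i
  have hRc : IsCyclic ↥(rotSub Q e) := isCyclic_of_le_rotSub Q e le_rfl
  have hR2 : IsPGroup 2 ↥(rotSub Q e) := hQ2.to_le (rotSub_le Q e)
  have hyCR : y ∈ Subgroup.centralizer (rotSub Q e : Set X) :=
    mem_centralizer_of_isCyclic (rotSub Q e) hRc hR2 y hyNR hodd
  have hyR : ∀ u ∈ rotSub Q e, u * y = y * u := Subgroup.mem_centralizer_iff.mp hyCR
  rw [Subgroup.mem_centralizer_iff]
  intro q hq
  by_cases hqr : q ∈ rotSub Q e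
  · exact hyR q hqr
  · obtain ⟨q₁, hq₁⟩ : ∃ q₁, q₁ = y * q * y⁻¹ := ⟨_, rfl⟩
    have hq₁Q : q₁ ∈ Q := by rw [hq₁]; exact hconjQ q hq
    have hq₁r : q₁ ∉ rotSub Q e := by
      intro h
      apply hqr
      have h1 := (Subgroup.mem_normalizer_iff.mp hyNR q).mpr (by rw [← hq₁]; exact h)
      exact h1
    have hqo : orderOf q = 2 := orderOf_of_not_mem_rotSub Q e hq hqr
    have hqq : q * q = 1 := by rw [← pow_two, ← hqo]; exact pow_orderOf_eq_one q
    obtain ⟨r₁, hr₁⟩ : ∃ r₁, r₁ = q * q₁ := ⟨_, rfl⟩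
    have hr₁r : r₁ ∈ rotSub Q e := by rw [hr₁]; exact mul_mem_rotSub Q e hq hq₁Q hqr hq₁r
    have hq₁' : y * q * y⁻¹ = q * r₁ := by
      rw [hr₁, ← hq₁, ← mul_assoc, hqq, one_mul]
    have hyr₁ : Commute y r₁ := (hyR r₁ hr₁r).symm
    have hiter : ∀ n : ℕ, y ^ n * q * (y ^ n)⁻¹ = q * r₁ ^ n := by
      intro n
      induction n with
      | zero => simp
      | succ n ih =>
        have e1 : y ^ (n + 1) * q * (y ^ (n + 1))⁻¹ = y * (y ^ n * q * (y ^ n)⁻¹) * y⁻¹ := by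
          rw [pow_succ']
          obtain ⟨Y, hY⟩ : ∃ Y, Y = y ^ n := ⟨_, rfl⟩
          rw [← hY]; group
        have e2 : y * (r₁ ^ n) * y⁻¹ = r₁ ^ n := by
          have hc : Commute y (r₁ ^ n) := hyr₁.pow_right n
          rw [hc.eq, mul_inv_cancel_right]
        rw [e1, ih, pow_succ']
        obtain ⟨Rn, hRn⟩ : ∃ Rn, Rn = r₁ ^ n := ⟨_, rfl⟩
        rw [← hRn] at e2 ⊢
        calc y * (q * Rn) * y⁻¹ = (y * q * y⁻¹) * (y * Rn * y⁻¹) := by group
          _ = q * r₁ * Rn := by rw [e2, hq₁']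
          _ = q * (r₁ * Rn) := by group
    have h1 := hiter (orderOf y)
    rw [pow_orderOf_eq_one, one_mul, inv_one, mul_one] at h1
    have h2 : r₁ ^ orderOf y = 1 := by
      have h3 : q * 1 = q * r₁ ^ orderOf y := by rw [mul_one]; exact h1
      exact (mul_left_cancel h3).symm
    have h4 : orderOf r₁ ∣ orderOf y := orderOf_dvd_of_pow_eq_one h2
    obtain ⟨k, hk⟩ := (IsPGroup.iff_orderOf.mp hR2) ⟨r₁, hr₁r⟩
    rw [Subgroup.orderOf_mk] at hk
    have h5 : orderOf r₁ = 1 := by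
      have hcop : (orderOf r₁).Coprime (orderOf r₁) := by
        have h6 : (orderOf r₁).Coprime (2 ^ k) :=
          Nat.Coprime.pow_right k (Nat.Coprime.coprime_dvd_left h4 hodd)
        rw [← hk] at h6
        exact h6
      exact (Nat.coprime_self _).mp hcop
    have hr1 : r₁ = 1 := orderOf_eq_one_iff.mp h5
    rw [hr1, mul_one] at hq₁'
    calc q * y = (y * q * y⁻¹) * y := by rw [hq₁']
      _ = y * q := by group

/-- A commutative dihedral group has at most four elements. -/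
theorem dihedral_dvd_two_of_comm (m : ℕ) (h : ∀ a b : DihedralGroup m, a * b = b * a) :
    m ∣ 2 := by
  have h1 := h (DihedralGroup.r 1) (DihedralGroup.sr 0)
  rw [DihedralGroup.r_mul_sr, DihedralGroup.sr_mul_r] at h1
  have h2 : (0 : ZMod m) - 1 = 0 + 1 := by
    injection h1
  have h3 : ((2 : ℕ) : ZMod m) = 0 := by
    have h4 : (2 : ZMod m) = (0 + 1) - (0 - 1) := by ring
    rw [← h2, sub_self] at h4
    exact_mod_cast h4
  exact (ZMod.natCast_eq_zero_iff 2 m).mp h3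

/-- The alternating group of degree four is not commutative. -/
theorem a4_not_comm : ¬ ∀ a b : alternatingGroup (Fin 4), a * b = b * a := by
  intro h
  have hc : Subgroup.center (alternatingGroup (Fin 4)) = ⊥ :=
    alternatingGroup.center_eq_bot (by simp)
  have h1 : ∀ a : alternatingGroup (Fin 4), a = 1 := by
    intro a
    have h2 : a ∈ Subgroup.center (alternatingGroup (Fin 4)) := by
      rw [Subgroup.mem_center_iff]; intro g; exact h g a
    rw [hc, Subgroup.mem_bot] at h2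
    exact h2
  have h12 : Nat.card (alternatingGroup (Fin 4)) = 12 := by
    rw [nat_card_alternatingGroup]
    simp [Nat.factorial]
  have h3 : Nat.card (alternatingGroup (Fin 4)) ≤ 1 :=
    Finite.card_le_one_iff_subsingleton.mpr ⟨fun a b => by rw [h1 a, h1 b]⟩
  omega

/-- A group of order four and exponent two is not cyclic. -/
theorem not_cyclic_four {G : Type*} [Group G] (K : Subgroup G) (hK4 : Nat.card K = 4)
    (hKexp : ∀ k ∈ K, k ^ 2 = 1) : ¬ IsCyclic K := by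
  intro hc
  have hfin : Finite K := Nat.finite_of_card_ne_zero (by rw [hK4]; norm_num)
  obtain ⟨g, hg⟩ := isCyclic_iff_exists_orderOf_eq_natCard.mp hc
  have h1 : g ^ 2 = 1 := Subtype.ext (by simpa using hKexp g g.2)
  have h2 : orderOf g ∣ 2 := orderOf_dvd_of_pow_eq_one h1
  rw [hg, hK4] at h2
  norm_num at h2

end Cfsg.Agent.Lib.Helper5
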