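import Cfsg.Agent.Lib.Helper5.G504D

set_option autoImplicit false

namespace Cfsg.Agent.Lib.Helper5.G4080

open Subgroup Cfsg.Agent.Lib.Helper8 Cfsg.Agent.S1002 Cfsg.Agent.S1003 Cfsg.Agent.S1006
open Cfsg.Agent.Lib.Helper5.G504 (faithful_sylow exists_fixed_ne card_union_ge card_nonid cj
  cj_conj cj_zero pow_smul_fixed cj_smul mem_normalizer_zpowers)

theorem n17_val (n : ℕ) (hdvd : n ∣ 240) (hmod : n % 17 = 1) (hne : n ≠ 1) : n = 120 := by
  obtain ⟨m, hm⟩ := hdvd
  have hn : n ≤ 240 := Nat.le_of_dvd (by norm_num) ⟨m, hm⟩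
  have hm' : m ≤ 240 := Nat.le_of_dvd (by norm_num) ⟨n, by rw [hm, mul_comm]⟩
  have h18 : 18 ≤ n := by
    by_contra hlt
    push Not at hlt
    interval_cases n <;> omega
  have hm13 : m ≤ 13 := by nlinarith
  interval_cases m <;> omega

theorem n5_val (n : ℕ) (hdvd : n ∣ 816) (hmod : n % 5 = 1) (h17 : 17 ≤ n) :
    n = 51 ∨ n = 136 ∨ n = 816 := by
  obtain ⟨m, hm⟩ := hdvd
  have hm48 : m ≤ 48 := by nlinarith
  interval_cases m <;> omega

theorem n3_val (n : ℕ) (hdvd : n ∣ 1360) (hmod : n % 3 = 1) (h17 : 17 ≤ n) :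
    n = 34 ∨ n = 40 ∨ n = 85 ∨ n = 136 ∨ n = 340 ∨ n = 1360 := by
  obtain ⟨m, hm⟩ := hdvd
  have hm80 : m ≤ 80 := by nlinarith
  interval_cases m <;> omega

theorem pow5_mod3 : ∀ m : ℕ, m < 3 → m ^ 5 % 3 = 1 % 3 → m = 1 := by decide

section abs
set_option linter.unusedSectionVars false
variable {G : Type*} [Group G] [Finite G]

theorem centralizer_zpowers_eq (y : G) :
    centralizer ((zpowers y : Subgroup G) : Set G) = centralizer ({y} : Set G) := by
  ext g
  rw [Subgroup.mem_centralizer_iff, Subgroup.mem_centralizer_singleton_iff]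
  constructor
  · intro h; exact (h y (mem_zpowers y)).symm
  · intro h z hz
    obtain ⟨i, rfl⟩ := Subgroup.mem_zpowers_iff.mp hz
    exact ((Commute.zpow_right (show Commute g y from h) i).eq).symm

theorem centralizer_elem [IsSimpleGroup G] {p : ℕ} [hp : Fact p.Prime]
    (hc : ∀ P : Sylow p G, Nat.card P = p) (hPG : p ≠ Nat.card G) (y : G)
    (hy : orderOf y = p) :
    ∃ (P : Sylow p G) (k : ℕ), zpowers y = (P : Subgroup G) ∧ k ∣ p - 1 ∧ k ≠ 1 ∧
      Nat.card (normalizer ((P : Subgroup G) : Set G)) =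
        k * Nat.card (centralizer ({y} : Set G)) := by
  have hpg : IsPGroup p (zpowers y) :=
    IsPGroup.of_card (n := 1) (by rw [Nat.card_zpowers, hy, pow_one])
  obtain ⟨P, hP⟩ := hpg.exists_le_sylow
  have hPz : zpowers y = (P : Subgroup G) :=
    Subgroup.eq_of_le_of_card_ge hP (by rw [Nat.card_zpowers, hy, hc P])
  have hcyc : IsCyclic (P : Subgroup G) := isCyclic_of_prime_card (p := p) (hc P)
  have h1 := relIndex_centralizer_normalizer_dvd_totient (P : Subgroup G)
  rw [show Nat.card (P : Subgroup G) = p from hc P, Nat.totient_prime hp.out] at h1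
  have hne1 : (centralizer ((P : Subgroup G) : Set G)).relIndex
      (normalizer ((P : Subgroup G) : Set G)) ≠ 1 := by
    intro h
    exact not_normalizer_le_centralizer_of_simple P (by rw [hc P]; exact hp.out.one_lt.ne')
      (by rw [hc P]; exact hPG) (Subgroup.relIndex_eq_one.1 h)
  have h4 := Subgroup.relIndex_mul_index
    (Subgroup.centralizer_le_normalizer (s := ((P : Subgroup G) : Set G)))
  have h5 := Subgroup.card_mul_index (normalizer ((P : Subgroup G) : Set G))
  have h6 := Subgroup.card_mul_index (centralizer ((P : Subgroup G) : Set G))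
  refine ⟨P, _, hPz, h1, hne1, ?_⟩
  rw [← centralizer_zpowers_eq y, hPz]
  have hpos : 0 < (normalizer ((P : Subgroup G) : Set G)).index :=
    Nat.pos_of_ne_zero Subgroup.index_ne_zero_of_finite
  rw [← h4, ← h5] at h6
  apply Nat.eq_of_mul_eq_mul_right hpos
  rw [← h6]; ring

theorem commute_of_normalize (y d : G) {p q : ℕ} (hd : orderOf d = p) (hy : orderOf y = q)
    (hp : 1 < p) (hN : y * d * y⁻¹ ∈ zpowers d)
    (hdec : ∀ m : ℕ, m < p → m ^ q % p = 1 % p → m = 1) : y * d = d * y := by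
  obtain ⟨k, hk⟩ := Subgroup.mem_zpowers_iff.mp hN
  obtain ⟨m, hmp, hm⟩ : ∃ m : ℕ, m < p ∧ d ^ m = y * d * y⁻¹ := by
    refine ⟨(k % p).toNat, ?_, ?_⟩
    · have : (0 : ℤ) < p := by omega
      have h1 := Int.emod_lt_of_pos k this
      have h2 := Int.emod_nonneg k (by omega : (p : ℤ) ≠ 0)
      omega
    · rw [← hk, ← zpow_natCast, Int.toNat_of_nonneg (Int.emod_nonneg k (by omega))]
      have := zpow_mod_orderOf d k
      rw [hd] at this
      exact this
  have hc : ∀ n : ℕ, y ^ n * d * (y ^ n)⁻¹ = d ^ (m ^ n) := by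
    intro n
    induction n with
    | zero => simp
    | succ n ih =>
      have e1 : y ^ (n + 1) * d * (y ^ (n + 1))⁻¹ = y * (y ^ n * d * (y ^ n)⁻¹) * y⁻¹ := by
        rw [pow_succ']; group
      rw [e1, ih, ← conj_pow, ← hm, ← pow_mul, pow_succ']
  have h3 := hc q
  rw [← hy, pow_orderOf_eq_one] at h3
  simp only [one_mul, inv_one, mul_one] at h3
  have h4 : d ^ (m ^ orderOf y) = d ^ 1 := by rw [← h3, pow_one]
  rw [hy, pow_eq_pow_iff_modEq, hd] at h4
  have hm1 := hdec m hmp h4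
  rw [hm1, pow_one] at hm
  calc y * d = (y * d * y⁻¹) * y := by group
    _ = d * y := by rw [← hm]

theorem fiber_count (p k e : ℕ)
    (hD : ∀ y : G, orderOf y = p → ∃ D : Subgroup G, Nat.card D = k ∧
      (∀ u ∈ D, u * y = y * u) ∧ (∀ u ∈ D, u ^ e = 1))
    (hpe : ∀ y : G, orderOf y = p → y ^ e = y) :
    k * {y : G | orderOf y = p}.ncard ≤ {g : G | orderOf (g ^ e) = p}.ncard := by
  classical
  choose D hDk hDc hDe using hD
  have : Fintype {y : G | orderOf y = p} := Fintype.ofFinite _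
  let f : (Σ y : {y : G | orderOf y = p}, D y.1 y.2) → {g : G | orderOf (g ^ e) = p} :=
    fun s => ⟨s.1.1 * s.2.1, by
      have hc : Commute s.1.1 s.2.1 := (hDc s.1.1 s.1.2 s.2.1 s.2.2).symm
      show orderOf ((s.1.1 * s.2.1) ^ e) = p
      rw [hc.mul_pow, hDe s.1.1 s.1.2 s.2.1 s.2.2, mul_one, hpe s.1.1 s.1.2]
      exact s.1.2⟩
  have hf : Function.Injective f := by
    rintro ⟨⟨y, hy⟩, ⟨u, hu⟩⟩ ⟨⟨y', hy'⟩, ⟨u', hu'⟩⟩ hxy
    have h1 : y * u = y' * u' := congrArg Subtype.val hxy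
    have h2 : (y * u) ^ e = y := by
      have hc : Commute y u := (hDc y hy u hu).symm
      rw [hc.mul_pow, hDe y hy u hu, mul_one, hpe y hy]
    have h3 : (y' * u') ^ e = y' := by
      have hc : Commute y' u' := (hDc y' hy' u' hu').symm
      rw [hc.mul_pow, hDe y' hy' u' hu', mul_one, hpe y' hy']
    have hyy : y = y' := by rw [← h2, ← h3, h1]
    subst hyy
    have huu : u = u' := mul_left_cancel h1
    subst huu
    rfl
  have h1 := Nat.card_le_card_of_injective f hf
  rw [Nat.card_sigma] at h1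
  simp only [hDk, Finset.sum_const, Finset.card_univ, smul_eq_mul] at h1
  rw [← Nat.card_eq_fintype_card, Nat.card_coe_set_eq, Nat.card_coe_set_eq] at h1
  rw [mul_comm]; exact h1

theorem exists_two_subgroup [Fact (Nat.Prime 2)] (y : G) (n : ℕ)
    (h : 2 ^ n ∣ Nat.card (centralizer ({y} : Set G))) (hn : n ≤ 4) :
    ∃ D : Subgroup G, Nat.card D = 2 ^ n ∧ (∀ u ∈ D, u * y = y * u) ∧
      (∀ u ∈ D, u ^ 16 = 1) := by
  obtain ⟨K, hK⟩ := Sylow.exists_subgroup_card_pow_prime 2 h
  refine ⟨K.map (centralizer ({y} : Set G)).subtype, ?_, ?_, ?_⟩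
  · rw [card_map_subtype]; exact hK
  · rintro u ⟨v, -, rfl⟩
    exact Subgroup.mem_centralizer_singleton_iff.mp v.2
  · intro u hu
    have h1 : orderOf u ∣ 2 ^ n := by
      have := Subgroup.orderOf_dvd_natCard _ hu
      rwa [card_map_subtype, hK] at this
    have h2 : orderOf u ∣ 2 ^ 4 := h1.trans (pow_dvd_pow 2 hn)
    exact orderOf_dvd_iff_pow_eq_one.mp h2

theorem facts4080 [IsSimpleGroup G] (hG : Nat.card G = 4080) [Fact (Nat.Prime 2)]
    [Fact (Nat.Prime 3)] [Fact (Nat.Prime 5)] [Fact (Nat.Prime 17)] :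
    (∀ P : Sylow 17 G, Nat.card P = 17) ∧ (∀ P : Sylow 5 G, Nat.card P = 5) ∧
    (∀ P : Sylow 3 G, Nat.card P = 3) ∧ (∀ P : Sylow 2 G, Nat.card P = 16) ∧
    Nat.card (Sylow 17 G) = 120 ∧
    (∀ P : Sylow 17 G, Nat.card (normalizer ((P : Subgroup G) : Set G)) = 34) ∧
    ¬ IsMulCommutative G ∧ (∀ H : Subgroup G, H ≠ ⊤ → 17 ≤ H.index) := by
  have hc17 : ∀ P : Sylow 17 G, Nat.card P = 17 := fun P => by
    have := sylow_card_of_card_eq 1 240 (by norm_num) (by rw [hG]; norm_num) P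
    simpa using this
  have hc5 : ∀ P : Sylow 5 G, Nat.card P = 5 := fun P => by
    have := sylow_card_of_card_eq 1 816 (by norm_num) (by rw [hG]; norm_num) P
    simpa using this
  have hc3 : ∀ P : Sylow 3 G, Nat.card P = 3 := fun P => by
    have := sylow_card_of_card_eq 1 1360 (by norm_num) (by rw [hG]; norm_num) P
    simpa using this
  have hc2 : ∀ P : Sylow 2 G, Nat.card P = 16 := fun P => by
    have := sylow_card_of_card_eq 4 255 (by norm_num) (by rw [hG]; norm_num) P
    simpa using this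
  have hn17 : Nat.card (Sylow 17 G) = 120 := by
    obtain ⟨P⟩ : Nonempty (Sylow 17 G) := inferInstance
    exact n17_val _ (card_sylow_dvd_of_card_eq 1 240 (by norm_num) (by rw [hG]; norm_num))
      card_sylow_mod
      (card_sylow_ne_one_of_simple P (by rw [hc17 P]; norm_num) (by rw [hc17 P, hG]; norm_num))
  have hN17 : ∀ P : Sylow 17 G,
      Nat.card (normalizer ((P : Subgroup G) : Set G)) = 34 := by
    intro P
    have := card_sylow_mul_card_normalizer P
    rw [hn17, hG] at this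
    omega
  have hnc : ¬ IsMulCommutative G :=
    not_comm_of_sylow_ne_one (p := 17) (by rw [hn17]; norm_num)
  refine ⟨hc17, hc5, hc3, hc2, hn17, hN17, hnc, ?_⟩
  intro H hH
  have hfac := two_mul_card_dvd_factorial_of_simple hnc H hH
  rw [hG] at hfac
  exact (Nat.Prime.dvd_factorial (by norm_num : Nat.Prime 17)).mp
    (dvd_trans (by norm_num : 17 ∣ 2 * 4080) hfac)

end abs

end Cfsg.Agent.Lib.Helper5.G4080
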