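import Cfsg.Agent.Lib.Helper5.G4080A

set_option autoImplicit false

namespace Cfsg.Agent.Lib.Helper5.G4080

open Subgroup Cfsg.Agent.Lib.Helper8 Cfsg.Agent.S1002 Cfsg.Agent.S1003 Cfsg.Agent.S1006
open Cfsg.Agent.Lib.Helper5.G504 (faithful_sylow exists_fixed_ne card_union_ge card_nonid cj
  cj_conj cj_zero pow_smul_fixed cj_smul mem_normalizer_zpowers)

theorem k_val4 (k : ℕ) (h : k ∣ 4) (h1 : k ≠ 1) : k = 2 ∨ k = 4 := by
  have : k ≤ 4 := Nat.le_of_dvd (by norm_num) h
  interval_cases k <;> simp_all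

theorem k_val2 (k : ℕ) (h : k ∣ 2) (h1 : k ≠ 1) : k = 2 := by
  have : k ≤ 2 := Nat.le_of_dvd (by norm_num) h
  interval_cases k <;> simp_all

section abs
set_option linter.unusedSectionVars false
variable {G : Type*} [Group G] [Finite G]

theorem mod5_of_card15 [IsSimpleGroup G] (hG : Nat.card G = 4080) [Fact (Nat.Prime 2)]
    [Fact (Nat.Prime 3)] [Fact (Nat.Prime 5)] [Fact (Nat.Prime 17)] (y : G)
    (hoy : orderOf y = 5) (hC : Nat.card (centralizer ({y} : Set G)) = 15) :
    Nat.card (Sylow 3 G) ≡ 1 [MOD 5] := by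
  obtain ⟨hc17, hc5, hc3, hc2, hn17, hN17, hnc, hidx⟩ := facts4080 hG
  by_contra hmod
  have h3 : 3 ∣ Nat.card (centralizer ({y} : Set G)) := by rw [hC]; norm_num
  obtain ⟨d', hd'⟩ := exists_prime_orderOf_dvd_card' 3 h3
  obtain ⟨d, hd⟩ : ∃ d : G, d = (d' : G) := ⟨_, rfl⟩
  have hod : orderOf d = 3 := by rw [hd, Subgroup.orderOf_coe]; exact hd'
  have hdy : d * y = y * d := by
    rw [hd]; exact Subgroup.mem_centralizer_singleton_iff.mp d'.2
  have hpg : IsPGroup 3 (zpowers d) :=
    IsPGroup.of_card (n := 1) (by rw [Nat.card_zpowers, hod, pow_one])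
  obtain ⟨P, hP⟩ := hpg.exists_le_sylow
  have hPz : zpowers d = (P : Subgroup G) :=
    Subgroup.eq_of_le_of_card_ge hP (by rw [Nat.card_zpowers, hod, hc3 P])
  have hyN : y ∈ normalizer ((P : Subgroup G) : Set G) := by
    rw [← hPz]
    apply mem_normalizer_zpowers
    · have : y * d * y⁻¹ = d := by rw [← hdy, mul_inv_cancel_right]
      rw [this]; exact mem_zpowers d
    · have : y⁻¹ * d * y = d := by rw [mul_assoc, hdy, inv_mul_cancel_left]
      rw [this]; exact mem_zpowers d
  have hyP : y • P = P := Sylow.smul_eq_iff_mem_normalizer.mpr hyN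
  obtain ⟨Q, hQP, hyQ⟩ := exists_fixed_ne y hoy P hyP hmod
  obtain ⟨d₂, hd₂Q, hd₂1⟩ : ∃ g : G, g ∈ (Q : Subgroup G) ∧ g ≠ 1 := by
    by_contra hcon
    push Not at hcon
    have hb : (Q : Subgroup G) = ⊥ := (Subgroup.eq_bot_iff_forall _).mpr hcon
    have h3' : Nat.card (Q : Subgroup G) = 3 := hc3 Q
    rw [hb] at h3'
    simp at h3'
  have hod₂ : orderOf d₂ = 3 := orderOf_of_mem_sylow Q (hc3 Q) d₂ hd₂1 hd₂Q
  have hQz : zpowers d₂ = (Q : Subgroup G) :=
    Subgroup.eq_of_le_of_card_ge (by rwa [zpowers_le]) (by rw [Nat.card_zpowers, hod₂, hc3 Q])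
  have hN2 : y * d₂ * y⁻¹ ∈ zpowers d₂ := by
    rw [hQz]
    exact (Subgroup.mem_normalizer_iff.mp (Sylow.smul_eq_iff_mem_normalizer.mp hyQ) d₂).mp hd₂Q
  have hyd₂ : y * d₂ = d₂ * y :=
    commute_of_normalize y d₂ hod₂ hoy (by norm_num) hN2 pow5_mod3
  have hcomm : Commute y d := hdy.symm
  have how : orderOf (y * d) = 15 := by
    have := hcomm.orderOf_mul_eq_mul_orderOf_of_coprime (by rw [hoy, hod]; norm_num)
    rw [this, hoy, hod]
  have hwC : zpowers (y * d) = centralizer ({y} : Set G) := by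
    apply Subgroup.eq_of_le_of_card_ge
    · rw [zpowers_le, Subgroup.mem_centralizer_singleton_iff]
      rw [mul_assoc, hdy]
    · rw [Nat.card_zpowers, how, hC]
  have hd₂C : d₂ ∈ zpowers (y * d) := by
    rw [hwC, Subgroup.mem_centralizer_singleton_iff]; exact hyd₂.symm
  obtain ⟨k, hk⟩ := Subgroup.mem_zpowers_iff.mp hd₂C
  obtain ⟨m, hm⟩ : ∃ m : ℕ, (y * d) ^ m = d₂ := by
    refine ⟨(k % 15).toNat, ?_⟩
    rw [← hk, ← zpow_natCast, Int.toNat_of_nonneg (by omega)]
    have := zpow_mod_orderOf (y * d) k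
    rw [how] at this
    exact this
  rw [hcomm.mul_pow] at hm
  have hy5 : y ^ 5 = 1 := by rw [← hoy]; exact pow_orderOf_eq_one y
  have hd3 : d ^ 3 = 1 := by rw [← hod]; exact pow_orderOf_eq_one d
  have hu5 : (y ^ m) ^ 5 = 1 := by rw [← pow_mul, mul_comm, pow_mul, hy5, one_pow]
  have hu3 : (y ^ m) ^ 3 = 1 := by
    have h1 : d₂ ^ 3 = 1 := by rw [← hod₂]; exact pow_orderOf_eq_one d₂
    rw [← hm, (hcomm.pow_pow m m).mul_pow] at h1
    have h2 : (d ^ m) ^ 3 = 1 := by rw [← pow_mul, mul_comm, pow_mul, hd3, one_pow]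
    rw [h2, mul_one] at h1
    exact h1
  have hu1 : y ^ m = 1 := by
    have h1 := orderOf_dvd_of_pow_eq_one hu5
    have h2 := orderOf_dvd_of_pow_eq_one hu3
    exact orderOf_eq_one_iff.mp
      (Nat.eq_one_of_dvd_coprimes (by norm_num : Nat.Coprime 5 3) h1 h2)
  rw [hu1, one_mul] at hm
  have hd₂P : d₂ ∈ (P : Subgroup G) := by
    rw [← hPz, ← hm]; exact pow_mem (mem_zpowers d) m
  exact hQP (mem_sylow_of_mem_two Q P (hc3 Q) d₂ hd₂1 hd₂Q hd₂P)

theorem facts4080b [IsSimpleGroup G] (hG : Nat.card G = 4080) [Fact (Nat.Prime 2)]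
    [Fact (Nat.Prime 3)] [Fact (Nat.Prime 5)] [Fact (Nat.Prime 17)] :
    Nat.card (Sylow 5 G) = 136 ∧ Nat.card (Sylow 3 G) = 136 ∧
    (∀ y : G, orderOf y = 5 → Nat.card (centralizer ({y} : Set G)) = 15) ∧
    (∀ d : G, orderOf d = 3 → Nat.card (centralizer ({d} : Set G)) = 15) := by
  obtain ⟨hc17, hc5, hc3, hc2, hn17, hN17, hnc, hidx⟩ := facts4080 hG
  have hn5c : Nat.card (Sylow 5 G) = 51 ∨ Nat.card (Sylow 5 G) = 136 ∨
      Nat.card (Sylow 5 G) = 816 := by
    obtain ⟨P⟩ : Nonempty (Sylow 5 G) := inferInstance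
    have hne : Nat.card (Sylow 5 G) ≠ 1 :=
      card_sylow_ne_one_of_simple P (by rw [hc5 P]; norm_num) (by rw [hc5 P, hG]; norm_num)
    have htop : normalizer ((P : Subgroup G) : Set G) ≠ ⊤ := by
      intro h
      apply hne
      rw [Sylow.card_eq_index_normalizer P]
      show (normalizer ((P : Subgroup G) : Set G)).index = 1
      rw [h, index_top]
    have h17 := hidx _ htop
    have h9 : Nat.card (Sylow 5 G) = (normalizer ((P : Subgroup G) : Set G)).index :=
      Sylow.card_eq_index_normalizer P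
    exact n5_val _ (card_sylow_dvd_of_card_eq 1 816 (by norm_num) (by rw [hG]; norm_num))
      card_sylow_mod (by omega)
  have hn3c : Nat.card (Sylow 3 G) = 34 ∨ Nat.card (Sylow 3 G) = 40 ∨
      Nat.card (Sylow 3 G) = 85 ∨ Nat.card (Sylow 3 G) = 136 ∨ Nat.card (Sylow 3 G) = 340 ∨
      Nat.card (Sylow 3 G) = 1360 := by
    obtain ⟨P⟩ : Nonempty (Sylow 3 G) := inferInstance
    have hne : Nat.card (Sylow 3 G) ≠ 1 :=
      card_sylow_ne_one_of_simple P (by rw [hc3 P]; norm_num) (by rw [hc3 P, hG]; norm_num)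
    have htop : normalizer ((P : Subgroup G) : Set G) ≠ ⊤ := by
      intro h
      apply hne
      rw [Sylow.card_eq_index_normalizer P]
      show (normalizer ((P : Subgroup G) : Set G)).index = 1
      rw [h, index_top]
    have h17 := hidx _ htop
    have h9 : Nat.card (Sylow 3 G) = (normalizer ((P : Subgroup G) : Set G)).index :=
      Sylow.card_eq_index_normalizer P
    exact n3_val _ (card_sylow_dvd_of_card_eq 1 1360 (by norm_num) (by rw [hG]; norm_num))
      card_sylow_mod (by omega)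
  have hC5 : ∀ y : G, orderOf y = 5 → ∃ k, (k = 2 ∨ k = 4) ∧
      Nat.card (Sylow 5 G) * (k * Nat.card (centralizer ({y} : Set G))) = 4080 ∧
      5 ∣ Nat.card (centralizer ({y} : Set G)) := by
    intro y hy
    obtain ⟨P, k, hPz, hk, hk1, hN⟩ := centralizer_elem hc5 (by rw [hG]; norm_num) y hy
    have h1 := card_sylow_mul_card_normalizer P
    rw [hN, hG] at h1
    refine ⟨k, k_val4 k hk hk1, h1, ?_⟩
    have := Subgroup.orderOf_dvd_natCard (centralizer ({y} : Set G))
      (show y ∈ centralizer ({y} : Set G) from Subgroup.mem_centralizer_singleton_iff.mpr rfl)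
    rwa [hy] at this
  have hC3 : ∀ d : G, orderOf d = 3 →
      Nat.card (Sylow 3 G) * (2 * Nat.card (centralizer ({d} : Set G))) = 4080 := by
    intro d hd
    obtain ⟨P, k, hPz, hk, hk1, hN⟩ := centralizer_elem hc3 (by rw [hG]; norm_num) d hd
    have h1 := card_sylow_mul_card_normalizer P
    rw [hN, hG] at h1
    rw [k_val2 k hk hk1] at h1; exact h1
  have h17 : ∀ v : G, (orderOf v = 3 ∨ orderOf v = 5) →
      ¬ 17 ∣ Nat.card (centralizer ({v} : Set G)) := by
    intro v hv h
    obtain ⟨x', hx'⟩ := exists_prime_orderOf_dvd_card' 17 h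
    have hox : orderOf (x' : G) = 17 := by rw [Subgroup.orderOf_coe]; exact hx'
    have hxc := x'.2
    rw [Subgroup.mem_centralizer_singleton_iff] at hxc
    have hmem := commute_mem_zpowers Nat.prime_two hc17 (by rw [hG]; norm_num) hN17
      (x' : G) v hox hxc
    have e3 : orderOf v ∣ 17 := by
      have := Subgroup.orderOf_dvd_natCard _ hmem
      rwa [Nat.card_zpowers, hox] at this
    rcases hv with hv | hv <;> rw [hv] at e3 <;> norm_num at e3
  obtain ⟨y₀, hy₀⟩ := exists_prime_orderOf_dvd_card' (G := G) 5 (by rw [hG]; norm_num)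
  obtain ⟨d₀, hd₀⟩ := exists_prime_orderOf_dvd_card' (G := G) 3 (by rw [hG]; norm_num)
  have hc3v : ∀ d : G, orderOf d = 3 →
      (Nat.card (Sylow 3 G) = 34 ∧ Nat.card (centralizer ({d} : Set G)) = 60) ∨
      (Nat.card (Sylow 3 G) = 85 ∧ Nat.card (centralizer ({d} : Set G)) = 24) ∨
      (Nat.card (Sylow 3 G) = 136 ∧ Nat.card (centralizer ({d} : Set G)) = 15) ∨
      (Nat.card (Sylow 3 G) = 340 ∧ Nat.card (centralizer ({d} : Set G)) = 6) := by
    intro d hd
    have h1 := hC3 d hd
    have h2 := h17 d (Or.inl hd)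
    rcases hn3c with h | h | h | h | h | h <;> rw [h] at h1
    · left; exact ⟨h, by omega⟩
    · exfalso; apply h2
      have : Nat.card (centralizer ({d} : Set G)) = 51 := by omega
      rw [this]; norm_num
    · right; left; exact ⟨h, by omega⟩
    · right; right; left; exact ⟨h, by omega⟩
    · right; right; right; exact ⟨h, by omega⟩
    · omega
  rcases hn5c with h5 | h5 | h5
  · exfalso
    have hc5v : ∀ y : G, orderOf y = 5 → Nat.card (centralizer ({y} : Set G)) = 20 ∨
        Nat.card (centralizer ({y} : Set G)) = 40 := by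
      intro y hy
      obtain ⟨k, hk, h1, -⟩ := hC5 y hy
      rw [h5] at h1
      rcases hk with rfl | rfl <;> omega
    have hno15 : ∀ d : G, orderOf d = 3 → ¬ 5 ∣ Nat.card (centralizer ({d} : Set G)) := by
      intro d hd h
      obtain ⟨y', hy'⟩ := exists_prime_orderOf_dvd_card' 5 h
      have hoy : orderOf (y' : G) = 5 := by rw [Subgroup.orderOf_coe]; exact hy'
      have hyc := y'.2
      rw [Subgroup.mem_centralizer_singleton_iff] at hyc
      have hdC : d ∈ centralizer ({(y' : G)} : Set G) := by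
        rw [Subgroup.mem_centralizer_singleton_iff]; exact hyc.symm
      have := Subgroup.orderOf_dvd_natCard _ hdC
      rw [hd] at this
      rcases hc5v _ hoy with h' | h' <;> rw [h'] at this <;> norm_num at this
    have hA17 : {g : G | orderOf g = 17}.ncard = 1920 := by rw [card_order_eq hc17, hn17]
    have hA5 : {g : G | orderOf g = 5}.ncard = 204 := by rw [card_order_eq hc5, h5]
    have hR5 : 2 ^ 2 * {y : G | orderOf y = 5}.ncard ≤ {g : G | orderOf (g ^ 16) = 5}.ncard := by
      apply fiber_count 5 (2 ^ 2) 16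
      · intro y hy
        have h4 : 2 ^ 2 ∣ Nat.card (centralizer ({y} : Set G)) := by
          rcases hc5v y hy with h' | h' <;> rw [h'] <;> norm_num
        exact exists_two_subgroup y 2 h4 (by norm_num)
      · intro y hy
        have hy5 : y ^ 5 = 1 := by rw [← hy]; exact pow_orderOf_eq_one y
        calc y ^ 16 = (y ^ 5) ^ 3 * y := by rw [← pow_mul, ← pow_succ]
          _ = y := by rw [hy5, one_pow, one_mul]
    have hpe3 : ∀ d : G, orderOf d = 3 → d ^ 16 = d := by
      intro d hd
      have hd3 : d ^ 3 = 1 := by rw [← hd]; exact pow_orderOf_eq_one d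
      calc d ^ 16 = (d ^ 3) ^ 5 * d := by rw [← pow_mul, ← pow_succ]
        _ = d := by rw [hd3, one_pow, one_mul]
    have hR3 : 1360 ≤ {g : G | orderOf (g ^ 16) = 3}.ncard := by
      rcases hc3v d₀ hd₀ with ⟨hn, hc⟩ | ⟨hn, hc⟩ | ⟨hn, hc⟩ | ⟨hn, hc⟩
      · exfalso; exact hno15 d₀ hd₀ (by rw [hc]; norm_num)
      · have hall : ∀ d : G, orderOf d = 3 → Nat.card (centralizer ({d} : Set G)) = 24 := by
          intro d hd
          have := hC3 d hd
          rw [hn] at this; omega
        have hA3 : {g : G | orderOf g = 3}.ncard = 170 := by rw [card_order_eq hc3, hn]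
        have := fiber_count 3 (2 ^ 3) 16
          (fun d hd => exists_two_subgroup d 3 (by rw [hall d hd]; norm_num) (by norm_num)) hpe3
        rw [hA3] at this
        norm_num at this
        exact this
      · exfalso; exact hno15 d₀ hd₀ (by rw [hc]; norm_num)
      · have hall : ∀ d : G, orderOf d = 3 → Nat.card (centralizer ({d} : Set G)) = 6 := by
          intro d hd
          have := hC3 d hd
          rw [hn] at this; omega
        have hA3 : {g : G | orderOf g = 3}.ncard = 680 := by rw [card_order_eq hc3, hn]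
        have := fiber_count 3 (2 ^ 1) 16
          (fun d hd => exists_two_subgroup d 1 (by rw [hall d hd]; norm_num) (by norm_num)) hpe3
        rw [hA3] at this
        norm_num at this
        exact this
    have hd1 : Disjoint {g : G | orderOf g = 17} {g : G | orderOf (g ^ 16) = 5} := by
      rw [Set.disjoint_left]
      intro g hg hg'
      have hg17 : orderOf g = 17 := hg
      have hg5 : orderOf (g ^ 16) = 5 := hg'
      rw [Nat.Coprime.orderOf_pow (by rw [hg17]; norm_num), hg17] at hg5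
      omega
    have hd2 : Disjoint ({g : G | orderOf g = 17} ∪ {g : G | orderOf (g ^ 16) = 5})
        {g : G | orderOf (g ^ 16) = 3} := by
      rw [Set.disjoint_left]
      rintro g (hg | hg) hg'
      · have hg17 : orderOf g = 17 := hg
        have hg3 : orderOf (g ^ 16) = 3 := hg'
        rw [Nat.Coprime.orderOf_pow (by rw [hg17]; norm_num), hg17] at hg3
        omega
      · have hg5 : orderOf (g ^ 16) = 5 := hg
        have hg3 : orderOf (g ^ 16) = 3 := hg'
        omega
    have h1 := Set.ncard_union_eq hd2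
    rw [Set.ncard_union_eq hd1, hA17] at h1
    have h2 := Set.ncard_le_card ({g : G | orderOf g = 17} ∪ {g : G | orderOf (g ^ 16) = 5} ∪
      {g : G | orderOf (g ^ 16) = 3})
    rw [hG] at h2
    rw [hA5] at hR5
    norm_num at hR5
    omega
  · have hc5v : ∀ y : G, orderOf y = 5 → Nat.card (centralizer ({y} : Set G)) = 15 := by
      intro y hy
      obtain ⟨k, hk, h1, -⟩ := hC5 y hy
      rw [h5] at h1
      rcases hk with rfl | rfl <;> omega
    have hmod := mod5_of_card15 hG y₀ hy₀ (hc5v y₀ hy₀)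
    have hn3 : Nat.card (Sylow 3 G) = 136 := by
      unfold Nat.ModEq at hmod
      rcases hn3c with h | h | h | h | h | h <;> rw [h] at hmod <;>
        first | exact h | (norm_num at hmod)
    refine ⟨h5, hn3, hc5v, ?_⟩
    intro d hd
    have := hC3 d hd
    rw [hn3] at this; omega
  · exfalso
    obtain ⟨k, hk, h1, h5d⟩ := hC5 y₀ hy₀
    rw [h5] at h1
    have hpos := Nat.le_of_dvd Nat.card_pos h5d
    rcases hk with rfl | rfl <;> nlinarith

end abs

end Cfsg.Agent.Lib.Helper5.G4080
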