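import Cfsg.Agent.Lib.Helper5.G4080B

set_option autoImplicit false

namespace Cfsg.Agent.Lib.Helper5.G4080

open Subgroup Cfsg.Agent.Lib.Helper8 Cfsg.Agent.S1002 Cfsg.Agent.S1003 Cfsg.Agent.S1006
open Cfsg.Agent.Lib.Helper5.G504 (faithful_sylow exists_fixed_ne card_union_ge card_nonid cj
  cj_conj cj_zero pow_smul_fixed cj_smul mem_normalizer_zpowers)

section abs
set_option linter.unusedSectionVars false
variable {G : Type*} [Group G] [Finite G]

theorem A2_le [IsSimpleGroup G] (hG : Nat.card G = 4080) [Fact (Nat.Prime 2)]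
    [Fact (Nat.Prime 3)] [Fact (Nat.Prime 5)] [Fact (Nat.Prime 17)] :
    {g : G | g ≠ 1 ∧ g ^ 16 = 1}.ncard ≤ 255 := by
  obtain ⟨hc17, hc5, hc3, hc2, hn17, hN17, hnc, hidx⟩ := facts4080 hG
  obtain ⟨hn5, hn3, hc5v, hc3v⟩ := facts4080b hG
  have hA17 : {g : G | orderOf g = 17}.ncard = 1920 := by rw [card_order_eq hc17, hn17]
  have hA3 : {g : G | orderOf g = 3}.ncard = 272 := by rw [card_order_eq hc3, hn3]
  have hA5 : {g : G | orderOf g = 5}.ncard = 544 := by rw [card_order_eq hc5, hn5]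
  have hR5 : 3 * {y : G | orderOf y = 5}.ncard ≤ {g : G | orderOf (g ^ 6) = 5}.ncard := by
    apply fiber_count 5 3 6
    · intro y hy
      have h3 : 3 ∣ Nat.card (centralizer ({y} : Set G)) := by rw [hc5v y hy]; norm_num
      obtain ⟨d', hd'⟩ := exists_prime_orderOf_dvd_card' 3 h3
      have hod : orderOf (d' : G) = 3 := by rw [Subgroup.orderOf_coe]; exact hd'
      have hdc := Subgroup.mem_centralizer_singleton_iff.mp d'.2
      refine ⟨zpowers (d' : G), by rw [Nat.card_zpowers, hod], ?_, ?_⟩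
      · intro u hu
        obtain ⟨i, rfl⟩ := Subgroup.mem_zpowers_iff.mp hu
        exact (Commute.zpow_left (show Commute (d' : G) y from hdc) i).eq
      · intro u hu
        have h1 : orderOf u ∣ 3 := by
          have := Subgroup.orderOf_dvd_natCard _ hu
          rwa [Nat.card_zpowers, hod] at this
        exact orderOf_dvd_iff_pow_eq_one.mp (h1.trans (by norm_num))
    · intro y hy
      have hy5 : y ^ 5 = 1 := by rw [← hy]; exact pow_orderOf_eq_one y
      calc y ^ 6 = y ^ 5 * y := by rw [← pow_succ]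
        _ = y := by rw [hy5, one_mul]
  have hd1 : Disjoint {g : G | orderOf g = 17} {g : G | orderOf (g ^ 6) = 5} := by
    rw [Set.disjoint_left]
    intro g hg hg'
    have hg17 : orderOf g = 17 := hg
    have hg5 : orderOf (g ^ 6) = 5 := hg'
    rw [Nat.Coprime.orderOf_pow (by rw [hg17]; norm_num), hg17] at hg5
    omega
  have hd2 : Disjoint ({g : G | orderOf g = 17} ∪ {g : G | orderOf (g ^ 6) = 5})
      {g : G | orderOf g = 3} := by
    rw [Set.disjoint_left]
    rintro g (hg | hg) hg'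
    · have hg17 : orderOf g = 17 := hg
      have hg3 : orderOf g = 3 := hg'
      omega
    · have hg5 : orderOf (g ^ 6) = 5 := hg
      have hg3 : orderOf g = 3 := hg'
      have h6 : g ^ 6 = 1 := by
        have : g ^ 3 = 1 := by rw [← hg3]; exact pow_orderOf_eq_one g
        calc g ^ 6 = (g ^ 3) ^ 2 := by rw [← pow_mul]
          _ = 1 := by rw [this, one_pow]
      rw [h6, orderOf_one] at hg5
      omega
  have hd3 : Disjoint ({g : G | orderOf g = 17} ∪ {g : G | orderOf (g ^ 6) = 5} ∪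
      {g : G | orderOf g = 3}) {g : G | g ≠ 1 ∧ g ^ 16 = 1} := by
    rw [Set.disjoint_left]
    rintro g ((hg | hg) | hg) ⟨-, hg16⟩
    · have hg17 : orderOf g = 17 := hg
      have := orderOf_dvd_of_pow_eq_one hg16
      rw [hg17] at this; norm_num at this
    · have hg5 : orderOf (g ^ 6) = 5 := hg
      have := (orderOf_pow_dvd (x := g) 6).trans (orderOf_dvd_of_pow_eq_one hg16)
      rw [hg5] at this; norm_num at this
    · have hg3 : orderOf g = 3 := hg
      have := orderOf_dvd_of_pow_eq_one hg16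
      rw [hg3] at this; norm_num at this
  have hd4 : Disjoint ({g : G | orderOf g = 17} ∪ {g : G | orderOf (g ^ 6) = 5} ∪
      {g : G | orderOf g = 3} ∪ {g : G | g ≠ 1 ∧ g ^ 16 = 1}) ({1} : Set G) := by
    rw [Set.disjoint_singleton_right]
    rintro (((h | h) | h) | h)
    · have : orderOf (1 : G) = 17 := h
      rw [orderOf_one] at this; omega
    · have : orderOf ((1 : G) ^ 6) = 5 := h
      rw [one_pow, orderOf_one] at this; omega
    · have : orderOf (1 : G) = 3 := h
      rw [orderOf_one] at this; omega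
    · exact h.1 rfl
  have h1 := Set.ncard_union_eq hd4
  rw [Set.ncard_union_eq hd3, Set.ncard_union_eq hd2, Set.ncard_union_eq hd1, hA17, hA3,
    Set.ncard_singleton] at h1
  have h2 := Set.ncard_le_card ({g : G | orderOf g = 17} ∪ {g : G | orderOf (g ^ 6) = 5} ∪
      {g : G | orderOf g = 3} ∪ {g : G | g ≠ 1 ∧ g ^ 16 = 1} ∪ ({1} : Set G))
  rw [hG] at h2
  rw [hA5] at hR5
  omega

theorem invol_key [IsSimpleGroup G] (hG : Nat.card G = 4080) [Fact (Nat.Prime 2)]
    [Fact (Nat.Prime 3)] [Fact (Nat.Prime 5)] [Fact (Nat.Prime 17)] (v : G) (hv1 : v ≠ 1)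
    (hv16 : v ^ 16 = 1) :
    Nat.card (centralizer ({v} : Set G)) = 16 ∧
      {g : G | IsConj v g} = {g : G | g ≠ 1 ∧ g ^ 16 = 1} := by
  obtain ⟨hc17, hc5, hc3, hc2, hn17, hN17, hnc, hidx⟩ := facts4080 hG
  obtain ⟨hn5, hn3, hc5v, hc3v⟩ := facts4080b hG
  have hA2 := A2_le hG
  have hov : orderOf v ∣ 16 := orderOf_dvd_of_pow_eq_one hv16
  have h17 : ¬ 17 ∣ Nat.card (centralizer ({v} : Set G)) := by
    intro h
    obtain ⟨x', hx'⟩ := exists_prime_orderOf_dvd_card' 17 h
    have hox : orderOf (x' : G) = 17 := by rw [Subgroup.orderOf_coe]; exact hx'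
    have hxc := x'.2
    rw [Subgroup.mem_centralizer_singleton_iff] at hxc
    have hmem := commute_mem_zpowers Nat.prime_two hc17 (by rw [hG]; norm_num) hN17
      (x' : G) v hox hxc
    have e3 : orderOf v ∣ 17 := by
      have := Subgroup.orderOf_dvd_natCard _ hmem
      rwa [Nat.card_zpowers, hox] at this
    exact hv1 (orderOf_eq_one_iff.mp
      (Nat.eq_one_of_dvd_coprimes (by norm_num : Nat.Coprime 16 17) hov e3))
  have hodd : ∀ (p : ℕ) [Fact p.Prime], (∀ z : G, orderOf z = p →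
      Nat.card (centralizer ({z} : Set G)) = 15) →
      ¬ p ∣ Nat.card (centralizer ({v} : Set G)) := by
    intro p _ hall h
    obtain ⟨z', hz'⟩ := exists_prime_orderOf_dvd_card' p h
    have hoz : orderOf (z' : G) = p := by rw [Subgroup.orderOf_coe]; exact hz'
    have hzc := z'.2
    rw [Subgroup.mem_centralizer_singleton_iff] at hzc
    have hvC : v ∈ centralizer ({(z' : G)} : Set G) := by
      rw [Subgroup.mem_centralizer_singleton_iff]; exact hzc.symm
    have e3 := Subgroup.orderOf_dvd_natCard _ hvC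
    rw [hall _ hoz] at e3
    exact hv1 (orderOf_eq_one_iff.mp
      (Nat.eq_one_of_dvd_coprimes (by norm_num : Nat.Coprime 16 15) hov e3))
  have h5 := hodd 5 hc5v
  have h3 := hodd 3 hc3v
  have h4080 : Nat.card (centralizer ({v} : Set G)) ∣ 4080 :=
    hG ▸ Subgroup.card_subgroup_dvd_card _
  have hsub : {g : G | IsConj v g} ⊆ {g : G | g ≠ 1 ∧ g ^ 16 = 1} := by
    intro g hg
    obtain ⟨c, hc⟩ := isConj_iff.mp hg
    refine ⟨?_, ?_⟩
    · rintro rfl
      apply hv1
      have : v = c⁻¹ * (c * v * c⁻¹) * c := by group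
      rw [this, hc]; group
    · rw [← hc, conj_pow, hv16]; group
  have hcls : Nat.card {g : G // IsConj v g} ≤ 255 := by
    have h1 : Nat.card {g : G // IsConj v g} = {g : G | IsConj v g}.ncard :=
      Nat.card_coe_set_eq _
    rw [h1]
    exact (Set.ncard_le_ncard hsub).trans hA2
  have hge := class_card_ge v
  rw [hG] at hge
  have hc16 : Nat.card (centralizer ({v} : Set G)) = 16 := by
    generalize Nat.card (centralizer ({v} : Set G)) = c at *
    have c3 : Nat.Coprime c 3 := ((Nat.Prime.coprime_iff_not_dvd Nat.prime_three).mpr h3).symm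
    have c5 : Nat.Coprime c 5 :=
      ((Nat.Prime.coprime_iff_not_dvd (by norm_num : Nat.Prime 5)).mpr h5).symm
    have c17 : Nat.Coprime c 17 :=
      ((Nat.Prime.coprime_iff_not_dvd (by norm_num : Nat.Prime 17)).mpr h17).symm
    have c255 : Nat.Coprime c (3 * 5 * 17) := (c3.mul_right c5).mul_right c17
    have hd16 : c ∣ 16 := Nat.Coprime.dvd_of_dvd_mul_right c255 (by norm_num; exact h4080)
    have hle16 : c ≤ 16 := Nat.le_of_dvd (by norm_num) hd16
    have hc16' : 16 ≤ c := by nlinarith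
    omega
  refine ⟨hc16, ?_⟩
  rw [hc16] at hge
  apply Set.eq_of_subset_of_ncard_le hsub
  have h1 : Nat.card {g : G // IsConj v g} = {g : G | IsConj v g}.ncard :=
    Nat.card_coe_set_eq _
  rw [← h1]
  omega

theorem invol_facts [IsSimpleGroup G] (hG : Nat.card G = 4080) [Fact (Nat.Prime 2)]
    [Fact (Nat.Prime 3)] [Fact (Nat.Prime 5)] [Fact (Nat.Prime 17)] (u : G) (hu1 : u ≠ 1)
    (hu16 : u ^ 16 = 1) :
    u * u = 1 ∧ Nat.card (centralizer ({u} : Set G)) = 16 := by
  obtain ⟨hc16, hcls⟩ := invol_key hG u hu1 hu16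
  refine ⟨?_, hc16⟩
  obtain ⟨t, ht⟩ := exists_prime_orderOf_dvd_card' (G := G) 2 (by rw [hG]; norm_num)
  have htA : t ∈ {g : G | g ≠ 1 ∧ g ^ 16 = 1} := by
    refine ⟨?_, ?_⟩
    · rintro rfl; rw [orderOf_one] at ht; omega
    · have : t ^ 2 = 1 := by rw [← ht]; exact pow_orderOf_eq_one t
      calc t ^ 16 = (t ^ 2) ^ 8 := by rw [← pow_mul]
        _ = 1 := by rw [this, one_pow]
  rw [← hcls] at htA
  obtain ⟨c, hc⟩ := isConj_iff.mp htA
  have hou : orderOf u = 2 := by
    have e : c * u * c⁻¹ = (MulAut.conj c).toMonoidHom u := rfl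
    rw [← ht, ← hc, e, orderOf_injective _ (MulAut.conj c).injective]
  rw [← pow_two, ← hou]; exact pow_orderOf_eq_one u

theorem sylow2_struct [IsSimpleGroup G] (hG : Nat.card G = 4080) [Fact (Nat.Prime 2)]
    [Fact (Nat.Prime 3)] [Fact (Nat.Prime 5)] [Fact (Nat.Prime 17)] :
    (∀ (T : Sylow 2 G) (u : G), u ∈ (T : Subgroup G) → u * u = 1) ∧
    (∀ (T : Sylow 2 G) (a b : G), a ∈ (T : Subgroup G) → b ∈ (T : Subgroup G) →
      a * b = b * a) ∧
    (∀ (T : Sylow 2 G) (u : G), u ∈ (T : Subgroup G) → u ≠ 1 →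
      centralizer ({u} : Set G) = (T : Subgroup G)) ∧
    (∀ (T T' : Sylow 2 G) (u : G), u ≠ 1 → u ∈ T → u ∈ T' → T = T') ∧
    Nat.card (Sylow 2 G) = 17 ∧
    (∀ T : Sylow 2 G, Nat.card (normalizer ((T : Subgroup G) : Set G)) = 240) := by
  obtain ⟨hc17, hc5, hc3, hc2, hn17, hN17, hnc, hidx⟩ := facts4080 hG
  have h16 : ∀ (T : Sylow 2 G) (u : G), u ∈ (T : Subgroup G) → u ^ 16 = 1 := by
    intro T u hu
    have := Subgroup.orderOf_dvd_natCard _ hu
    rw [hc2 T] at this
    exact orderOf_dvd_iff_pow_eq_one.mp this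
  have hsq : ∀ (T : Sylow 2 G) (u : G), u ∈ (T : Subgroup G) → u * u = 1 := by
    intro T u hu
    by_cases hu1 : u = 1
    · rw [hu1, one_mul]
    · exact (invol_facts hG u hu1 (h16 T u hu)).1
  have hcomm : ∀ (T : Sylow 2 G) (a b : G), a ∈ (T : Subgroup G) → b ∈ (T : Subgroup G) →
      a * b = b * a := by
    intro T a b ha hb
    have h1 : (a * b)⁻¹ = a * b := inv_eq_of_mul_eq_one_left (hsq T _ (mul_mem ha hb))
    have h2 : a⁻¹ = a := inv_eq_of_mul_eq_one_left (hsq T a ha)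
    have h3 : b⁻¹ = b := inv_eq_of_mul_eq_one_left (hsq T b hb)
    calc a * b = (a * b)⁻¹ := h1.symm
      _ = b⁻¹ * a⁻¹ := mul_inv_rev a b
      _ = b * a := by rw [h2, h3]
  have hC : ∀ (T : Sylow 2 G) (u : G), u ∈ (T : Subgroup G) → u ≠ 1 →
      centralizer ({u} : Set G) = (T : Subgroup G) := by
    intro T u hu hu1
    have hle : (T : Subgroup G) ≤ centralizer ({u} : Set G) := by
      intro a ha
      rw [Subgroup.mem_centralizer_singleton_iff]
      exact hcomm T a u ha hu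
    exact (Subgroup.eq_of_le_of_card_ge hle
      (by rw [(invol_facts hG u hu1 (h16 T u hu)).2, hc2 T])).symm
  have hTI : ∀ (T T' : Sylow 2 G) (u : G), u ≠ 1 → u ∈ T → u ∈ T' → T = T' := by
    intro T T' u hu1 hu hu'
    apply Sylow.ext
    rw [← hC T u hu hu1, ← hC T' u hu' hu1]
  have hn2 : Nat.card (Sylow 2 G) = 17 := by
    obtain ⟨T⟩ : Nonempty (Sylow 2 G) := inferInstance
    have hne : Nat.card (Sylow 2 G) ≠ 1 :=
      card_sylow_ne_one_of_simple T (by rw [hc2 T]; norm_num) (by rw [hc2 T, hG]; norm_num)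
    have htop : normalizer ((T : Subgroup G) : Set G) ≠ ⊤ := by
      intro h
      apply hne
      rw [Sylow.card_eq_index_normalizer T]
      show (normalizer ((T : Subgroup G) : Set G)).index = 1
      rw [h, index_top]
    have h17' := hidx _ htop
    have h9 : Nat.card (Sylow 2 G) = (normalizer ((T : Subgroup G) : Set G)).index :=
      Sylow.card_eq_index_normalizer T
    have hle := card_union_ge 16 {g : G | g ≠ 1 ∧ g ^ 16 = 1} hc2 hTI
      (fun P g hg hg1 => ⟨hg1, h16 P g hg⟩)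
    have hA2 := A2_le hG
    omega
  refine ⟨hsq, hcomm, hC, hTI, hn2, ?_⟩
  intro T
  have := card_sylow_mul_card_normalizer T
  rw [hn2, hG] at this
  omega

theorem fix_eq_one [IsSimpleGroup G] (hG : Nat.card G = 4080) [Fact (Nat.Prime 2)]
    [Fact (Nat.Prime 3)] [Fact (Nat.Prime 5)] [Fact (Nat.Prime 17)] (T T₀ : Sylow 2 G)
    (hne : T₀ ≠ T) (u : G) (hu : u ∈ (T : Subgroup G)) (hfix : u • T₀ = T₀) : u = 1 := by
  obtain ⟨hsq, hcomm, hC, hTI, hn2, hN2⟩ := sylow2_struct hG
  by_contra hu1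
  have h1 : u ∈ (T : Subgroup G) ⊓ normalizer ((T₀ : Subgroup G) : Set G) :=
    ⟨hu, Sylow.smul_eq_iff_mem_normalizer.mp hfix⟩
  have h0 := IsPGroup.inf_normalizer_sylow T.isPGroup' T₀
  have h3 : u ∈ (T : Subgroup G) ⊓ (T₀ : Subgroup G) := by rw [← h0]; exact h1
  exact hne (hTI T T₀ u hu1 hu h3.2).symm

theorem regular [IsSimpleGroup G] (hG : Nat.card G = 4080) [Fact (Nat.Prime 2)]
    [Fact (Nat.Prime 3)] [Fact (Nat.Prime 5)] [Fact (Nat.Prime 17)] (T T₀ : Sylow 2 G)
    (hT₀ : T₀ ≠ T) (R : Sylow 2 G) (hR : R ≠ T) :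
    ∃ u ∈ (T : Subgroup G), R = u • T₀ := by
  obtain ⟨hc17, hc5, hc3, hc2, hn17, hN17, hnc, hidx⟩ := facts4080 hG
  obtain ⟨hsq, hcomm, hC, hTI, hn2, hN2⟩ := sylow2_struct hG
  have hfixT : ∀ u : G, u ∈ (T : Subgroup G) → u • T = T := fun u hu =>
    Sylow.smul_eq_iff_mem_normalizer.mpr (le_normalizer hu)
  let φ : ↥(T : Subgroup G) → {R : Sylow 2 G // R ≠ T} := fun u => ⟨(u : G) • T₀, by
    intro h
    have : (u : G) • T₀ = (u : G) • T := by rw [hfixT u u.2, h]
    exact hT₀ (smul_left_cancel _ this)⟩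
  have hφ : Function.Injective φ := by
    intro u u' huu
    have h1 : (u : G) • T₀ = (u' : G) • T₀ := congrArg Subtype.val huu
    have h2 : ((u' : G)⁻¹ * (u : G)) • T₀ = T₀ := by
      rw [mul_smul, h1, inv_smul_smul]
    have h3 := fix_eq_one hG T T₀ hT₀ _ (mul_mem (inv_mem u'.2) u.2) h2
    apply Subtype.ext
    have : (u : G) = (u' : G) * ((u' : G)⁻¹ * (u : G)) := by group
    rw [this, h3, mul_one]
  have hcard : Nat.card {R : Sylow 2 G // R ≠ T} = 16 := by
    have e : {R : Sylow 2 G | R ≠ T} = Set.univ \ {T} := by ext R; simp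
    have e2 : Nat.card {R : Sylow 2 G // R ≠ T} = ({R : Sylow 2 G | R ≠ T}).ncard :=
      Nat.card_coe_set_eq _
    rw [e2, e, Set.ncard_sdiff_singleton_of_mem (Set.mem_univ T), Set.ncard_univ, hn2]
  have hbij : Function.Bijective φ :=
    hφ.bijective_of_nat_card_le (by rw [hcard]; exact (hc2 T).ge)
  obtain ⟨u, hu⟩ := hbij.2 ⟨R, hR⟩
  exact ⟨u, u.2, (congrArg Subtype.val hu).symm⟩

theorem exists_x15 [IsSimpleGroup G] (hG : Nat.card G = 4080) [Fact (Nat.Prime 2)]
    [Fact (Nat.Prime 3)] [Fact (Nat.Prime 5)] [Fact (Nat.Prime 17)] :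
    ∃ (T T₀ : Sylow 2 G) (x : G), T₀ ≠ T ∧ orderOf x = 15 ∧ x • T = T ∧ x • T₀ = T₀ := by
  obtain ⟨hc17, hc5, hc3, hc2, hn17, hN17, hnc, hidx⟩ := facts4080 hG
  obtain ⟨hn5, hn3, hc5v, hc3v⟩ := facts4080b hG
  obtain ⟨hsq, hcomm, hC, hTI, hn2, hN2⟩ := sylow2_struct hG
  obtain ⟨T⟩ : Nonempty (Sylow 2 G) := inferInstance
  have h5 : 5 ∣ Nat.card (normalizer ((T : Subgroup G) : Set G)) := by rw [hN2 T]; norm_num
  obtain ⟨y', hy'⟩ := exists_prime_orderOf_dvd_card' 5 h5
  obtain ⟨y, hy⟩ : ∃ y : G, y = (y' : G) := ⟨_, rfl⟩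
  have hoy : orderOf y = 5 := by rw [hy, Subgroup.orderOf_coe]; exact hy'
  have hyN : y ∈ normalizer ((T : Subgroup G) : Set G) := by rw [hy]; exact y'.2
  have hyT : y • T = T := Sylow.smul_eq_iff_mem_normalizer.mpr hyN
  obtain ⟨T₀, hT₀, hyT₀⟩ := exists_fixed_ne y hoy T hyT (by rw [hn2]; decide)
  have hfix2 : ∀ R : Sylow 2 G, y • R = R → R = T ∨ R = T₀ := by
    intro R hR
    by_cases hRT : R = T
    · exact Or.inl hRT
    · right
      obtain ⟨u, hu, rfl⟩ := regular hG T T₀ hT₀ R hRT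
      have hcT : y * u * y⁻¹ ∈ (T : Subgroup G) := (Subgroup.mem_normalizer_iff.mp hyN u).mp hu
      have h1 : (y * u * y⁻¹) • T₀ = u • T₀ := by
        have e : (y * u * y⁻¹) • T₀ = y • u • T₀ := by
          rw [mul_smul, mul_smul, inv_smul_eq_iff.mpr hyT₀.symm]
        rw [e, hR]
      have h2 : (u⁻¹ * (y * u * y⁻¹)) • T₀ = T₀ := by
        rw [mul_smul, h1, inv_smul_smul]
      have h3 := fix_eq_one hG T T₀ hT₀ _ (mul_mem (inv_mem hu) hcT) h2
      have h4 : y * u * y⁻¹ = u := by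
        have : y * u * y⁻¹ = u * (u⁻¹ * (y * u * y⁻¹)) := by group
        rw [this, h3, mul_one]
      have huC : u ∈ centralizer ({y} : Set G) := by
        rw [Subgroup.mem_centralizer_singleton_iff]
        calc u * y = (y * u * y⁻¹) * y := by rw [h4]
          _ = y * u := by group
      have e15 := Subgroup.orderOf_dvd_natCard _ huC
      rw [hc5v y hoy] at e15
      have e16 := Subgroup.orderOf_dvd_natCard _ hu
      rw [hc2 T] at e16
      have hu1 : u = 1 := orderOf_eq_one_iff.mp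
        (Nat.eq_one_of_dvd_coprimes (by norm_num : Nat.Coprime 16 15) e16 e15)
      rw [hu1, one_smul]
  have h3 : 3 ∣ Nat.card (centralizer ({y} : Set G)) := by rw [hc5v y hoy]; norm_num
  obtain ⟨d', hd'⟩ := exists_prime_orderOf_dvd_card' 3 h3
  obtain ⟨d, hd⟩ : ∃ d : G, d = (d' : G) := ⟨_, rfl⟩
  have hod : orderOf d = 3 := by rw [hd, Subgroup.orderOf_coe]; exact hd'
  have hdy : d * y = y * d := by
    rw [hd]; exact Subgroup.mem_centralizer_singleton_iff.mp d'.2
  have hd3 : d ^ 3 = 1 := by rw [← hod]; exact pow_orderOf_eq_one d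
  have hdfix : ∀ R : Sylow 2 G, y • R = R → y • (d • R) = d • R := by
    intro R hR
    rw [← mul_smul, ← hdy, mul_smul, hR]
  have hdT : d • T = T := by
    rcases hfix2 _ (hdfix T hyT) with h | h
    · exact h
    · exfalso
      rcases hfix2 _ (hdfix T₀ hyT₀) with h' | h'
      · have e : d ^ 3 • T = T₀ := by
          rw [pow_succ, pow_succ, pow_one, mul_smul, mul_smul, h, h', h]
        rw [hd3, one_smul] at e
        exact hT₀ e.symm
      · have : d • T = d • T₀ := by rw [h, h']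
        exact hT₀ (smul_left_cancel _ this).symm
  have hdT₀ : d • T₀ = T₀ := by
    rcases hfix2 _ (hdfix T₀ hyT₀) with h | h
    · exfalso
      have : d • T₀ = d • T := by rw [h, hdT]
      exact hT₀ (smul_left_cancel _ this)
    · exact h
  have hcomm' : Commute y d := hdy.symm
  refine ⟨T, T₀, y * d, hT₀, ?_, ?_, ?_⟩
  · have := hcomm'.orderOf_mul_eq_mul_orderOf_of_coprime (by rw [hoy, hod]; norm_num)
    rw [this, hoy, hod]
  · rw [mul_smul, hdT, hyT]
  · rw [mul_smul, hdT₀, hyT₀]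

end abs

end Cfsg.Agent.Lib.Helper5.G4080
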