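import Cfsg.Agent.Lib.Helper5.G4080C

set_option autoImplicit false
set_option linter.unusedSimpArgs false

namespace Cfsg.Agent.Lib.Helper5.G4080

open Subgroup Cfsg.Agent.Lib.Helper8 Cfsg.Agent.S1002 Cfsg.Agent.S1003 Cfsg.Agent.S1006
open Cfsg.Agent.Lib.Helper5.G504 (faithful_sylow exists_fixed_ne card_union_ge card_nonid cj
  cj_conj cj_zero pow_smul_fixed cj_smul mem_normalizer_zpowers)

theorem sq_mod15 : ∀ m : ℕ, m < 15 → m * m % 15 = 1 % 15 →
    m = 1 ∨ m = 4 ∨ m = 11 ∨ m = 14 := by decide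

theorem rule15 {A : Type*} [CommGroup A] (c : ℕ → A) (hper : ∀ i, c (i + 15) = c i)
    (hsq : ∀ i, c i * c i = 1) (h3 : c 3 ≠ c 0) (h0 : c 0 ≠ 1)
    (k : ℕ) (hk : k < 15) (hrule : ∀ i, c i * c (i + 1) = c (i + k)) : k = 4 ∨ k = 12 := by
  have hsq' : ∀ i (z : A), c i * (c i * z) = z := fun i z => by rw [← mul_assoc, hsq, one_mul]
  interval_cases k
  · exfalso
    have r14 : c 14 * c 0 * c 14 = 1 := by
      have h : c 14 * c 15 = c 14 := hrule 14
      rw [show c 15 = c 0 from hper 0] at h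
      rw [h]; exact hsq 14
    have key : c 0 = (c 14 * c 0 * c 14) := by
      simp [mul_comm, mul_left_comm, mul_assoc, hsq, hsq']
    rw [r14] at key
    exact h0 key
  · exfalso
    have r0 : c 0 * c 1 * c 1 = 1 := by
      have h : c 0 * c 1 = c 1 := hrule 0
      rw [h]; exact hsq 1
    have key : c 0 = (c 0 * c 1 * c 1) := by
      simp [mul_comm, mul_left_comm, mul_assoc, hsq, hsq']
    rw [r0] at key
    exact h0 key
  · exfalso
    have r0 : c 0 * c 1 * c 2 = 1 := by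
      have h : c 0 * c 1 = c 2 := hrule 0
      rw [h]; exact hsq 2
    have r1 : c 1 * c 2 * c 3 = 1 := by
      have h : c 1 * c 2 = c 3 := hrule 1
      rw [h]; exact hsq 3
    have key : c 0 * c 3 = (c 0 * c 1 * c 2) * (c 1 * c 2 * c 3) := by
      simp [mul_comm, mul_left_comm, mul_assoc, hsq, hsq']
    rw [r0, r1] at key
    simp only [one_mul, mul_one] at key
    apply h3
    calc c 3 = c 0 * (c 0 * c 3) := (hsq' 0 (c 3)).symm
      _ = c 0 := by rw [key, mul_one]
  · exfalso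
    have r0 : c 0 * c 1 * c 3 = 1 := by
      have h : c 0 * c 1 = c 3 := hrule 0
      rw [h]; exact hsq 3
    have r2 : c 2 * c 3 * c 5 = 1 := by
      have h : c 2 * c 3 = c 5 := hrule 2
      rw [h]; exact hsq 5
    have r5 : c 5 * c 6 * c 8 = 1 := by
      have h : c 5 * c 6 = c 8 := hrule 5
      rw [h]; exact hsq 8
    have r6 : c 6 * c 7 * c 9 = 1 := by
      have h : c 6 * c 7 = c 9 := hrule 6
      rw [h]; exact hsq 9
    have r7 : c 7 * c 8 * c 10 = 1 := by
      have h : c 7 * c 8 = c 10 := hrule 7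
      rw [h]; exact hsq 10
    have r9 : c 9 * c 10 * c 12 = 1 := by
      have h : c 9 * c 10 = c 12 := hrule 9
      rw [h]; exact hsq 12
    have r12 : c 12 * c 13 * c 0 = 1 := by
      have h : c 12 * c 13 = c 15 := hrule 12
      rw [show c 15 = c 0 from hper 0] at h
      rw [h]; exact hsq 0
    have r13 : c 13 * c 14 * c 1 = 1 := by
      have h : c 13 * c 14 = c 16 := hrule 13
      rw [show c 16 = c 1 from hper 1] at h
      rw [h]; exact hsq 1
    have r14 : c 14 * c 0 * c 2 = 1 := by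
      have h : c 14 * c 15 = c 17 := hrule 14
      rw [show c 15 = c 0 from hper 0, show c 17 = c 2 from hper 2] at h
      rw [h]; exact hsq 2
    have key : c 0 = (c 0 * c 1 * c 3) * (c 2 * c 3 * c 5) * (c 5 * c 6 * c 8) * (c 6 * c 7 * c 9) * (c 7 * c 8 * c 10) * (c 9 * c 10 * c 12) * (c 12 * c 13 * c 0) * (c 13 * c 14 * c 1) * (c 14 * c 0 * c 2) := by
      simp [mul_comm, mul_left_comm, mul_assoc, hsq, hsq']
    rw [r0, r2, r5, r6, r7, r9, r12, r13, r14] at key
    simp only [one_mul, mul_one] at key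
    exact h0 key
  · exact Or.inl rfl
  · exfalso
    have r1 : c 1 * c 2 * c 6 = 1 := by
      have h : c 1 * c 2 = c 6 := hrule 1
      rw [h]; exact hsq 6
    have r3 : c 3 * c 4 * c 8 = 1 := by
      have h : c 3 * c 4 = c 8 := hrule 3
      rw [h]; exact hsq 8
    have r4 : c 4 * c 5 * c 9 = 1 := by
      have h : c 4 * c 5 = c 9 := hrule 4
      rw [h]; exact hsq 9
    have r5 : c 5 * c 6 * c 10 = 1 := by
      have h : c 5 * c 6 = c 10 := hrule 5
      rw [h]; exact hsq 10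
    have r8 : c 8 * c 9 * c 13 = 1 := by
      have h : c 8 * c 9 = c 13 := hrule 8
      rw [h]; exact hsq 13
    have r10 : c 10 * c 11 * c 0 = 1 := by
      have h : c 10 * c 11 = c 15 := hrule 10
      rw [show c 15 = c 0 from hper 0] at h
      rw [h]; exact hsq 0
    have r11 : c 11 * c 12 * c 1 = 1 := by
      have h : c 11 * c 12 = c 16 := hrule 11
      rw [show c 16 = c 1 from hper 1] at h
      rw [h]; exact hsq 1
    have r12 : c 12 * c 13 * c 2 = 1 := by
      have h : c 12 * c 13 = c 17 := hrule 12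
      rw [show c 17 = c 2 from hper 2] at h
      rw [h]; exact hsq 2
    have key : c 0 * c 3 = (c 1 * c 2 * c 6) * (c 3 * c 4 * c 8) * (c 4 * c 5 * c 9) * (c 5 * c 6 * c 10) * (c 8 * c 9 * c 13) * (c 10 * c 11 * c 0) * (c 11 * c 12 * c 1) * (c 12 * c 13 * c 2) := by
      simp [mul_comm, mul_left_comm, mul_assoc, hsq, hsq']
    rw [r1, r3, r4, r5, r8, r10, r11, r12] at key
    simp only [one_mul, mul_one] at key
    apply h3
    calc c 3 = c 0 * (c 0 * c 3) := (hsq' 0 (c 3)).symm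
      _ = c 0 := by rw [key, mul_one]
  · exfalso
    have r1 : c 1 * c 2 * c 7 = 1 := by
      have h : c 1 * c 2 = c 7 := hrule 1
      rw [h]; exact hsq 7
    have r3 : c 3 * c 4 * c 9 = 1 := by
      have h : c 3 * c 4 = c 9 := hrule 3
      rw [h]; exact hsq 9
    have r4 : c 4 * c 5 * c 10 = 1 := by
      have h : c 4 * c 5 = c 10 := hrule 4
      rw [h]; exact hsq 10
    have r7 : c 7 * c 8 * c 13 = 1 := by
      have h : c 7 * c 8 = c 13 := hrule 7
      rw [h]; exact hsq 13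
    have r8 : c 8 * c 9 * c 14 = 1 := by
      have h : c 8 * c 9 = c 14 := hrule 8
      rw [h]; exact hsq 14
    have r10 : c 10 * c 11 * c 1 = 1 := by
      have h : c 10 * c 11 = c 16 := hrule 10
      rw [show c 16 = c 1 from hper 1] at h
      rw [h]; exact hsq 1
    have r11 : c 11 * c 12 * c 2 = 1 := by
      have h : c 11 * c 12 = c 17 := hrule 11
      rw [show c 17 = c 2 from hper 2] at h
      rw [h]; exact hsq 2
    have r12 : c 12 * c 13 * c 3 = 1 := by
      have h : c 12 * c 13 = c 18 := hrule 12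
      rw [show c 18 = c 3 from hper 3] at h
      rw [h]; exact hsq 3
    have r14 : c 14 * c 0 * c 5 = 1 := by
      have h : c 14 * c 15 = c 20 := hrule 14
      rw [show c 15 = c 0 from hper 0, show c 20 = c 5 from hper 5] at h
      rw [h]; exact hsq 5
    have key : c 0 = (c 1 * c 2 * c 7) * (c 3 * c 4 * c 9) * (c 4 * c 5 * c 10) * (c 7 * c 8 * c 13) * (c 8 * c 9 * c 14) * (c 10 * c 11 * c 1) * (c 11 * c 12 * c 2) * (c 12 * c 13 * c 3) * (c 14 * c 0 * c 5) := by
      simp [mul_comm, mul_left_comm, mul_assoc, hsq, hsq']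
    rw [r1, r3, r4, r7, r8, r10, r11, r12, r14] at key
    simp only [one_mul, mul_one] at key
    exact h0 key
  · exfalso
    have r0 : c 0 * c 1 * c 7 = 1 := by
      have h : c 0 * c 1 = c 7 := hrule 0
      rw [h]; exact hsq 7
    have r3 : c 3 * c 4 * c 10 = 1 := by
      have h : c 3 * c 4 = c 10 := hrule 3
      rw [h]; exact hsq 10
    have r4 : c 4 * c 5 * c 11 = 1 := by
      have h : c 4 * c 5 = c 11 := hrule 4
      rw [h]; exact hsq 11
    have r5 : c 5 * c 6 * c 12 = 1 := by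
      have h : c 5 * c 6 = c 12 := hrule 5
      rw [h]; exact hsq 12
    have r7 : c 7 * c 8 * c 14 = 1 := by
      have h : c 7 * c 8 = c 14 := hrule 7
      rw [h]; exact hsq 14
    have r8 : c 8 * c 9 * c 0 = 1 := by
      have h : c 8 * c 9 = c 15 := hrule 8
      rw [show c 15 = c 0 from hper 0] at h
      rw [h]; exact hsq 0
    have r9 : c 9 * c 10 * c 1 = 1 := by
      have h : c 9 * c 10 = c 16 := hrule 9
      rw [show c 16 = c 1 from hper 1] at h
      rw [h]; exact hsq 1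
    have r11 : c 11 * c 12 * c 3 = 1 := by
      have h : c 11 * c 12 = c 18 := hrule 11
      rw [show c 18 = c 3 from hper 3] at h
      rw [h]; exact hsq 3
    have r14 : c 14 * c 0 * c 6 = 1 := by
      have h : c 14 * c 15 = c 21 := hrule 14
      rw [show c 15 = c 0 from hper 0, show c 21 = c 6 from hper 6] at h
      rw [h]; exact hsq 6
    have key : c 0 = (c 0 * c 1 * c 7) * (c 3 * c 4 * c 10) * (c 4 * c 5 * c 11) * (c 5 * c 6 * c 12) * (c 7 * c 8 * c 14) * (c 8 * c 9 * c 0) * (c 9 * c 10 * c 1) * (c 11 * c 12 * c 3) * (c 14 * c 0 * c 6) := by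
      simp [mul_comm, mul_left_comm, mul_assoc, hsq, hsq']
    rw [r0, r3, r4, r5, r7, r8, r9, r11, r14] at key
    simp only [one_mul, mul_one] at key
    exact h0 key
  · exfalso
    have r0 : c 0 * c 1 * c 8 = 1 := by
      have h : c 0 * c 1 = c 8 := hrule 0
      rw [h]; exact hsq 8
    have r2 : c 2 * c 3 * c 10 = 1 := by
      have h : c 2 * c 3 = c 10 := hrule 2
      rw [h]; exact hsq 10
    have r8 : c 8 * c 9 * c 1 = 1 := by
      have h : c 8 * c 9 = c 16 := hrule 8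
      rw [show c 16 = c 1 from hper 1] at h
      rw [h]; exact hsq 1
    have r9 : c 9 * c 10 * c 2 = 1 := by
      have h : c 9 * c 10 = c 17 := hrule 9
      rw [show c 17 = c 2 from hper 2] at h
      rw [h]; exact hsq 2
    have key : c 0 * c 3 = (c 0 * c 1 * c 8) * (c 2 * c 3 * c 10) * (c 8 * c 9 * c 1) * (c 9 * c 10 * c 2) := by
      simp [mul_comm, mul_left_comm, mul_assoc, hsq, hsq']
    rw [r0, r2, r8, r9] at key
    simp only [one_mul, mul_one] at key
    apply h3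
    calc c 3 = c 0 * (c 0 * c 3) := (hsq' 0 (c 3)).symm
      _ = c 0 := by rw [key, mul_one]
  · exfalso
    have r0 : c 0 * c 1 * c 9 = 1 := by
      have h : c 0 * c 1 = c 9 := hrule 0
      rw [h]; exact hsq 9
    have r3 : c 3 * c 4 * c 12 = 1 := by
      have h : c 3 * c 4 = c 12 := hrule 3
      rw [h]; exact hsq 12
    have r5 : c 5 * c 6 * c 14 = 1 := by
      have h : c 5 * c 6 = c 14 := hrule 5
      rw [h]; exact hsq 14
    have r6 : c 6 * c 7 * c 0 = 1 := by
      have h : c 6 * c 7 = c 15 := hrule 6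
      rw [show c 15 = c 0 from hper 0] at h
      rw [h]; exact hsq 0
    have r7 : c 7 * c 8 * c 1 = 1 := by
      have h : c 7 * c 8 = c 16 := hrule 7
      rw [show c 16 = c 1 from hper 1] at h
      rw [h]; exact hsq 1
    have r9 : c 9 * c 10 * c 3 = 1 := by
      have h : c 9 * c 10 = c 18 := hrule 9
      rw [show c 18 = c 3 from hper 3] at h
      rw [h]; exact hsq 3
    have r10 : c 10 * c 11 * c 4 = 1 := by
      have h : c 10 * c 11 = c 19 := hrule 10
      rw [show c 19 = c 4 from hper 4] at h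
      rw [h]; exact hsq 4
    have r11 : c 11 * c 12 * c 5 = 1 := by
      have h : c 11 * c 12 = c 20 := hrule 11
      rw [show c 20 = c 5 from hper 5] at h
      rw [h]; exact hsq 5
    have r14 : c 14 * c 0 * c 8 = 1 := by
      have h : c 14 * c 15 = c 23 := hrule 14
      rw [show c 15 = c 0 from hper 0, show c 23 = c 8 from hper 8] at h
      rw [h]; exact hsq 8
    have key : c 0 = (c 0 * c 1 * c 9) * (c 3 * c 4 * c 12) * (c 5 * c 6 * c 14) * (c 6 * c 7 * c 0) * (c 7 * c 8 * c 1) * (c 9 * c 10 * c 3) * (c 10 * c 11 * c 4) * (c 11 * c 12 * c 5) * (c 14 * c 0 * c 8) := by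
      simp [mul_comm, mul_left_comm, mul_assoc, hsq, hsq']
    rw [r0, r3, r5, r6, r7, r9, r10, r11, r14] at key
    simp only [one_mul, mul_one] at key
    exact h0 key
  · exfalso
    have r0 : c 0 * c 1 * c 10 = 1 := by
      have h : c 0 * c 1 = c 10 := hrule 0
      rw [h]; exact hsq 10
    have r2 : c 2 * c 3 * c 12 = 1 := by
      have h : c 2 * c 3 = c 12 := hrule 2
      rw [h]; exact hsq 12
    have r3 : c 3 * c 4 * c 13 = 1 := by
      have h : c 3 * c 4 = c 13 := hrule 3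
      rw [h]; exact hsq 13
    have r4 : c 4 * c 5 * c 14 = 1 := by
      have h : c 4 * c 5 = c 14 := hrule 4
      rw [h]; exact hsq 14
    have r6 : c 6 * c 7 * c 1 = 1 := by
      have h : c 6 * c 7 = c 16 := hrule 6
      rw [show c 16 = c 1 from hper 1] at h
      rw [h]; exact hsq 1
    have r7 : c 7 * c 8 * c 2 = 1 := by
      have h : c 7 * c 8 = c 17 := hrule 7
      rw [show c 17 = c 2 from hper 2] at h
      rw [h]; exact hsq 2
    have r10 : c 10 * c 11 * c 5 = 1 := by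
      have h : c 10 * c 11 = c 20 := hrule 10
      rw [show c 20 = c 5 from hper 5] at h
      rw [h]; exact hsq 5
    have r11 : c 11 * c 12 * c 6 = 1 := by
      have h : c 11 * c 12 = c 21 := hrule 11
      rw [show c 21 = c 6 from hper 6] at h
      rw [h]; exact hsq 6
    have r13 : c 13 * c 14 * c 8 = 1 := by
      have h : c 13 * c 14 = c 23 := hrule 13
      rw [show c 23 = c 8 from hper 8] at h
      rw [h]; exact hsq 8
    have key : c 0 = (c 0 * c 1 * c 10) * (c 2 * c 3 * c 12) * (c 3 * c 4 * c 13) * (c 4 * c 5 * c 14) * (c 6 * c 7 * c 1) * (c 7 * c 8 * c 2) * (c 10 * c 11 * c 5) * (c 11 * c 12 * c 6) * (c 13 * c 14 * c 8) := by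
      simp [mul_comm, mul_left_comm, mul_assoc, hsq, hsq']
    rw [r0, r2, r3, r4, r6, r7, r10, r11, r13] at key
    simp only [one_mul, mul_one] at key
    exact h0 key
  · exfalso
    have r2 : c 2 * c 3 * c 13 = 1 := by
      have h : c 2 * c 3 = c 13 := hrule 2
      rw [h]; exact hsq 13
    have r4 : c 4 * c 5 * c 0 = 1 := by
      have h : c 4 * c 5 = c 15 := hrule 4
      rw [show c 15 = c 0 from hper 0] at h
      rw [h]; exact hsq 0
    have r6 : c 6 * c 7 * c 2 = 1 := by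
      have h : c 6 * c 7 = c 17 := hrule 6
      rw [show c 17 = c 2 from hper 2] at h
      rw [h]; exact hsq 2
    have r8 : c 8 * c 9 * c 4 = 1 := by
      have h : c 8 * c 9 = c 19 := hrule 8
      rw [show c 19 = c 4 from hper 4] at h
      rw [h]; exact hsq 4
    have r9 : c 9 * c 10 * c 5 = 1 := by
      have h : c 9 * c 10 = c 20 := hrule 9
      rw [show c 20 = c 5 from hper 5] at h
      rw [h]; exact hsq 5
    have r10 : c 10 * c 11 * c 6 = 1 := by
      have h : c 10 * c 11 = c 21 := hrule 10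
      rw [show c 21 = c 6 from hper 6] at h
      rw [h]; exact hsq 6
    have r11 : c 11 * c 12 * c 7 = 1 := by
      have h : c 11 * c 12 = c 22 := hrule 11
      rw [show c 22 = c 7 from hper 7] at h
      rw [h]; exact hsq 7
    have r12 : c 12 * c 13 * c 8 = 1 := by
      have h : c 12 * c 13 = c 23 := hrule 12
      rw [show c 23 = c 8 from hper 8] at h
      rw [h]; exact hsq 8
    have key : c 0 * c 3 = (c 2 * c 3 * c 13) * (c 4 * c 5 * c 0) * (c 6 * c 7 * c 2) * (c 8 * c 9 * c 4) * (c 9 * c 10 * c 5) * (c 10 * c 11 * c 6) * (c 11 * c 12 * c 7) * (c 12 * c 13 * c 8) := by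
      simp [mul_comm, mul_left_comm, mul_assoc, hsq, hsq']
    rw [r2, r4, r6, r8, r9, r10, r11, r12] at key
    simp only [one_mul, mul_one] at key
    apply h3
    calc c 3 = c 0 * (c 0 * c 3) := (hsq' 0 (c 3)).symm
      _ = c 0 := by rw [key, mul_one]
  · exact Or.inr rfl
  · exfalso
    have r0 : c 0 * c 1 * c 13 = 1 := by
      have h : c 0 * c 1 = c 13 := hrule 0
      rw [h]; exact hsq 13
    have r1 : c 1 * c 2 * c 14 = 1 := by
      have h : c 1 * c 2 = c 14 := hrule 1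
      rw [h]; exact hsq 14
    have r2 : c 2 * c 3 * c 0 = 1 := by
      have h : c 2 * c 3 = c 15 := hrule 2
      rw [show c 15 = c 0 from hper 0] at h
      rw [h]; exact hsq 0
    have r5 : c 5 * c 6 * c 3 = 1 := by
      have h : c 5 * c 6 = c 18 := hrule 5
      rw [show c 18 = c 3 from hper 3] at h
      rw [h]; exact hsq 3
    have r7 : c 7 * c 8 * c 5 = 1 := by
      have h : c 7 * c 8 = c 20 := hrule 7
      rw [show c 20 = c 5 from hper 5] at h
      rw [h]; exact hsq 5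
    have r8 : c 8 * c 9 * c 6 = 1 := by
      have h : c 8 * c 9 = c 21 := hrule 8
      rw [show c 21 = c 6 from hper 6] at h
      rw [h]; exact hsq 6
    have r9 : c 9 * c 10 * c 7 = 1 := by
      have h : c 9 * c 10 = c 22 := hrule 9
      rw [show c 22 = c 7 from hper 7] at h
      rw [h]; exact hsq 7
    have r12 : c 12 * c 13 * c 10 = 1 := by
      have h : c 12 * c 13 = c 25 := hrule 12
      rw [show c 25 = c 10 from hper 10] at h
      rw [h]; exact hsq 10
    have r14 : c 14 * c 0 * c 12 = 1 := by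
      have h : c 14 * c 15 = c 27 := hrule 14
      rw [show c 15 = c 0 from hper 0, show c 27 = c 12 from hper 12] at h
      rw [h]; exact hsq 12
    have key : c 0 = (c 0 * c 1 * c 13) * (c 1 * c 2 * c 14) * (c 2 * c 3 * c 0) * (c 5 * c 6 * c 3) * (c 7 * c 8 * c 5) * (c 8 * c 9 * c 6) * (c 9 * c 10 * c 7) * (c 12 * c 13 * c 10) * (c 14 * c 0 * c 12) := by
      simp [mul_comm, mul_left_comm, mul_assoc, hsq, hsq']
    rw [r0, r1, r2, r5, r7, r8, r9, r12, r14] at key
    simp only [one_mul, mul_one] at key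
    exact h0 key
  · exfalso
    have r1 : c 1 * c 2 * c 0 = 1 := by
      have h : c 1 * c 2 = c 15 := hrule 1
      rw [show c 15 = c 0 from hper 0] at h
      rw [h]; exact hsq 0
    have r2 : c 2 * c 3 * c 1 = 1 := by
      have h : c 2 * c 3 = c 16 := hrule 2
      rw [show c 16 = c 1 from hper 1] at h
      rw [h]; exact hsq 1
    have key : c 0 * c 3 = (c 1 * c 2 * c 0) * (c 2 * c 3 * c 1) := by
      simp [mul_comm, mul_left_comm, mul_assoc, hsq, hsq']
    rw [r1, r2] at key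
    simp only [one_mul, mul_one] at key
    apply h3
    calc c 3 = c 0 * (c 0 * c 3) := (hsq' 0 (c 3)).symm
      _ = c 0 := by rw [key, mul_one]

theorem table15 {A : Type*} [CommGroup A] (c : ℕ → A) (hper : ∀ i, c (i + 15) = c i)
    (hsq : ∀ i, c i * c i = 1) (hrule : ∀ i, c i * c (i + 1) = c (i + 4)) :
    c 0 * c 2 = c 8 ∧ c 0 * c 3 = c 14 ∧ c 0 * c 5 = c 10 ∧ c 0 * c 6 = c 13 ∧
    c 0 * c 7 = c 9 ∧ c 0 * c 11 = c 12 := by
  have hsq' : ∀ i (z : A), c i * (c i * z) = z := fun i z => by rw [← mul_assoc, hsq, one_mul]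
  have r0 : c 0 * c 1 * c 4 = 1 := by
    have h : c 0 * c 1 = c 4 := hrule 0
    rw [h]; exact hsq 4
  have r1 : c 1 * c 2 * c 5 = 1 := by
    have h : c 1 * c 2 = c 5 := hrule 1
    rw [h]; exact hsq 5
  have r2 : c 2 * c 3 * c 6 = 1 := by
    have h : c 2 * c 3 = c 6 := hrule 2
    rw [h]; exact hsq 6
  have r3 : c 3 * c 4 * c 7 = 1 := by
    have h : c 3 * c 4 = c 7 := hrule 3
    rw [h]; exact hsq 7
  have r4 : c 4 * c 5 * c 8 = 1 := by
    have h : c 4 * c 5 = c 8 := hrule 4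
    rw [h]; exact hsq 8
  have r5 : c 5 * c 6 * c 9 = 1 := by
    have h : c 5 * c 6 = c 9 := hrule 5
    rw [h]; exact hsq 9
  have r6 : c 6 * c 7 * c 10 = 1 := by
    have h : c 6 * c 7 = c 10 := hrule 6
    rw [h]; exact hsq 10
  have r7 : c 7 * c 8 * c 11 = 1 := by
    have h : c 7 * c 8 = c 11 := hrule 7
    rw [h]; exact hsq 11
  have r8 : c 8 * c 9 * c 12 = 1 := by
    have h : c 8 * c 9 = c 12 := hrule 8
    rw [h]; exact hsq 12
  have r9 : c 9 * c 10 * c 13 = 1 := by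
    have h : c 9 * c 10 = c 13 := hrule 9
    rw [h]; exact hsq 13
  have r10 : c 10 * c 11 * c 14 = 1 := by
    have h : c 10 * c 11 = c 14 := hrule 10
    rw [h]; exact hsq 14
  have r11 : c 11 * c 12 * c 0 = 1 := by
    have h : c 11 * c 12 = c 15 := hrule 11
    rw [show c 15 = c 0 from hper 0] at h
    rw [h]; exact hsq 0
  have r12 : c 12 * c 13 * c 1 = 1 := by
    have h : c 12 * c 13 = c 16 := hrule 12
    rw [show c 16 = c 1 from hper 1] at h
    rw [h]; exact hsq 1
  have r13 : c 13 * c 14 * c 2 = 1 := by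
    have h : c 13 * c 14 = c 17 := hrule 13
    rw [show c 17 = c 2 from hper 2] at h
    rw [h]; exact hsq 2
  have r14 : c 14 * c 0 * c 3 = 1 := by
    have h : c 14 * c 15 = c 18 := hrule 14
    rw [show c 15 = c 0 from hper 0, show c 18 = c 3 from hper 3] at h
    rw [h]; exact hsq 3
  refine ⟨?_, ?_, ?_, ?_, ?_, ?_⟩
  · have key : c 0 * c 2 * c 8 = (c 0 * c 1 * c 4) * (c 1 * c 2 * c 5) * (c 4 * c 5 * c 8) := by
      simp [mul_comm, mul_left_comm, mul_assoc, hsq, hsq']
    rw [r0, r1, r4] at key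
    simp only [one_mul, mul_one] at key
    calc c 0 * c 2 = c 0 * c 2 * (c 8 * c 8) := by rw [hsq 8, mul_one]
      _ = c 0 * c 2 * c 8 * c 8 := by rw [← mul_assoc]
      _ = c 8 := by rw [key, one_mul]
  · have key : c 0 * c 3 * c 14 = (c 0 * c 1 * c 4) * (c 1 * c 2 * c 5) * (c 2 * c 3 * c 6) * (c 4 * c 5 * c 8) * (c 6 * c 7 * c 10) * (c 7 * c 8 * c 11) * (c 10 * c 11 * c 14) := by
      simp [mul_comm, mul_left_comm, mul_assoc, hsq, hsq']
    rw [r0, r1, r2, r4, r6, r7, r10] at key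
    simp only [one_mul, mul_one] at key
    calc c 0 * c 3 = c 0 * c 3 * (c 14 * c 14) := by rw [hsq 14, mul_one]
      _ = c 0 * c 3 * c 14 * c 14 := by rw [← mul_assoc]
      _ = c 14 := by rw [key, one_mul]
  · have key : c 0 * c 5 * c 10 = (c 0 * c 1 * c 4) * (c 1 * c 2 * c 5) * (c 2 * c 3 * c 6) * (c 3 * c 4 * c 7) * (c 6 * c 7 * c 10) := by
      simp [mul_comm, mul_left_comm, mul_assoc, hsq, hsq']
    rw [r0, r1, r2, r3, r6] at key
    simp only [one_mul, mul_one] at key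
    calc c 0 * c 5 = c 0 * c 5 * (c 10 * c 10) := by rw [hsq 10, mul_one]
      _ = c 0 * c 5 * c 10 * c 10 := by rw [← mul_assoc]
      _ = c 10 := by rw [key, one_mul]
  · have key : c 0 * c 6 * c 13 = (c 0 * c 1 * c 4) * (c 1 * c 2 * c 5) * (c 2 * c 3 * c 6) * (c 3 * c 4 * c 7) * (c 5 * c 6 * c 9) * (c 6 * c 7 * c 10) * (c 9 * c 10 * c 13) := by
      simp [mul_comm, mul_left_comm, mul_assoc, hsq, hsq']
    rw [r0, r1, r2, r3, r5, r6, r9] at key
    simp only [one_mul, mul_one] at key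
    calc c 0 * c 6 = c 0 * c 6 * (c 13 * c 13) := by rw [hsq 13, mul_one]
      _ = c 0 * c 6 * c 13 * c 13 := by rw [← mul_assoc]
      _ = c 13 := by rw [key, one_mul]
  · have key : c 0 * c 7 * c 9 = (c 0 * c 1 * c 4) * (c 1 * c 2 * c 5) * (c 2 * c 3 * c 6) * (c 3 * c 4 * c 7) * (c 5 * c 6 * c 9) := by
      simp [mul_comm, mul_left_comm, mul_assoc, hsq, hsq']
    rw [r0, r1, r2, r3, r5] at key
    simp only [one_mul, mul_one] at key
    calc c 0 * c 7 = c 0 * c 7 * (c 9 * c 9) := by rw [hsq 9, mul_one]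
      _ = c 0 * c 7 * c 9 * c 9 := by rw [← mul_assoc]
      _ = c 9 := by rw [key, one_mul]
  · have key : c 0 * c 11 * c 12 = (c 0 * c 1 * c 4) * (c 1 * c 2 * c 5) * (c 2 * c 3 * c 6) * (c 3 * c 4 * c 7) * (c 5 * c 6 * c 9) * (c 7 * c 8 * c 11) * (c 8 * c 9 * c 12) := by
      simp [mul_comm, mul_left_comm, mul_assoc, hsq, hsq']
    rw [r0, r1, r2, r3, r5, r7, r8] at key
    simp only [one_mul, mul_one] at key
    calc c 0 * c 11 = c 0 * c 11 * (c 12 * c 12) := by rw [hsq 12, mul_one]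
      _ = c 0 * c 11 * c 12 * c 12 := by rw [← mul_assoc]
      _ = c 12 := by rw [key, one_mul]

section gen
variable {G : Type*} [Group G]

theorem rule15_G (c : ℕ → G) (hcomm : ∀ i j, c i * c j = c j * c i)
    (hper : ∀ i, c (i + 15) = c i) (hsq : ∀ i, c i * c i = 1) (h3 : c 3 ≠ c 0) (h0 : c 0 ≠ 1)
    (k : ℕ) (hk : k < 15) (hrule : ∀ i, c i * c (i + 1) = c (i + k)) : k = 4 ∨ k = 12 := by
  let _ : CommGroup (Subgroup.closure (Set.range c)) :=
    Subgroup.closureCommGroupOfComm (by rintro _ ⟨i, rfl⟩ _ ⟨j, rfl⟩; exact hcomm i j)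
  exact rule15
    (fun i => (⟨c i, Subgroup.subset_closure ⟨i, rfl⟩⟩ : Subgroup.closure (Set.range c)))
    (fun i => Subtype.ext (hper i)) (fun i => Subtype.ext (hsq i))
    (fun h => h3 (congrArg Subtype.val h)) (fun h => h0 (congrArg Subtype.val h)) k hk
    (fun i => Subtype.ext (hrule i))

theorem table15_G (c : ℕ → G) (hcomm : ∀ i j, c i * c j = c j * c i)
    (hper : ∀ i, c (i + 15) = c i) (hsq : ∀ i, c i * c i = 1)
    (hrule : ∀ i, c i * c (i + 1) = c (i + 4)) :
    c 0 * c 2 = c 8 ∧ c 0 * c 3 = c 14 ∧ c 0 * c 5 = c 10 ∧ c 0 * c 6 = c 13 ∧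
    c 0 * c 7 = c 9 ∧ c 0 * c 11 = c 12 := by
  let _ : CommGroup (Subgroup.closure (Set.range c)) :=
    Subgroup.closureCommGroupOfComm (by rintro _ ⟨i, rfl⟩ _ ⟨j, rfl⟩; exact hcomm i j)
  obtain ⟨h1, h2, h3, h4, h5, h6⟩ := table15
    (fun i => (⟨c i, Subgroup.subset_closure ⟨i, rfl⟩⟩ : Subgroup.closure (Set.range c)))
    (fun i => Subtype.ext (hper i)) (fun i => Subtype.ext (hsq i))
    (fun i => Subtype.ext (hrule i))
  exact ⟨congrArg Subtype.val h1, congrArg Subtype.val h2, congrArg Subtype.val h3,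
    congrArg Subtype.val h4, congrArg Subtype.val h5, congrArg Subtype.val h6⟩

theorem cj_per15 (x a : G) (hx : x ^ 15 = 1) (i : ℕ) : cj x a (i + 15) = cj x a i := by
  unfold cj; rw [pow_add, hx, mul_one]

/-- labelling of seventeen points -/
noncomputable def psi17 {α : Type*} [MulAction G α] (T T₀ Q : α) (x : G) (j : Fin 17) : α :=
  if j = 15 then T else if j = 16 then T₀ else x ^ (j : ℕ) • Q

theorem psi17_pow {α : Type*} [MulAction G α] (T T₀ Q : α) (x : G) (hox : x ^ 15 = 1) (n : ℕ) :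
    x ^ n • Q = psi17 T T₀ Q x ⟨n % 15, by omega⟩ := by
  have h7 : (⟨n % 15, by omega⟩ : Fin 17) ≠ 15 := by
    intro h
    have h' : n % 15 = 15 := congrArg Fin.val h
    omega
  have h8 : (⟨n % 15, by omega⟩ : Fin 17) ≠ 16 := by
    intro h
    have h' : n % 15 = 16 := congrArg Fin.val h
    omega
  rw [psi17, if_neg h7, if_neg h8]
  show x ^ n • Q = x ^ (n % 15) • Q
  have e : x ^ n = x ^ (n % 15) := by
    conv_lhs => rw [← Nat.div_add_mod n 15]
    rw [pow_add, pow_mul, hox, one_pow, one_mul]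
  rw [e]

theorem psi17_inj {α : Type*} [MulAction G α] (T T₀ Q : α) (x : G) (hT : x • T = T)
    (hT₀ : x • T₀ = T₀) (h1 : T₀ ≠ T) (h2 : Q ≠ T) (h3 : Q ≠ T₀)
    (hfree : ∀ i : ℕ, ¬ 15 ∣ i → x ^ i • Q ≠ Q) : Function.Injective (psi17 T T₀ Q x) := by
  have hneT : ∀ i : ℕ, x ^ i • Q ≠ T := by
    intro i h
    have : x ^ i • Q = x ^ i • T := by rw [pow_smul_fixed x T hT, h]
    exact h2 (smul_left_cancel _ this)
  have hneT₀ : ∀ i : ℕ, x ^ i • Q ≠ T₀ := by
    intro i h
    have : x ^ i • Q = x ^ i • T₀ := by rw [pow_smul_fixed x T₀ hT₀, h]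
    exact h3 (smul_left_cancel _ this)
  have aux : ∀ a b : ℕ, a ≤ b → b < 15 → x ^ a • Q = x ^ b • Q → a = b := by
    intro a b hab hb h
    have e : x ^ b = x ^ a * x ^ (b - a) := by
      rw [← pow_add]; congr 1; omega
    rw [e, mul_smul] at h
    have h' := smul_left_cancel _ h
    by_contra hne
    exact hfree (b - a) (by omega) h'.symm
  intro a b hab
  by_cases ha7 : a = 15
  · by_cases hb7 : b = 15
    · rw [ha7, hb7]
    · exfalso
      rw [psi17, psi17, if_pos ha7, if_neg hb7] at hab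
      by_cases hb8 : b = 16
      · rw [if_pos hb8] at hab; exact h1 hab.symm
      · rw [if_neg hb8] at hab; exact hneT _ hab.symm
  · by_cases ha8 : a = 16
    · by_cases hb7 : b = 15
      · exfalso
        rw [psi17, psi17, if_neg ha7, if_pos ha8, if_pos hb7] at hab
        exact h1 hab
      · by_cases hb8 : b = 16
        · rw [ha8, hb8]
        · exfalso
          rw [psi17, psi17, if_neg ha7, if_pos ha8, if_neg hb7, if_neg hb8] at hab
          exact hneT₀ _ hab.symm
    · by_cases hb7 : b = 15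
      · exfalso
        rw [psi17, psi17, if_neg ha7, if_neg ha8, if_pos hb7] at hab
        exact hneT _ hab
      · by_cases hb8 : b = 16
        · exfalso
          rw [psi17, psi17, if_neg ha7, if_neg ha8, if_neg hb7, if_pos hb8] at hab
          exact hneT₀ _ hab
        · rw [psi17, psi17, if_neg ha7, if_neg ha8, if_neg hb7, if_neg hb8] at hab
          have ha' : (a : ℕ) < 15 := by
            have h1 := a.2
            have h2 : (a : ℕ) ≠ 15 := fun h => ha7 (Fin.ext h)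
            have h3 : (a : ℕ) ≠ 16 := fun h => ha8 (Fin.ext h)
            omega
          have hb' : (b : ℕ) < 15 := by
            have h1 := b.2
            have h2 : (b : ℕ) ≠ 15 := fun h => hb7 (Fin.ext h)
            have h3 : (b : ℕ) ≠ 16 := fun h => hb8 (Fin.ext h)
            omega
          apply Fin.ext
          rcases le_total (a : ℕ) b with h | h
          · exact aux _ _ h hb' hab
          · exact (aux _ _ h ha' hab.symm).symm

end gen

section abs
set_option linter.unusedSectionVars false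
variable {G : Type*} [Group G] [Finite G]

theorem cj_facts [IsSimpleGroup G] (hG : Nat.card G = 4080) [Fact (Nat.Prime 2)]
    [Fact (Nat.Prime 3)] [Fact (Nat.Prime 5)] [Fact (Nat.Prime 17)] (T : Sylow 2 G) (x a : G)
    (hox : orderOf x = 15) (hxT : x • T = T) (haT : a ∈ (T : Subgroup G)) (ha1 : a ≠ 1) :
    (∀ i, cj x a i ∈ (T : Subgroup G)) ∧ (∀ i, cj x a i ≠ 1) ∧
    (∀ m : ℕ, cj x a m = a → 15 ∣ m) ∧
    (∀ i j, i < 15 → j < 15 → cj x a i = cj x a j → i = j) ∧
    (∀ b : G, b ∈ (T : Subgroup G) → b ≠ 1 → ∃ k, k < 15 ∧ b = cj x a k) := by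
  obtain ⟨hc17, hc5, hc3, hc2, hn17, hN17, hnc, hidx⟩ := facts4080 hG
  obtain ⟨hsq, hcomm, hC, hTI, hn2, hN2⟩ := sylow2_struct hG
  have hxN : x ∈ normalizer ((T : Subgroup G) : Set G) := Sylow.smul_eq_iff_mem_normalizer.mp hxT
  have hcT : ∀ i, cj x a i ∈ (T : Subgroup G) := by
    intro i
    exact (Subgroup.mem_normalizer_iff.mp (pow_mem hxN i) a).mp haT
  have hc1 : ∀ i, cj x a i ≠ 1 := by
    intro i h
    apply ha1
    have : a = (x ^ i)⁻¹ * cj x a i * x ^ i := by unfold cj; group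
    rw [this, h]; group
  have hinj0 : ∀ m : ℕ, cj x a m = a → 15 ∣ m := by
    intro m h
    have hcm : x ^ m * a = a * x ^ m := by
      have : x ^ m * a = cj x a m * x ^ m := by unfold cj; group
      rw [this, h]
    have hmem : x ^ m ∈ centralizer ({a} : Set G) := by
      rw [Subgroup.mem_centralizer_singleton_iff]; exact hcm
    rw [hC T a haT ha1] at hmem
    have h8 : orderOf (x ^ m) ∣ 16 := by
      have := Subgroup.orderOf_dvd_natCard _ hmem
      rwa [hc2 T] at this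
    have h7' : orderOf (x ^ m) ∣ 15 := by
      rw [← hox]; exact orderOf_pow_dvd m
    have h1 := Nat.eq_one_of_dvd_coprimes (by norm_num : Nat.Coprime 16 15) h8 h7'
    rw [orderOf_eq_one_iff] at h1
    rw [← hox]; exact orderOf_dvd_of_pow_eq_one h1
  have hinj : ∀ i j, i < 15 → j < 15 → cj x a i = cj x a j → i = j := by
    have aux : ∀ i j, i ≤ j → j < 15 → cj x a i = cj x a j → i = j := by
      intro i j hij hj h
      have h1 := cj_conj x a i (j - i)
      rw [show i + (j - i) = j by omega, ← h] at h1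
      have h2 : x ^ i * cj x a (j - i) * (x ^ i)⁻¹ = x ^ i * a * (x ^ i)⁻¹ := h1
      have e : cj x a (j - i) = a := mul_left_cancel (mul_right_cancel h2)
      have := hinj0 (j - i) e
      omega
    intro i j hi hj h
    rcases le_total i j with hij | hij
    · exact aux i j hij hj h
    · exact (aux j i hij hi h.symm).symm
  refine ⟨hcT, hc1, hinj0, hinj, ?_⟩
  let φ : Fin 15 → {g : G // g ∈ (T : Subgroup G) ∧ g ≠ 1} :=
    fun i => ⟨cj x a i, hcT i, hc1 i⟩
  have hφ : Function.Injective φ := by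
    intro i j hij
    have h1 : cj x a i = cj x a j := congrArg Subtype.val hij
    exact Fin.ext (hinj i j i.2 j.2 h1)
  have hcard : Nat.card {g : G // g ∈ (T : Subgroup G) ∧ g ≠ 1} = 15 := by
    rw [card_nonid, hc2 T]
  have hbij : Function.Bijective φ := hφ.bijective_of_nat_card_le (by rw [hcard]; simp)
  intro b hb hb1
  obtain ⟨i, hi⟩ := hbij.2 ⟨b, hb, hb1⟩
  exact ⟨i, i.2, (congrArg Subtype.val hi).symm⟩

theorem exists_xa [IsSimpleGroup G] (hG : Nat.card G = 4080) [Fact (Nat.Prime 2)]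
    [Fact (Nat.Prime 3)] [Fact (Nat.Prime 5)] [Fact (Nat.Prime 17)] :
    ∃ (T T₀ : Sylow 2 G) (x a : G), T₀ ≠ T ∧ orderOf x = 15 ∧ x • T = T ∧ x • T₀ = T₀ ∧
      a ∈ (T : Subgroup G) ∧ a ≠ 1 ∧ a * cj x a 1 = cj x a 4 := by
  obtain ⟨hc17, hc5, hc3, hc2, hn17, hN17, hnc, hidx⟩ := facts4080 hG
  obtain ⟨hsq, hcomm, hC, hTI, hn2, hN2⟩ := sylow2_struct hG
  obtain ⟨T, T₀, x, hT₀, hox, hxT, hxT₀⟩ := exists_x15 hG
  obtain ⟨a, haT, ha1⟩ : ∃ a : G, a ∈ (T : Subgroup G) ∧ a ≠ 1 := by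
    by_contra hcon
    push Not at hcon
    have hb : (T : Subgroup G) = ⊥ := (Subgroup.eq_bot_iff_forall _).mpr hcon
    have h8' : Nat.card (T : Subgroup G) = 16 := hc2 T
    rw [hb] at h8'
    simp at h8'
  have hx15 : x ^ 15 = 1 := by rw [← hox]; exact pow_orderOf_eq_one x
  obtain ⟨hcT, hc1, hinj0, hinj, hsurj⟩ := cj_facts hG T x a hox hxT haT ha1
  have hcsq : ∀ i, cj x a i * cj x a i = 1 := fun i => hsq T _ (hcT i)
  have hccomm : ∀ i j, cj x a i * cj x a j = cj x a j * cj x a i :=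
    fun i j => hcomm T _ _ (hcT i) (hcT j)
  have hper : ∀ i, cj x a (i + 15) = cj x a i := cj_per15 x a hx15
  have h0 : cj x a 0 = a := cj_zero x a
  have hprod1 : a * cj x a 1 ≠ 1 := by
    intro h
    have e1 : cj x a 1 = a := mul_left_cancel (h.trans (hsq T a haT).symm)
    have := hinj0 1 e1
    omega
  obtain ⟨k, hk15, hk⟩ := hsurj _ (mul_mem haT (hcT 1)) hprod1
  have hrule : ∀ i, cj x a i * cj x a (i + 1) = cj x a (i + k) := by
    intro i
    calc cj x a i * cj x a (i + 1)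
        = (x ^ i * cj x a 0 * (x ^ i)⁻¹) * (x ^ i * cj x a 1 * (x ^ i)⁻¹) := by
          rw [cj_conj, cj_conj]; rfl
      _ = x ^ i * (a * cj x a 1) * (x ^ i)⁻¹ := by rw [h0]; group
      _ = cj x a (i + k) := by rw [hk, cj_conj]
  have h3ne : cj x a 3 ≠ cj x a 0 := fun h => by
    have := hinj 3 0 (by norm_num) (by norm_num) h
    omega
  rcases rule15_G (cj x a) hccomm hper hcsq h3ne (hc1 0) k hk15 hrule with rfl | rfl
  · exact ⟨T, T₀, x, a, hT₀, hox, hxT, hxT₀, haT, ha1, hk⟩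
  · refine ⟨T, T₀, x⁻¹, a, hT₀, by rw [orderOf_inv]; exact hox, ?_, ?_, haT, ha1, ?_⟩
    · rw [inv_smul_eq_iff, hxT]
    · rw [inv_smul_eq_iff, hxT₀]
    · have hxi : x⁻¹ = x ^ 14 := inv_eq_of_mul_eq_one_right (by rw [← pow_succ', hx15])
      have e1 : cj x⁻¹ a 1 = cj x a 14 := by unfold cj; rw [hxi, pow_one]
      have e4 : cj x⁻¹ a 4 = cj x a 11 := by
        have : x ^ (14 * 4) = x ^ 11 := by
          calc x ^ (14 * 4) = x ^ (11 + 15 * 3) := by norm_num
            _ = x ^ 11 * (x ^ 15) ^ 3 := by rw [pow_add, pow_mul]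
            _ = x ^ 11 := by rw [hx15, one_pow, mul_one]
        unfold cj; rw [hxi, ← pow_mul, this]
      rw [e1, e4]
      have h14 := hrule 14
      have e15 : cj x a (14 + 1) = a := by
        rw [show 14 + 1 = 0 + 15 by norm_num, hper, h0]
      have e26 : cj x a (14 + 12) = cj x a 11 := hper 11
      rw [e15, e26] at h14
      rw [← h14]
      exact hcomm T a _ haT (hcT 14)

theorem table4080 [IsSimpleGroup G] (hG : Nat.card G = 4080) [Fact (Nat.Prime 2)]
    [Fact (Nat.Prime 3)] [Fact (Nat.Prime 5)] [Fact (Nat.Prime 17)] (T : Sylow 2 G) (x a : G)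
    (hox : orderOf x = 15) (hxT : x • T = T) (haT : a ∈ (T : Subgroup G)) (ha1 : a ≠ 1)
    (h4 : a * cj x a 1 = cj x a 4) :
    a * cj x a 2 = cj x a 8 ∧ a * cj x a 3 = cj x a 14 ∧ a * cj x a 5 = cj x a 10 ∧
    a * cj x a 6 = cj x a 13 ∧ a * cj x a 7 = cj x a 9 ∧ a * cj x a 11 = cj x a 12 := by
  obtain ⟨hsq, hcomm, hC, hTI, hn2, hN2⟩ := sylow2_struct hG
  obtain ⟨hcT, hc1, hinj0, hinj, hsurj⟩ := cj_facts hG T x a hox hxT haT ha1
  have hx15 : x ^ 15 = 1 := by rw [← hox]; exact pow_orderOf_eq_one x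
  have hcsq : ∀ i, cj x a i * cj x a i = 1 := fun i => hsq T _ (hcT i)
  have hccomm : ∀ i j, cj x a i * cj x a j = cj x a j * cj x a i :=
    fun i j => hcomm T _ _ (hcT i) (hcT j)
  have hper : ∀ i, cj x a (i + 15) = cj x a i := cj_per15 x a hx15
  have h0 : cj x a 0 = a := cj_zero x a
  have hrule : ∀ i, cj x a i * cj x a (i + 1) = cj x a (i + 4) := by
    intro i
    calc cj x a i * cj x a (i + 1)
        = (x ^ i * cj x a 0 * (x ^ i)⁻¹) * (x ^ i * cj x a 1 * (x ^ i)⁻¹) := by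
          rw [cj_conj, cj_conj]; rfl
      _ = x ^ i * (a * cj x a 1) * (x ^ i)⁻¹ := by rw [h0]; group
      _ = cj x a (i + 4) := by rw [h4, cj_conj]
  have := table15_G (cj x a) hccomm hper hcsq hrule
  rw [h0] at this
  exact this

theorem points4080 [IsSimpleGroup G] (hG : Nat.card G = 4080) [Fact (Nat.Prime 2)]
    [Fact (Nat.Prime 3)] [Fact (Nat.Prime 5)] [Fact (Nat.Prime 17)] (T T₀ : Sylow 2 G)
    (x a : G) (hT₀ : T₀ ≠ T)
    (hox : orderOf x = 15) (hxT : x • T = T) (hxT₀ : x • T₀ = T₀)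
    (haT : a ∈ (T : Subgroup G)) (ha1 : a ≠ 1) :
    a • T₀ ≠ T ∧ a • T₀ ≠ T₀ ∧ Function.Bijective (psi17 T T₀ (a • T₀) x) := by
  obtain ⟨hsq, hcomm, hC, hTI, hn2, hN2⟩ := sylow2_struct hG
  obtain ⟨hcT, hc1, hinj0, hinj, hsurj⟩ := cj_facts hG T x a hox hxT haT ha1
  have haT' : a • T = T := Sylow.smul_eq_iff_mem_normalizer.mpr (le_normalizer haT)
  have h2 : a • T₀ ≠ T := by
    intro h
    have : a • T₀ = a • T := by rw [haT', h]
    exact hT₀ (smul_left_cancel _ this)
  have h3 : a • T₀ ≠ T₀ := fun h => ha1 (fix_eq_one hG T T₀ hT₀ a haT h)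
  have hfree : ∀ i : ℕ, ¬ 15 ∣ i → x ^ i • (a • T₀) ≠ a • T₀ := by
    intro i hi h
    rw [← cj_smul x a T₀ hxT₀ i] at h
    have h' : (a⁻¹ * cj x a i) • T₀ = T₀ := by
      rw [mul_smul, h, inv_smul_smul]
    have h1 := fix_eq_one hG T T₀ hT₀ _ (mul_mem (inv_mem haT) (hcT i)) h'
    have h4 : cj x a i = a := by
      have : cj x a i = a * (a⁻¹ * cj x a i) := by group
      rw [this, h1, mul_one]
    exact hi (hinj0 i h4)
  have hinj9 := psi17_inj T T₀ (a • T₀) x hxT hxT₀ hT₀ h2 h3 hfree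
  exact ⟨h2, h3, hinj9.bijective_of_nat_card_le (by rw [hn2]; simp)⟩

theorem exists_t4080 [IsSimpleGroup G] (hG : Nat.card G = 4080) [Fact (Nat.Prime 2)]
    [Fact (Nat.Prime 3)] [Fact (Nat.Prime 5)] [Fact (Nat.Prime 17)] (T T₀ Q : Sylow 2 G)
    (x : G) (hT₀ : T₀ ≠ T)
    (hox : orderOf x = 15) (hxT : x • T = T) (hxT₀ : x • T₀ = T₀) (hQT : Q ≠ T)
    (hQT₀ : Q ≠ T₀) (hbij : Function.Bijective (psi17 T T₀ Q x)) :
    ∃ t : G, t • T = T₀ ∧ t • T₀ = T ∧ t • Q = Q ∧ t * x * t⁻¹ = x ^ 14 := by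
  obtain ⟨hc17, hc5, hc3, hc2, hn17, hN17, hnc, hidx⟩ := facts4080 hG
  obtain ⟨hn5, hn3, hc5v, hc3v⟩ := facts4080b hG
  have hx15 : x ^ 15 = 1 := by rw [← hox]; exact pow_orderOf_eq_one x
  have hall : ∀ R : Sylow 2 G, R = T ∨ R = T₀ ∨ ∃ i : ℕ, R = x ^ i • Q := by
    intro R
    obtain ⟨j, hj⟩ := hbij.2 R
    by_cases hj7 : j = 15
    · left; rw [← hj, psi17, if_pos hj7]
    · by_cases hj8 : j = 16
      · right; left; rw [← hj, psi17, if_neg hj7, if_pos hj8]
      · right; right; exact ⟨j, by rw [← hj, psi17, if_neg hj7, if_neg hj8]⟩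
  have hQfree : x ^ 14 • Q ≠ Q := by
    intro h
    have e6 := psi17_pow T T₀ Q x hx15 14
    have e0 := psi17_pow T T₀ Q x hx15 0
    rw [pow_zero, one_smul] at e0
    have e : psi17 T T₀ Q x ⟨14 % 15, by omega⟩ = psi17 T T₀ Q x ⟨0 % 15, by omega⟩ := by
      rw [← e6, ← e0]; exact h
    have := congrArg Fin.val (hbij.1 e)
    simp at this
  have hfixed : ∀ R : Sylow 2 G, x ^ 14 • R = R → R = T ∨ R = T₀ := by
    intro R hR
    rcases hall R with h | h | ⟨i, h⟩
    · exact Or.inl h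
    · exact Or.inr h
    · exfalso
      rw [h, ← mul_smul, ← pow_add, add_comm, pow_add, mul_smul] at hR
      exact hQfree (smul_left_cancel _ hR)
  have hoy : orderOf (x ^ 3) = 5 := by
    rw [orderOf_pow' (x := x) (n := 3) (by norm_num), hox]; norm_num
  have hoz : orderOf (x ^ 5) = 3 := by
    rw [orderOf_pow' (x := x) (n := 5) (by norm_num), hox]; norm_num
  have hCy : centralizer ({x ^ 3} : Set G) = zpowers x := by
    symm
    apply Subgroup.eq_of_le_of_card_ge
    · rw [zpowers_le, Subgroup.mem_centralizer_singleton_iff]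
      rw [← pow_succ', ← pow_succ]
    · rw [Nat.card_zpowers, hox, hc5v _ hoy]
  have hpg : IsPGroup 5 (zpowers (x ^ 3)) :=
    IsPGroup.of_card (n := 1) (by rw [Nat.card_zpowers, hoy, pow_one])
  obtain ⟨P, hP⟩ := hpg.exists_le_sylow
  have hPz : zpowers (x ^ 3) = (P : Subgroup G) :=
    Subgroup.eq_of_le_of_card_ge hP (by rw [Nat.card_zpowers, hoy, hc5 P])
  have hN5 : Nat.card (normalizer ((P : Subgroup G) : Set G)) = 30 := by
    have := card_sylow_mul_card_normalizer P
    rw [hn5, hG] at this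
    omega
  have h2 : 2 ∣ Nat.card (normalizer ((P : Subgroup G) : Set G)) := by rw [hN5]; norm_num
  obtain ⟨t', ht'⟩ := exists_prime_orderOf_dvd_card' 2 h2
  obtain ⟨t₁, ht₁⟩ : ∃ t₁ : G, t₁ = (t' : G) := ⟨_, rfl⟩
  have hot : orderOf t₁ = 2 := by rw [ht₁, Subgroup.orderOf_coe]; exact ht'
  have htN : t₁ ∈ normalizer ((P : Subgroup G) : Set G) := by rw [ht₁]; exact t'.2
  have ht2 : t₁ * t₁ = 1 := by rw [← pow_two, ← hot]; exact pow_orderOf_eq_one t₁
  have hy2 : t₁⁻¹ * x ^ 3 * t₁ ∈ zpowers (x ^ 3) := by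
    rw [hPz]
    have := (Subgroup.mem_normalizer_iff.mp (inv_mem htN) (x ^ 3)).mp (hP (mem_zpowers _))
    rwa [inv_inv] at this
  obtain ⟨i, hi⟩ := Subgroup.mem_zpowers_iff.mp hy2
  have hxc : x * (t₁⁻¹ * x ^ 3 * t₁) = (t₁⁻¹ * x ^ 3 * t₁) * x := by
    rw [← hi]
    exact (Commute.zpow_right (Commute.pow_right (Commute.refl x) 3) i).eq
  have h1 : t₁ * x * t₁⁻¹ ∈ zpowers x := by
    rw [← hCy, Subgroup.mem_centralizer_singleton_iff]
    calc t₁ * x * t₁⁻¹ * x ^ 3 = t₁ * (x * (t₁⁻¹ * x ^ 3 * t₁)) * t₁⁻¹ := by group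
      _ = t₁ * ((t₁⁻¹ * x ^ 3 * t₁) * x) * t₁⁻¹ := by rw [hxc]
      _ = x ^ 3 * (t₁ * x * t₁⁻¹) := by group
  obtain ⟨k, hk⟩ := Subgroup.mem_zpowers_iff.mp h1
  obtain ⟨m, hm15, hm⟩ : ∃ m : ℕ, m < 15 ∧ x ^ m = t₁ * x * t₁⁻¹ := by
    refine ⟨(k % 15).toNat, ?_, ?_⟩
    · omega
    · rw [← hk, ← zpow_natCast, Int.toNat_of_nonneg (by omega)]
      have := zpow_mod_orderOf x k
      rw [hox] at this
      exact this
  have hmm : x ^ (m * m) = x ^ 1 := by
    have e1 : t₁ * (t₁ * x * t₁⁻¹) * t₁⁻¹ = x := by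
      calc t₁ * (t₁ * x * t₁⁻¹) * t₁⁻¹ = (t₁ * t₁) * x * (t₁ * t₁)⁻¹ := by group
        _ = x := by rw [ht2]; simp
    rw [pow_one, pow_mul]
    nth_rewrite 1 [hm]
    rw [conj_pow, hm]
    exact e1
  rw [pow_eq_pow_iff_modEq, hox] at hmm
  have hconj : ∀ e : ℕ, t₁ * x ^ e * t₁⁻¹ = x ^ (m * e) := by
    intro e; rw [← conj_pow, ← hm, ← pow_mul]
  have hno : ∀ z : G, Nat.card (centralizer ({z} : Set G)) = 15 → t₁ * z * t₁⁻¹ ≠ z := by
    intro z hz h
    have hmem : t₁ ∈ centralizer ({z} : Set G) := by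
      rw [Subgroup.mem_centralizer_singleton_iff]
      calc t₁ * z = (t₁ * z * t₁⁻¹) * t₁ := by group
        _ = z * t₁ := by rw [h]
    have := Subgroup.orderOf_dvd_natCard _ hmem
    rw [hz, hot] at this
    norm_num at this
  have htx : t₁ * x * t₁⁻¹ = x ^ 14 := by
    rcases sq_mod15 m hm15 hmm with rfl | rfl | rfl | rfl
    · exfalso
      apply hno (x ^ 3) (hc5v _ hoy)
      rw [hconj 3, pow_eq_pow_iff_modEq, hox]
    · exfalso
      apply hno (x ^ 5) (hc3v _ hoz)
      rw [hconj 5, pow_eq_pow_iff_modEq, hox]; decide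
    · exfalso
      apply hno (x ^ 3) (hc5v _ hoy)
      rw [hconj 3, pow_eq_pow_iff_modEq, hox]; decide
    · exact hm.symm
  have htx' : t₁ * x = x ^ 14 * t₁ := by rw [← htx]; group
  have hfix1 : ∀ R : Sylow 2 G, x • R = R → x ^ 14 • (t₁ • R) = t₁ • R := by
    intro R hR
    rw [← mul_smul, ← htx', mul_smul, hR]
  have hT1 : t₁ • T = T₀ := by
    rcases hfixed _ (hfix1 T hxT) with h | h
    · exfalso
      have hmemT : t₁ ∈ (T : Subgroup G) :=
        mem_sylow_of_order T t₁ (Sylow.smul_eq_iff_mem_normalizer.mp h) hot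
      rcases hfixed _ (hfix1 T₀ hxT₀) with h' | h'
      · have : t₁ • T₀ = t₁ • T := by rw [h, h']
        exact hT₀ (smul_left_cancel _ this)
      · have := fix_eq_one hG T T₀ hT₀ t₁ hmemT h'
        rw [this, orderOf_one] at hot
        omega
    · exact h
  have hT2 : t₁ • T₀ = T := by
    rw [← hT1, ← mul_smul, ht2, one_smul]
  obtain ⟨j, hj⟩ : ∃ j : ℕ, t₁ • Q = x ^ j • Q := by
    rcases hall (t₁ • Q) with h | h | h
    · exfalso
      have : t₁ • Q = t₁ • T₀ := by rw [hT2, h]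
      exact hQT₀ (smul_left_cancel _ this)
    · exfalso
      have : t₁ • Q = t₁ • T := by rw [hT1, h]
      exact hQT (smul_left_cancel _ this)
    · exact h
  refine ⟨x ^ (14 * j) * t₁, ?_, ?_, ?_, ?_⟩
  · rw [mul_smul, hT1, pow_smul_fixed x T₀ hxT₀]
  · rw [mul_smul, hT2, pow_smul_fixed x T hxT]
  · rw [mul_smul, hj, ← mul_smul, ← pow_add, show 14 * j + j = 15 * j by ring, pow_mul, hx15,
      one_pow, one_smul]
  · calc x ^ (14 * j) * t₁ * x * (x ^ (14 * j) * t₁)⁻¹
        = x ^ (14 * j) * (t₁ * x * t₁⁻¹) * (x ^ (14 * j))⁻¹ := by group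
      _ = x ^ 14 := by
        rw [htx, ← pow_add, add_comm, pow_add, mul_inv_cancel_right]

theorem closure_top4080 [IsSimpleGroup G] (hG : Nat.card G = 4080) [Fact (Nat.Prime 2)]
    [Fact (Nat.Prime 3)] [Fact (Nat.Prime 5)] [Fact (Nat.Prime 17)] (T T₀ : Sylow 2 G)
    (x a t : G) (hT₀ : T₀ ≠ T)
    (hox : orderOf x = 15) (hxT : x • T = T) (haT : a ∈ (T : Subgroup G)) (ha1 : a ≠ 1)
    (htT : t • T = T₀) : closure ({x, t, a} : Set G) = ⊤ := by
  obtain ⟨hc17, hc5, hc3, hc2, hn17, hN17, hnc, hidx⟩ := facts4080 hG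
  obtain ⟨hsq, hcomm, hC, hTI, hn2, hN2⟩ := sylow2_struct hG
  obtain ⟨hcT, hc1, hinj0, hinj, hsurj⟩ := cj_facts hG T x a hox hxT haT ha1
  have hx : x ∈ closure ({x, t, a} : Set G) := subset_closure (by simp)
  have ht : t ∈ closure ({x, t, a} : Set G) := subset_closure (by simp)
  have ha : a ∈ closure ({x, t, a} : Set G) := subset_closure (by simp)
  have hTK : (T : Subgroup G) ≤ closure ({x, t, a} : Set G) := by
    intro b hb
    by_cases hb1 : b = 1
    · rw [hb1]; exact one_mem _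
    · obtain ⟨k, -, hk⟩ := hsurj b hb hb1
      rw [hk]
      exact mul_mem (mul_mem (pow_mem hx k) ha) (inv_mem (pow_mem hx k))
  by_contra hne
  have hxN : x ∈ normalizer ((T : Subgroup G) : Set G) :=
    Sylow.smul_eq_iff_mem_normalizer.mp hxT
  have hJK : (T : Subgroup G) ⊔ zpowers x ≤ closure ({x, t, a} : Set G) :=
    sup_le hTK (by rwa [zpowers_le])
  have hJN : (T : Subgroup G) ⊔ zpowers x ≤ normalizer ((T : Subgroup G) : Set G) :=
    sup_le le_normalizer (by rwa [zpowers_le])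
  have hJ56 : 240 ≤ Nat.card ((T : Subgroup G) ⊔ zpowers x : Subgroup G) := by
    have d1 : 16 ∣ Nat.card ((T : Subgroup G) ⊔ zpowers x : Subgroup G) := by
      have := Subgroup.card_dvd_of_le
        (le_sup_left : (T : Subgroup G) ≤ (T : Subgroup G) ⊔ zpowers x)
      rwa [hc2 T] at this
    have d2 : 15 ∣ Nat.card ((T : Subgroup G) ⊔ zpowers x : Subgroup G) := by
      have := Subgroup.card_dvd_of_le
        (le_sup_right : zpowers x ≤ (T : Subgroup G) ⊔ zpowers x)
      rwa [Nat.card_zpowers, hox] at this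
    have d3 : 16 * 15 ∣ Nat.card ((T : Subgroup G) ⊔ zpowers x : Subgroup G) :=
      Nat.Coprime.mul_dvd_of_dvd_of_dvd (by norm_num) d1 d2
    exact Nat.le_of_dvd Nat.card_pos d3
  have hJeqN := Subgroup.eq_of_le_of_card_ge hJN (by rw [hN2 T]; exact hJ56)
  have hK8 := hidx _ hne
  have hKcard := Subgroup.card_mul_index (closure ({x, t, a} : Set G))
  rw [hG] at hKcard
  have hK63 : Nat.card (closure ({x, t, a} : Set G)) ≤ 240 := by nlinarith
  have hK56 : 240 ∣ Nat.card (closure ({x, t, a} : Set G)) := by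
    have := Subgroup.card_dvd_of_le hJK
    rw [hJeqN, hN2 T] at this; exact this
  have hKeq : Nat.card (closure ({x, t, a} : Set G)) = 240 := by
    obtain ⟨c, hc⟩ := hK56
    have hpos : 0 < Nat.card (closure ({x, t, a} : Set G)) := Nat.card_pos
    rw [hc] at hK63 hpos
    have : c = 1 := by omega
    rw [hc, this]
  have hNK : normalizer ((T : Subgroup G) : Set G) = closure ({x, t, a} : Set G) := by
    rw [← hJeqN]
    exact Subgroup.eq_of_le_of_card_ge hJK (by rw [hKeq]; exact hJ56)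
  have htN : t ∈ normalizer ((T : Subgroup G) : Set G) := by rw [hNK]; exact ht
  have : t • T = T := Sylow.smul_eq_iff_mem_normalizer.mpr htN
  exact hT₀ (htT.symm.trans this)

end abs

end Cfsg.Agent.Lib.Helper5.G4080
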