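import Cfsg.Agent.S1006
import Cfsg.Agent.S0495
import Cfsg.Agent.Lib.Helper8.SylowAux

set_option autoImplicit false

namespace Cfsg.Agent.Lib.Helper5.G504

open Subgroup Cfsg.Agent.Lib.Helper8 Cfsg.Agent.S1002 Cfsg.Agent.S1003 Cfsg.Agent.S1006

section abs
set_option linter.unusedSectionVars false
variable {G : Type*} [Group G] [Finite G]

/-- in a simple group with more than one Sylow `p`-subgroup the action on them is faithful -/
theorem faithful_sylow [IsSimpleGroup G] {p : ℕ} [Fact p.Prime]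
    (hn : Nat.card (Sylow p G) ≠ 1) (g : G) (hg : ∀ Q : Sylow p G, g • Q = Q) : g = 1 := by
  have hk : g ∈ (MulAction.toPermHom G (Sylow p G)).ker := by
    rw [MonoidHom.mem_ker]
    refine Equiv.ext (fun Q => ?_)
    simpa using hg Q
  rcases (MonoidHom.normal_ker (MulAction.toPermHom G (Sylow p G))).eq_bot_or_eq_top with hb | ht
  · rw [hb, Subgroup.mem_bot] at hk; exact hk
  · exfalso
    apply hn
    obtain ⟨P⟩ : Nonempty (Sylow p G) := inferInstance
    have hall : ∀ Q : Sylow p G, Q = P := by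
      intro Q
      obtain ⟨c, hc⟩ := MulAction.exists_smul_eq G P Q
      have hc' : c ∈ (MulAction.toPermHom G (Sylow p G)).ker := by rw [ht]; trivial
      rw [MonoidHom.mem_ker] at hc'
      have h3 := congrArg (fun σ : Equiv.Perm (Sylow p G) => σ P) hc'
      simp only [MulAction.toPermHom_apply, MulAction.toPerm_apply, Equiv.Perm.coe_one, id_eq] at h3
      rw [← hc, h3]
    exact Nat.card_eq_one_iff_unique.mpr ⟨⟨fun a b => (hall a).trans (hall b).symm⟩, ⟨P⟩⟩

open scoped IsMulCommutative in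
/-- transfer: an element of an abelian Sylow subgroup central in its normalizer is trivial -/
theorem central_in_normalizer_eq_one [IsSimpleGroup G] {p : ℕ} [Fact p.Prime]
    (hnc : ¬ IsMulCommutative G) (P : Sylow p G)
    (hP : IsMulCommutative P) (z : G) (hz : z ∈ (P : Subgroup G))
    (hzN : ∀ n ∈ normalizer ((P : Subgroup G) : Set G), n * z = z * n) : z = 1 := by
  have key : ∀ (k : ℕ) (g₀ : G), g₀⁻¹ * z ^ k * g₀ ∈ (P : Subgroup G) →
      g₀⁻¹ * z ^ k * g₀ = z ^ k := by
    intro k g₀ h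
    obtain ⟨n, hn, h'⟩ := P.conj_eq_normalizer_conj_of_mem (z ^ k) g₀ (pow_mem hz k) h
    rw [h']
    have h2 : n * z ^ k = z ^ k * n := (Commute.pow_right (hzN n hn) k).eq
    rw [mul_assoc, ← h2, inv_mul_cancel_left]
  have h1 := MonoidHom.transfer_eq_pow (MonoidHom.id (P : Subgroup G)) z key
  have hker : (MonoidHom.transfer (MonoidHom.id (P : Subgroup G))).ker = ⊤ := by
    rcases (MonoidHom.normal_ker
      (MonoidHom.transfer (MonoidHom.id (P : Subgroup G)))).eq_bot_or_eq_top with hb | ht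
    · exfalso; apply hnc
      have hinj := (MonoidHom.ker_eq_bot_iff _).mp hb
      exact ⟨⟨fun a b => hinj (by rw [map_mul, map_mul, mul_comm])⟩⟩
    · exact ht
  have h2 : MonoidHom.transfer (MonoidHom.id (P : Subgroup G)) z = 1 := by
    have : z ∈ (MonoidHom.transfer (MonoidHom.id (P : Subgroup G))).ker := by rw [hker]; trivial
    exact this
  rw [h2] at h1
  have h3 : z ^ (P : Subgroup G).index = 1 := by
    have := congrArg Subtype.val h1
    simpa using this.symm
  have h4 : orderOf z ∣ (P : Subgroup G).index := orderOf_dvd_of_pow_eq_one h3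
  have h5 : orderOf z ∣ Nat.card (P : Subgroup G) := Subgroup.orderOf_dvd_natCard _ hz
  obtain ⟨n, hn⟩ := IsPGroup.iff_card.mp P.isPGroup'
  rw [hn] at h5
  have h6 : Nat.Coprime (p ^ n) (P : Subgroup G).index :=
    Nat.Coprime.pow_left n ((Nat.Prime.coprime_iff_not_dvd Fact.out).mpr P.not_dvd_index)
  exact orderOf_eq_one_iff.mp (Nat.eq_one_of_dvd_coprimes h6 h5 h4)

theorem card_alt7 : Nat.card (alternatingGroup (Fin 7)) = 2520 := by
  have h := two_mul_card_alternatingGroup (α := Fin 7)
  rw [Fintype.card_perm, Fintype.card_fin] at h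
  rw [Nat.card_eq_fintype_card]
  have : Nat.factorial 7 = 5040 := by decide
  omega

/-- a simple group of order 504 has no proper subgroup of index below 8 -/
theorem index_ge [IsSimpleGroup G] (hG : Nat.card G = 504) (hnc : ¬ IsMulCommutative G)
    (H : Subgroup G) (hH : H ≠ ⊤) : 8 ≤ H.index := by
  have hfac := two_mul_card_dvd_factorial_of_simple hnc H hH
  rw [hG] at hfac
  by_contra hlt
  push Not at hlt
  have h7 : H.index = 7 := by
    by_contra hne
    have hle : H.index ≤ 6 := by omega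
    have hfac' : 2 * 504 ∣ Nat.factorial 6 := dvd_trans hfac (Nat.factorial_dvd_factorial hle)
    norm_num [Nat.factorial] at hfac'
  classical
  obtain ⟨f, hf⟩ : ∃ f : G →* alternatingGroup (Fin 7), Function.Injective f := by
    have := Cfsg.Agent.S0991.result hnc H hH
    rwa [h7] at this
  have : IsSimpleGroup (alternatingGroup (Fin 7)) := alternatingGroup.isSimpleGroup (by simp)
  have hncA : ¬ IsMulCommutative (alternatingGroup (Fin 7)) := by
    intro hc
    apply hnc
    exact ⟨⟨fun a b => hf (by rw [map_mul, map_mul, hc.is_comm.comm])⟩⟩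
  have hcardK : Nat.card f.range = 504 := by
    rw [← hG]; exact (Nat.card_congr (Equiv.ofInjective f hf)).symm
  have hKtop : f.range ≠ ⊤ := by
    intro h
    rw [h, Subgroup.card_top, card_alt7] at hcardK
    omega
  have h2 := two_mul_card_dvd_factorial_of_simple hncA f.range hKtop
  have h3 := Subgroup.index_mul_card f.range
  rw [hcardK, card_alt7] at h3
  have h4 : f.range.index = 5 := by omega
  rw [h4, card_alt7] at h2
  norm_num [Nat.factorial] at h2

theorem exists_fixed_ne {p q : ℕ} [Fact p.Prime] [Fact q.Prime] (y : G) (hoy : orderOf y = q)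
    (P : Sylow p G) (hyP : y • P = P) (hmod : ¬ Nat.card (Sylow p G) ≡ 1 [MOD q]) :
    ∃ Q : Sylow p G, Q ≠ P ∧ y • Q = Q := by
  have hpg : IsPGroup q (zpowers y) :=
    IsPGroup.of_card (n := 1) (by rw [Nat.card_zpowers, hoy, pow_one])
  have hmod' := hpg.card_modEq_card_fixedPoints (Sylow p G)
  by_contra hcon
  push Not at hcon
  have hsub : Subsingleton (MulAction.fixedPoints (zpowers y) (Sylow p G)) := by
    constructor
    rintro ⟨a, ha⟩ ⟨b, hb⟩
    have ha' : y • a = a := ha ⟨y, mem_zpowers y⟩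
    have hb' : y • b = b := hb ⟨y, mem_zpowers y⟩
    have e1 : a = P := by
      by_contra h; exact hcon a h ha'
    have e2 : b = P := by
      by_contra h; exact hcon b h hb'
    exact Subtype.ext (e1.trans e2.symm)
  have hPfix : P ∈ MulAction.fixedPoints (zpowers y) (Sylow p G) := by
    rintro ⟨g, hg⟩
    have hst : y ∈ MulAction.stabilizer G P := hyP
    have := (MulAction.stabilizer G P).zpowers_le.mpr hst hg
    exact this
  have hcard : Nat.card (MulAction.fixedPoints (zpowers y) (Sylow p G)) = 1 :=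
    Nat.card_of_subsingleton ⟨P, hPfix⟩
  rw [hcard] at hmod'
  exact hmod hmod'

theorem pow_smul_ne7 [Fact (Nat.Prime 7)] (hc7 : ∀ P : Sylow 7 G, Nat.card P = 7)
    (P Q : Sylow 7 G) (hQP : Q ≠ P) (x : G)
    (hox : orderOf x = 7) (hxP : x ∈ (P : Subgroup G)) (i : ℕ) (hi : ¬ 7 ∣ i) :
    x ^ i • Q ≠ Q := by
  intro h
  have h1 : x ^ i ∈ normalizer ((Q : Subgroup G) : Set G) :=
    Sylow.smul_eq_iff_mem_normalizer.mp h
  have ho : orderOf (x ^ i) = 7 := by
    rw [Nat.Coprime.orderOf_pow, hox]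
    rw [hox]
    exact (Nat.Prime.coprime_iff_not_dvd (by norm_num)).mpr hi
  have h2 : x ^ i ∈ (Q : Subgroup G) := mem_sylow_of_order Q _ h1 ho
  have h3 : x ^ i ≠ 1 := by
    intro h; rw [h, orderOf_one] at ho; omega
  exact hQP (mem_sylow_of_mem_two Q P (hc7 Q) (x ^ i) h3 h2 (Subgroup.pow_mem _ hxP i))

theorem exists_gen7 [Fact (Nat.Prime 7)] (hc7 : ∀ P : Sylow 7 G, Nat.card P = 7)
    (P : Sylow 7 G) : ∃ x : G, orderOf x = 7 ∧ zpowers x = (P : Subgroup G) := by
  obtain ⟨x, hxP, hx1⟩ : ∃ x : G, x ∈ (P : Subgroup G) ∧ x ≠ 1 := by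
    by_contra hcon
    push Not at hcon
    have hb : (P : Subgroup G) = ⊥ := (Subgroup.eq_bot_iff_forall _).mpr hcon
    have h7' : Nat.card (P : Subgroup G) = 7 := hc7 P
    rw [hb] at h7'
    simp at h7'
  have hox : orderOf x = 7 := orderOf_of_mem_sylow P (hc7 P) x hx1 hxP
  exact ⟨x, hox, Subgroup.eq_of_le_of_card_ge (by rwa [zpowers_le])
      (by rw [Nat.card_zpowers, hox]; exact (hc7 P).le)⟩

theorem n7_ne_8 [IsSimpleGroup G] (hG : Nat.card G = 504) [Fact (Nat.Prime 7)]
    [Fact (Nat.Prime 3)] (hc7 : ∀ P : Sylow 7 G, Nat.card P = 7) :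
    Nat.card (Sylow 7 G) ≠ 8 := by
  intro hn7
  obtain ⟨P⟩ : Nonempty (Sylow 7 G) := inferInstance
  have hN : Nat.card (normalizer ((P : Subgroup G) : Set G)) = 63 := by
    have := card_sylow_mul_card_normalizer P
    rw [hn7, hG] at this
    omega
  obtain ⟨x, hox, hPz⟩ := exists_gen7 hc7 P
  have hxP : x ∈ (P : Subgroup G) := by rw [← hPz]; exact mem_zpowers x
  have hcyc : IsCyclic (P : Subgroup G) := isCyclic_of_prime_card (p := 7) (hc7 P)
  have h1 := relIndex_centralizer_normalizer_dvd_totient (P : Subgroup G)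
  rw [show Nat.card (P : Subgroup G) = 7 from hc7 P, Nat.totient_prime (by norm_num)] at h1
  have h2 : (centralizer ((P : Subgroup G) : Set G)).relIndex
      (normalizer ((P : Subgroup G) : Set G)) ∣ 63 := by
    rw [← hN]
    exact Subgroup.relIndex_dvd_card _ _
  have h3 : (centralizer ((P : Subgroup G) : Set G)).relIndex
      (normalizer ((P : Subgroup G) : Set G)) ∣ 3 := by
    have := Nat.dvd_gcd h1 h2
    simpa using this
  have h4 := Subgroup.relIndex_mul_index
    (Subgroup.centralizer_le_normalizer (s := ((P : Subgroup G) : Set G)))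
  have h5 := Subgroup.card_mul_index (normalizer ((P : Subgroup G) : Set G))
  have h6 := Subgroup.card_mul_index (centralizer ((P : Subgroup G) : Set G))
  rw [hN, hG] at h5
  rw [hG] at h6
  have h7 : (normalizer ((P : Subgroup G) : Set G)).index = 8 := by omega
  rw [h7] at h4
  have h8 : 3 ∣ Nat.card (centralizer ((P : Subgroup G) : Set G)) := by
    rcases (Nat.dvd_prime Nat.prime_three).mp h3 with h | h
    · rw [h] at h4
      have : Nat.card (centralizer ((P : Subgroup G) : Set G)) = 63 := by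
        rw [← h4] at h6; omega
      rw [this]; norm_num
    · rw [h] at h4
      have : Nat.card (centralizer ((P : Subgroup G) : Set G)) = 21 := by
        rw [← h4] at h6; omega
      rw [this]; norm_num
  obtain ⟨u', hu'⟩ := exists_prime_orderOf_dvd_card' 3 h8
  have hou : orderOf (u' : G) = 3 := by rw [Subgroup.orderOf_coe]; exact hu'
  have huC : (u' : G) ∈ centralizer ((P : Subgroup G) : Set G) := u'.2
  obtain ⟨u, hu⟩ : ∃ u : G, u = (u' : G) := ⟨_, rfl⟩
  rw [← hu] at hou huC
  have hux : u * x = x * u := (Subgroup.mem_centralizer_iff.mp huC x hxP).symm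
  have huP : u • P = P :=
    Sylow.smul_eq_iff_mem_normalizer.mpr (Subgroup.centralizer_le_normalizer _ huC)
  have hxP' : x • P = P := Sylow.smul_eq_iff_mem_normalizer.mpr (le_normalizer hxP)
  obtain ⟨Q, hQP, huQ⟩ := exists_fixed_ne u hou P huP (by rw [hn7]; decide)
  have hfree := pow_smul_ne7 hc7 P Q hQP x hox hxP
  have hinj := Cfsg.Agent.S0495.psi_inj P Q x hQP hxP' hfree
  have hbij : Function.Bijective (Cfsg.Agent.S0495.psi P Q x) :=
    hinj.bijective_of_nat_card_le (by rw [hn7]; simp)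
  have hall : ∀ R : Sylow 7 G, u • R = R := by
    intro R
    obtain ⟨j, hj⟩ := hbij.2 R
    by_cases hj7 : j = 7
    · have : R = P := by rw [← hj, Cfsg.Agent.S0495.psi, if_pos hj7]
      rw [this, huP]
    · have : R = x ^ (j : ℕ) • Q := by rw [← hj, Cfsg.Agent.S0495.psi, if_neg hj7]
      have hc : u * x ^ (j : ℕ) = x ^ (j : ℕ) * u := (Commute.pow_right hux (j : ℕ)).eq
      rw [this, ← mul_smul, hc, mul_smul, huQ]
  have hu1 := faithful_sylow (by rw [hn7]; norm_num) u hall
  rw [hu1, orderOf_one] at hou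
  omega

theorem n7_val504 (n : ℕ) (hdvd : n ∣ 72) (hmod : n % 7 = 1) (hne : n ≠ 1) :
    n = 8 ∨ n = 36 := by
  have : n ≤ 72 := Nat.le_of_dvd (by norm_num) hdvd
  interval_cases n <;> simp_all

theorem n3_val504 (n : ℕ) (hdvd : n ∣ 56) (hmod : n % 3 = 1) (hne : n ≠ 1) :
    n = 4 ∨ n = 7 ∨ n = 28 := by
  have : n ≤ 56 := Nat.le_of_dvd (by norm_num) hdvd
  interval_cases n <;> simp_all

theorem facts504 [IsSimpleGroup G] (hG : Nat.card G = 504) [Fact (Nat.Prime 2)]
    [Fact (Nat.Prime 3)] [Fact (Nat.Prime 7)] :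
    (∀ P : Sylow 7 G, Nat.card P = 7) ∧ (∀ P : Sylow 3 G, Nat.card P = 9) ∧
    (∀ P : Sylow 2 G, Nat.card P = 8) ∧
    Nat.card (Sylow 7 G) = 36 ∧ Nat.card (Sylow 3 G) = 28 ∧
    (∀ P : Sylow 7 G, Nat.card (normalizer ((P : Subgroup G) : Set G)) = 14) ∧
    (∀ P : Sylow 3 G, Nat.card (normalizer ((P : Subgroup G) : Set G)) = 18) ∧
    ¬ IsMulCommutative G ∧ (∀ H : Subgroup G, H ≠ ⊤ → 8 ≤ H.index) := by
  have hc7 : ∀ P : Sylow 7 G, Nat.card P = 7 := fun P => by
    have := sylow_card_of_card_eq 1 72 (by norm_num) (by rw [hG]; norm_num) P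
    simpa using this
  have hc3 : ∀ P : Sylow 3 G, Nat.card P = 9 := fun P => by
    have := sylow_card_of_card_eq 2 56 (by norm_num) (by rw [hG]; norm_num) P
    simpa using this
  have hc2 : ∀ P : Sylow 2 G, Nat.card P = 8 := fun P => by
    have := sylow_card_of_card_eq 3 63 (by norm_num) (by rw [hG]; norm_num) P
    simpa using this
  have hn7 : Nat.card (Sylow 7 G) = 36 := by
    obtain ⟨P⟩ : Nonempty (Sylow 7 G) := inferInstance
    rcases n7_val504 _ (card_sylow_dvd_of_card_eq 1 72 (by norm_num) (by rw [hG]; norm_num)) card_sylow_mod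
      (card_sylow_ne_one_of_simple P (by rw [hc7 P]; norm_num) (by rw [hc7 P, hG]; norm_num))
      with h | h
    · exact absurd h (n7_ne_8 hG hc7)
    · exact h
  have hN7 : ∀ P : Sylow 7 G,
      Nat.card (normalizer ((P : Subgroup G) : Set G)) = 14 := by
    intro P
    have := card_sylow_mul_card_normalizer P
    rw [hn7, hG] at this
    omega
  have hnc : ¬ IsMulCommutative G :=
    not_comm_of_sylow_ne_one (p := 7) (by rw [hn7]; norm_num)
  have hidx := index_ge hG hnc
  have hn3 : Nat.card (Sylow 3 G) = 28 := by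
    obtain ⟨P⟩ : Nonempty (Sylow 3 G) := inferInstance
    have hne : Nat.card (Sylow 3 G) ≠ 1 :=
      card_sylow_ne_one_of_simple P (by rw [hc3 P]; norm_num) (by rw [hc3 P, hG]; norm_num)
    have htop : normalizer ((P : Subgroup G) : Set G) ≠ ⊤ := by
      intro h
      apply hne
      rw [Sylow.card_eq_index_normalizer P]
      show (normalizer ((P : Subgroup G) : Set G)).index = 1
      rw [h, index_top]
    have h8 := hidx _ htop
    have h9 : Nat.card (Sylow 3 G) = (normalizer ((P : Subgroup G) : Set G)).index :=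
      Sylow.card_eq_index_normalizer P
    rcases n3_val504 _ (card_sylow_dvd_of_card_eq 2 56 (by norm_num) (by rw [hG]; norm_num)) card_sylow_mod
      hne with h | h | h
    · omega
    · omega
    · exact h
  have hN3 : ∀ P : Sylow 3 G,
      Nat.card (normalizer ((P : Subgroup G) : Set G)) = 18 := by
    intro P
    have := card_sylow_mul_card_normalizer P
    rw [hn3, hG] at this
    omega
  exact ⟨hc7, hc3, hc2, hn7, hn3, hN7, hN3, hnc, hidx⟩

theorem mem_normalizer_zpowers (g d : G) (h1 : g * d * g⁻¹ ∈ zpowers d)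
    (h2 : g⁻¹ * d * g ∈ zpowers d) : g ∈ normalizer ((zpowers d : Subgroup G) : Set G) := by
  rw [Subgroup.mem_normalizer_iff]
  intro h
  constructor
  · intro hh
    obtain ⟨i, rfl⟩ := Subgroup.mem_zpowers_iff.mp hh
    rw [← conj_zpow]
    exact zpow_mem h1 i
  · intro hh
    obtain ⟨i, hi⟩ := Subgroup.mem_zpowers_iff.mp hh
    have e : h = (g⁻¹ * d * g) ^ i := by
      have e2 : g⁻¹ * d * g = g⁻¹ * d * g⁻¹⁻¹ := by rw [inv_inv]
      rw [e2, conj_zpow, hi]; group
    rw [e]
    exact zpow_mem h2 i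

theorem idx_two_of_card (U T : Subgroup G) (hUT : U ≤ T)
    (h : Nat.card T = 2 * Nat.card U) : (U.subgroupOf T).index = 2 := by
  have h1 := Subgroup.card_mul_index (U.subgroupOf T)
  rw [Nat.card_congr (Subgroup.subgroupOfEquivOfLe hUT).toEquiv, h] at h1
  have hpos : 0 < Nat.card U := Nat.card_pos
  have h2 : Nat.card U * (U.subgroupOf T).index = Nat.card U * 2 := by rw [h1, mul_comm]
  exact Nat.eq_of_mul_eq_mul_left hpos h2

theorem le_normalizer_of_idx_two (U T : Subgroup G) (hUT : U ≤ T)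
    (h : Nat.card T = 2 * Nat.card U) : T ≤ normalizer (U : Set G) := by
  have hn : (U.subgroupOf T).Normal :=
    Subgroup.normal_of_index_eq_two (idx_two_of_card U T hUT h)
  exact (Subgroup.normal_subgroupOf_iff_le_normalizer hUT).mp hn

theorem invert_sylow3 [IsSimpleGroup G] (hG : Nat.card G = 504) [Fact (Nat.Prime 2)]
    [Fact (Nat.Prime 3)] [Fact (Nat.Prime 7)] (P : Sylow 3 G) :
    (∀ a b : G, a ∈ (P : Subgroup G) → b ∈ (P : Subgroup G) → a * b = b * a) ∧
    ∃ s : G, orderOf s = 2 ∧ s ∈ normalizer ((P : Subgroup G) : Set G) ∧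
      ∀ y ∈ (P : Subgroup G), s * y * s⁻¹ = y⁻¹ := by
  obtain ⟨hc7, hc3, hc2, hn7, hn3, hN7, hN3, hnc, hidx⟩ := facts504 hG
  have hPc : IsMulCommutative P :=
    IsPGroup.isMulCommutative_of_card_eq_prime_sq (p := 3) ((hc3 P).trans (by norm_num))
  have hcomm : ∀ a b : G, a ∈ (P : Subgroup G) → b ∈ (P : Subgroup G) → a * b = b * a := by
    intro a b ha hb
    exact congrArg Subtype.val (hPc.is_comm.comm ⟨a, ha⟩ ⟨b, hb⟩)
  refine ⟨hcomm, ?_⟩
  have h2 : 2 ∣ Nat.card (normalizer ((P : Subgroup G) : Set G)) := by rw [hN3 P]; norm_num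
  obtain ⟨s', hs'⟩ := exists_prime_orderOf_dvd_card' 2 h2
  obtain ⟨s, hs⟩ : ∃ s : G, s = (s' : G) := ⟨_, rfl⟩
  have hos : orderOf s = 2 := by rw [hs, Subgroup.orderOf_coe]; exact hs'
  have hsN : s ∈ normalizer ((P : Subgroup G) : Set G) := by rw [hs]; exact s'.2
  refine ⟨s, hos, hsN, ?_⟩
  have hsup : (P : Subgroup G) ⊔ zpowers s = normalizer ((P : Subgroup G) : Set G) := by
    apply Subgroup.eq_of_le_of_card_ge (sup_le le_normalizer (by rwa [zpowers_le]))
    rw [hN3 P]
    have d1 : 9 ∣ Nat.card ((P : Subgroup G) ⊔ zpowers s : Subgroup G) := by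
      have := Subgroup.card_dvd_of_le
        (le_sup_left : (P : Subgroup G) ≤ (P : Subgroup G) ⊔ zpowers s)
      rwa [hc3 P] at this
    have d2 : 2 ∣ Nat.card ((P : Subgroup G) ⊔ zpowers s : Subgroup G) := by
      have := Subgroup.card_dvd_of_le
        (le_sup_right : zpowers s ≤ (P : Subgroup G) ⊔ zpowers s)
      rwa [Nat.card_zpowers, hos] at this
    have d3 : 9 * 2 ∣ Nat.card ((P : Subgroup G) ⊔ zpowers s : Subgroup G) :=
      Nat.Coprime.mul_dvd_of_dvd_of_dvd (by norm_num) d1 d2
    exact Nat.le_of_dvd Nat.card_pos d3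
  have hs2 : s * s = 1 := by rw [← pow_two, ← hos]; exact pow_orderOf_eq_one s
  have hsinv : s⁻¹ = s := inv_eq_of_mul_eq_one_left hs2
  intro y hy
  have hy' : s * y * s⁻¹ ∈ (P : Subgroup G) := (Subgroup.mem_normalizer_iff.mp hsN y).mp hy
  have hz : y * (s * y * s⁻¹) = 1 := by
    apply central_in_normalizer_eq_one hnc P hPc _ (mul_mem hy hy')
    intro n hn
    rw [← hsup] at hn
    have hle : (P : Subgroup G) ⊔ zpowers s ≤ centralizer ({y * (s * y * s⁻¹)} : Set G) := by
      apply sup_le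
      · intro a ha
        rw [Subgroup.mem_centralizer_singleton_iff]
        exact hcomm a _ ha (mul_mem hy hy')
      · rw [zpowers_le, Subgroup.mem_centralizer_singleton_iff]
        have hw1 : (s * y * s⁻¹) * s = s * y := by group
        have hw2 : s * (s * y * s⁻¹) = y * s := by
          calc s * (s * y * s⁻¹) = (s * s) * y * s⁻¹ := by group
            _ = y * s := by rw [hs2, one_mul, hsinv]
        calc s * (y * (s * y * s⁻¹)) = s * ((s * y * s⁻¹) * y) := by rw [hcomm y _ hy hy']
          _ = (s * (s * y * s⁻¹)) * y := by group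
          _ = y * ((s * y * s⁻¹) * s) := by rw [hw2, hw1, mul_assoc]
          _ = y * (s * y * s⁻¹) * s := by group
    have hmem := hle hn
    rw [Subgroup.mem_centralizer_singleton_iff] at hmem
    exact hmem
  exact eq_inv_of_mul_eq_one_right hz

theorem centralizer_three [IsSimpleGroup G] (hG : Nat.card G = 504) [Fact (Nat.Prime 2)]
    [Fact (Nat.Prime 3)] [Fact (Nat.Prime 7)] (P : Sylow 3 G) (d : G)
    (hd : d ∈ (P : Subgroup G)) (hd1 : d ≠ 1) :
    centralizer ({d} : Set G) = (P : Subgroup G) := by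
  obtain ⟨hc7, hc3, hc2, hn7, hn3, hN7, hN3, hnc, hidx⟩ := facts504 hG
  obtain ⟨hcomm, s, hos, hsN, hsinv⟩ := invert_sylow3 hG P
  have hPle : (P : Subgroup G) ≤ centralizer ({d} : Set G) := by
    intro a ha
    rw [Subgroup.mem_centralizer_singleton_iff]
    exact hcomm a d ha hd
  have hod : orderOf d ∣ 9 := by
    have := Subgroup.orderOf_dvd_natCard _ hd
    rwa [hc3 P] at this
  have hsd : s * d * s⁻¹ = d⁻¹ := hsinv d hd
  have hsC : s ∉ centralizer ({d} : Set G) := by
    intro h
    rw [Subgroup.mem_centralizer_singleton_iff] at h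
    have e1 : s * d * s⁻¹ = d := by rw [h, mul_inv_cancel_right]
    rw [e1] at hsd
    have e2 : d ^ 2 = 1 := by
      rw [pow_two]; nth_rewrite 2 [hsd]; exact mul_inv_cancel d
    have e3 : orderOf d ∣ 2 := orderOf_dvd_of_pow_eq_one e2
    have e4 : orderOf d = 1 := Nat.eq_one_of_dvd_coprimes (by norm_num : Nat.Coprime 9 2) hod e3
    exact hd1 (orderOf_eq_one_iff.mp e4)
  have h9 : 9 ∣ Nat.card (centralizer ({d} : Set G)) := by
    have := Subgroup.card_dvd_of_le hPle
    rwa [hc3 P] at this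
  have h504 : Nat.card (centralizer ({d} : Set G)) ∣ 504 :=
    hG ▸ Subgroup.card_subgroup_dvd_card _
  have hCM : centralizer ({d} : Set G) ≤ normalizer ((zpowers d : Subgroup G) : Set G) := by
    intro c hc
    rw [Subgroup.mem_centralizer_singleton_iff] at hc
    apply mem_normalizer_zpowers
    · rw [hc, mul_inv_cancel_right]; exact mem_zpowers d
    · have : c⁻¹ * d * c = d := by rw [mul_assoc, ← hc, inv_mul_cancel_left]
      rw [this]; exact mem_zpowers d
  have hsM : s ∈ normalizer ((zpowers d : Subgroup G) : Set G) := by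
    apply mem_normalizer_zpowers
    · rw [hsd]; exact inv_mem (mem_zpowers d)
    · have : s⁻¹ * d * s = d⁻¹ := by
        have e : d = s⁻¹ * d⁻¹ * s := by rw [← hsd]; group
        calc s⁻¹ * d * s = (s⁻¹ * d⁻¹ * s)⁻¹ := by group
          _ = d⁻¹ := by rw [← e]
      rw [this]; exact inv_mem (mem_zpowers d)
  have hMtop : normalizer ((zpowers d : Subgroup G) : Set G) ≠ ⊤ := by
    intro h
    have hn : (zpowers d).Normal := Subgroup.normalizer_eq_top_iff.mp h
    rcases hn.eq_bot_or_eq_top with hb | ht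
    · exact hd1 (Subgroup.zpowers_eq_bot.mp hb)
    · have := congrArg (fun H : Subgroup G => Nat.card H) ht
      simp only [Nat.card_zpowers, Subgroup.card_top, hG] at this
      rw [this] at hod; norm_num at hod
  have hMidx := hidx _ hMtop
  have hMcard := Subgroup.card_mul_index (normalizer ((zpowers d : Subgroup G) : Set G))
  rw [hG] at hMcard
  have hCMcard := Subgroup.card_dvd_of_le hCM
  have hCMne : Nat.card (centralizer ({d} : Set G)) ≠
      Nat.card (normalizer ((zpowers d : Subgroup G) : Set G)) := by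
    intro h
    have := Subgroup.eq_of_le_of_card_ge hCM h.ge
    exact hsC (this ▸ hsM)
  have hc918 : Nat.card (centralizer ({d} : Set G)) = 9 ∨
      Nat.card (centralizer ({d} : Set G)) = 18 := by
    generalize Nat.card (centralizer ({d} : Set G)) = c at *
    generalize Nat.card (normalizer ((zpowers d : Subgroup G) : Set G)) = m at *
    generalize (normalizer ((zpowers d : Subgroup G) : Set G)).index = i at *
    obtain ⟨k, hk⟩ := hCMcard
    have hm63 : m ≤ 63 := by nlinarith
    have hk2 : 2 ≤ k := by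
      by_contra hlt
      push Not at hlt
      interval_cases k
      · rw [mul_zero] at hk; rw [hk, zero_mul] at hMcard; omega
      · rw [mul_one] at hk; exact hCMne hk.symm
    have hc31 : c ≤ 31 := by nlinarith
    interval_cases c <;> omega
  rcases hc918 with h | h
  · exact (Subgroup.eq_of_le_of_card_ge hPle (by rw [h, hc3 P])).symm
  · exfalso
    have hCN : centralizer ({d} : Set G) ≤ normalizer ((P : Subgroup G) : Set G) :=
      le_normalizer_of_idx_two _ _ hPle (by rw [h, hc3 P])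
    have := Subgroup.eq_of_le_of_card_ge hCN (by rw [h, hN3 P])
    exact hsC (this ▸ hsN)

theorem card_union_ge {p : ℕ} [Fact p.Prime] (n : ℕ) (S : Set G)
    (hcard : ∀ P : Sylow p G, Nat.card P = n)
    (hTI : ∀ (P Q : Sylow p G) (g : G), g ≠ 1 → g ∈ P → g ∈ Q → P = Q)
    (hS : ∀ (P : Sylow p G) (g : G), g ∈ P → g ≠ 1 → g ∈ S) :
    Nat.card (Sylow p G) * (n - 1) ≤ S.ncard := by
  classical
  have : Fintype (Sylow p G) := Fintype.ofFinite _
  let f : (Σ P : Sylow p G, {g : G // g ∈ P ∧ g ≠ 1}) → S :=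
    fun x => ⟨x.2.1, hS x.1 x.2.1 x.2.2.1 x.2.2.2⟩
  have hf : Function.Injective f := by
    rintro ⟨P, g, hg1, hg2⟩ ⟨Q, g', hg1', hg2'⟩ hxy
    have hgg : g = g' := congrArg Subtype.val hxy
    subst hgg
    have hPQ : P = Q := hTI P Q g hg2 hg1 hg1'
    subst hPQ
    rfl
  have h1 := Nat.card_le_card_of_injective f hf
  rw [Nat.card_sigma] at h1
  have h2 : ∀ P : Sylow p G, Nat.card {g : G // g ∈ P ∧ g ≠ 1} = n - 1 := by
    intro P
    have e : {g : G | g ∈ P ∧ g ≠ 1} = ((P : Subgroup G) : Set G) \ {1} := by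
      ext g; simp
    have e2 : Nat.card {g : G // g ∈ P ∧ g ≠ 1} = ({g : G | g ∈ P ∧ g ≠ 1}).ncard :=
      Nat.card_coe_set_eq _
    rw [e2, e, Set.ncard_sdiff_singleton_of_mem (one_mem _), ← Nat.card_coe_set_eq]
    have e3 : Nat.card ↥((P : Subgroup G) : Set G) = Nat.card (P : Subgroup G) := rfl
    rw [e3, hcard P]
  simp only [h2, Finset.sum_const, Finset.card_univ, smul_eq_mul] at h1
  rw [← Nat.card_eq_fintype_card, Nat.card_coe_set_eq] at h1
  exact h1

end abs

end Cfsg.Agent.Lib.Helper5.G504
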