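import Cfsg.Agent.Lib.Helper5.G504A

set_option autoImplicit false

namespace Cfsg.Agent.Lib.Helper5.G504

open Subgroup Cfsg.Agent.Lib.Helper8 Cfsg.Agent.S1002 Cfsg.Agent.S1003 Cfsg.Agent.S1006

section abs
set_option linter.unusedSectionVars false
variable {G : Type*} [Group G] [Finite G]

theorem A2_le [IsSimpleGroup G] (hG : Nat.card G = 504) [Fact (Nat.Prime 2)]
    [Fact (Nat.Prime 3)] [Fact (Nat.Prime 7)] :
    {g : G | g ≠ 1 ∧ g ^ 8 = 1}.ncard ≤ 63 := by
  obtain ⟨hc7, hc3, hc2, hn7, hn3, hN7, hN3, hnc, hidx⟩ := facts504 hG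
  have hA7 : {g : G | orderOf g = 7}.ncard = 216 := by
    rw [card_order_eq hc7, hn7]
  have hTI3 : ∀ (P Q : Sylow 3 G) (g : G), g ≠ 1 → g ∈ P → g ∈ Q → P = Q := by
    intro P Q g hg hP hQ
    apply Sylow.ext
    rw [← centralizer_three hG P g hP hg, ← centralizer_three hG Q g hQ hg]
  have hA3 : 224 ≤ {g : G | g ≠ 1 ∧ g ^ 9 = 1}.ncard := by
    have := card_union_ge 9 {g : G | g ≠ 1 ∧ g ^ 9 = 1} hc3 hTI3 (by
      intro P g hg hg1
      refine ⟨hg1, ?_⟩
      have := Subgroup.orderOf_dvd_natCard _ hg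
      rw [hc3 P] at this
      exact orderOf_dvd_iff_pow_eq_one.mp this)
    rw [hn3] at this
    exact this
  have hd1 : Disjoint {g : G | orderOf g = 7} {g : G | g ≠ 1 ∧ g ^ 9 = 1} := by
    rw [Set.disjoint_left]
    rintro g (hg : orderOf g = 7) ⟨-, hg9⟩
    have := orderOf_dvd_of_pow_eq_one hg9
    rw [hg] at this; norm_num at this
  have hd2 : Disjoint ({g : G | orderOf g = 7} ∪ {g : G | g ≠ 1 ∧ g ^ 9 = 1})
      {g : G | g ≠ 1 ∧ g ^ 8 = 1} := by
    rw [Set.disjoint_left]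
    rintro g (hg | ⟨hg1, hg9⟩) ⟨-, hg8⟩
    · have := orderOf_dvd_of_pow_eq_one hg8
      rw [show orderOf g = 7 from hg] at this; norm_num at this
    · have h1 := orderOf_dvd_of_pow_eq_one hg8
      have h2 := orderOf_dvd_of_pow_eq_one hg9
      exact hg1 (orderOf_eq_one_iff.mp
        (Nat.eq_one_of_dvd_coprimes (by norm_num : Nat.Coprime 9 8) h2 h1))
  have hd3 : Disjoint ({g : G | orderOf g = 7} ∪ {g : G | g ≠ 1 ∧ g ^ 9 = 1} ∪
      {g : G | g ≠ 1 ∧ g ^ 8 = 1}) ({1} : Set G) := by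
    rw [Set.disjoint_singleton_right]
    rintro ((h | h) | h)
    · have : orderOf (1 : G) = 7 := h
      rw [orderOf_one] at this; omega
    · exact h.1 rfl
    · exact h.1 rfl
  have h1 := Set.ncard_union_eq hd3
  rw [Set.ncard_union_eq hd2, Set.ncard_union_eq hd1, hA7, Set.ncard_singleton] at h1
  have h2 := Set.ncard_le_card ({g : G | orderOf g = 7} ∪ {g : G | g ≠ 1 ∧ g ^ 9 = 1} ∪
      {g : G | g ≠ 1 ∧ g ^ 8 = 1} ∪ ({1} : Set G))
  rw [hG] at h2
  omega

theorem invol_key [IsSimpleGroup G] (hG : Nat.card G = 504) [Fact (Nat.Prime 2)]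
    [Fact (Nat.Prime 3)] [Fact (Nat.Prime 7)] (v : G) (hv1 : v ≠ 1) (hv8 : v ^ 8 = 1) :
    Nat.card (centralizer ({v} : Set G)) = 8 ∧
      {g : G | IsConj v g} = {g : G | g ≠ 1 ∧ g ^ 8 = 1} := by
  obtain ⟨hc7, hc3, hc2, hn7, hn3, hN7, hN3, hnc, hidx⟩ := facts504 hG
  have hA2 := A2_le hG
  have hov : orderOf v ∣ 8 := orderOf_dvd_of_pow_eq_one hv8
  have h7 : ¬ 7 ∣ Nat.card (centralizer ({v} : Set G)) := by
    intro h
    obtain ⟨x', hx'⟩ := exists_prime_orderOf_dvd_card' 7 h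
    have hox : orderOf (x' : G) = 7 := by rw [Subgroup.orderOf_coe]; exact hx'
    have hxc := x'.2
    rw [Subgroup.mem_centralizer_singleton_iff] at hxc
    have hmem := commute_mem_zpowers Nat.prime_two hc7 (by rw [hG]; norm_num) hN7
      (x' : G) v hox hxc
    have e3 : orderOf v ∣ 7 := by
      have := Subgroup.orderOf_dvd_natCard _ hmem
      rwa [Nat.card_zpowers, hox] at this
    exact hv1 (orderOf_eq_one_iff.mp
      (Nat.eq_one_of_dvd_coprimes (by norm_num : Nat.Coprime 8 7) hov e3))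
  have h3 : ¬ 3 ∣ Nat.card (centralizer ({v} : Set G)) := by
    intro h
    obtain ⟨d', hd'⟩ := exists_prime_orderOf_dvd_card' 3 h
    have hod : orderOf (d' : G) = 3 := by rw [Subgroup.orderOf_coe]; exact hd'
    have hdc := d'.2
    rw [Subgroup.mem_centralizer_singleton_iff] at hdc
    have hpg : IsPGroup 3 (zpowers (d' : G)) :=
      IsPGroup.of_card (n := 1) (by rw [Nat.card_zpowers, hod, pow_one])
    obtain ⟨P, hP⟩ := hpg.exists_le_sylow
    have hdP : (d' : G) ∈ (P : Subgroup G) := hP (mem_zpowers _)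
    have hd1 : (d' : G) ≠ 1 := by
      intro h1; rw [h1, orderOf_one] at hod; omega
    have hC := centralizer_three hG P (d' : G) hdP hd1
    have hvP : v ∈ (P : Subgroup G) := by
      rw [← hC, Subgroup.mem_centralizer_singleton_iff]; exact hdc.symm
    have e3 : orderOf v ∣ 9 := by
      have := Subgroup.orderOf_dvd_natCard _ hvP
      rwa [hc3 P] at this
    exact hv1 (orderOf_eq_one_iff.mp
      (Nat.eq_one_of_dvd_coprimes (by norm_num : Nat.Coprime 8 9) hov e3))
  have h504 : Nat.card (centralizer ({v} : Set G)) ∣ 504 :=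
    hG ▸ Subgroup.card_subgroup_dvd_card _
  have hsub : {g : G | IsConj v g} ⊆ {g : G | g ≠ 1 ∧ g ^ 8 = 1} := by
    intro g hg
    obtain ⟨c, hc⟩ := isConj_iff.mp hg
    refine ⟨?_, ?_⟩
    · rintro rfl
      apply hv1
      have : v = c⁻¹ * (c * v * c⁻¹) * c := by group
      rw [this, hc]; group
    · rw [← hc, conj_pow, hv8]; group
  have hcls : Nat.card {g : G // IsConj v g} ≤ 63 := by
    have h1 : Nat.card {g : G // IsConj v g} = {g : G | IsConj v g}.ncard :=
      Nat.card_coe_set_eq _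
    rw [h1]
    exact (Set.ncard_le_ncard hsub).trans hA2
  have hge := class_card_ge v
  rw [hG] at hge
  have hc8 : Nat.card (centralizer ({v} : Set G)) = 8 := by
    generalize Nat.card (centralizer ({v} : Set G)) = c at *
    have c3 : Nat.Coprime c 3 := ((Nat.Prime.coprime_iff_not_dvd Nat.prime_three).mpr h3).symm
    have c7 : Nat.Coprime c 7 :=
      ((Nat.Prime.coprime_iff_not_dvd (by norm_num : Nat.Prime 7)).mpr h7).symm
    have c63 : Nat.Coprime c (3 * 3 * 7) := (c3.mul_right c3).mul_right c7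
    have hd8 : c ∣ 8 := Nat.Coprime.dvd_of_dvd_mul_right c63 (by norm_num; exact h504)
    have hle8 : c ≤ 8 := Nat.le_of_dvd (by norm_num) hd8
    have hc8' : 8 ≤ c := by nlinarith
    omega
  refine ⟨hc8, ?_⟩
  rw [hc8] at hge
  apply Set.eq_of_subset_of_ncard_le hsub
  have h1 : Nat.card {g : G // IsConj v g} = {g : G | IsConj v g}.ncard :=
    Nat.card_coe_set_eq _
  rw [← h1]
  omega

theorem invol_facts [IsSimpleGroup G] (hG : Nat.card G = 504) [Fact (Nat.Prime 2)]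
    [Fact (Nat.Prime 3)] [Fact (Nat.Prime 7)] (u : G) (hu1 : u ≠ 1) (hu8 : u ^ 8 = 1) :
    u * u = 1 ∧ Nat.card (centralizer ({u} : Set G)) = 8 := by
  obtain ⟨hc8, hcls⟩ := invol_key hG u hu1 hu8
  refine ⟨?_, hc8⟩
  obtain ⟨t, ht⟩ := exists_prime_orderOf_dvd_card' (G := G) 2 (by rw [hG]; norm_num)
  have htA : t ∈ {g : G | g ≠ 1 ∧ g ^ 8 = 1} := by
    refine ⟨?_, ?_⟩
    · rintro rfl; rw [orderOf_one] at ht; omega
    · have : t ^ 2 = 1 := by rw [← ht]; exact pow_orderOf_eq_one t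
      calc t ^ 8 = (t ^ 2) ^ 4 := by rw [← pow_mul]
        _ = 1 := by rw [this, one_pow]
  rw [← hcls] at htA
  obtain ⟨c, hc⟩ := isConj_iff.mp htA
  have hou : orderOf u = 2 := by
    have e : c * u * c⁻¹ = (MulAut.conj c).toMonoidHom u := rfl
    rw [← ht, ← hc, e, orderOf_injective _ (MulAut.conj c).injective]
  rw [← pow_two, ← hou]; exact pow_orderOf_eq_one u

theorem sylow2_struct [IsSimpleGroup G] (hG : Nat.card G = 504) [Fact (Nat.Prime 2)]
    [Fact (Nat.Prime 3)] [Fact (Nat.Prime 7)] :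
    (∀ (T : Sylow 2 G) (u : G), u ∈ (T : Subgroup G) → u * u = 1) ∧
    (∀ (T : Sylow 2 G) (a b : G), a ∈ (T : Subgroup G) → b ∈ (T : Subgroup G) →
      a * b = b * a) ∧
    (∀ (T : Sylow 2 G) (u : G), u ∈ (T : Subgroup G) → u ≠ 1 →
      centralizer ({u} : Set G) = (T : Subgroup G)) ∧
    (∀ (T T' : Sylow 2 G) (u : G), u ≠ 1 → u ∈ T → u ∈ T' → T = T') ∧
    Nat.card (Sylow 2 G) = 9 ∧
    (∀ T : Sylow 2 G, Nat.card (normalizer ((T : Subgroup G) : Set G)) = 56) := by
  obtain ⟨hc7, hc3, hc2, hn7, hn3, hN7, hN3, hnc, hidx⟩ := facts504 hG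
  have h8 : ∀ (T : Sylow 2 G) (u : G), u ∈ (T : Subgroup G) → u ^ 8 = 1 := by
    intro T u hu
    have := Subgroup.orderOf_dvd_natCard _ hu
    rw [hc2 T] at this
    exact orderOf_dvd_iff_pow_eq_one.mp this
  have hsq : ∀ (T : Sylow 2 G) (u : G), u ∈ (T : Subgroup G) → u * u = 1 := by
    intro T u hu
    by_cases hu1 : u = 1
    · rw [hu1, one_mul]
    · exact (invol_facts hG u hu1 (h8 T u hu)).1
  have hcomm : ∀ (T : Sylow 2 G) (a b : G), a ∈ (T : Subgroup G) → b ∈ (T : Subgroup G) →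
      a * b = b * a := by
    intro T a b ha hb
    have h1 : (a * b)⁻¹ = a * b := inv_eq_of_mul_eq_one_left (hsq T _ (mul_mem ha hb))
    have h2 : a⁻¹ = a := inv_eq_of_mul_eq_one_left (hsq T a ha)
    have h3 : b⁻¹ = b := inv_eq_of_mul_eq_one_left (hsq T b hb)
    calc a * b = (a * b)⁻¹ := h1.symm
      _ = b⁻¹ * a⁻¹ := mul_inv_rev a b
      _ = b * a := by rw [h2, h3]
  have hC : ∀ (T : Sylow 2 G) (u : G), u ∈ (T : Subgroup G) → u ≠ 1 →
      centralizer ({u} : Set G) = (T : Subgroup G) := by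
    intro T u hu hu1
    have hle : (T : Subgroup G) ≤ centralizer ({u} : Set G) := by
      intro a ha
      rw [Subgroup.mem_centralizer_singleton_iff]
      exact hcomm T a u ha hu
    exact (Subgroup.eq_of_le_of_card_ge hle
      (by rw [(invol_facts hG u hu1 (h8 T u hu)).2, hc2 T])).symm
  have hTI : ∀ (T T' : Sylow 2 G) (u : G), u ≠ 1 → u ∈ T → u ∈ T' → T = T' := by
    intro T T' u hu1 hu hu'
    apply Sylow.ext
    rw [← hC T u hu hu1, ← hC T' u hu' hu1]
  have hn2 : Nat.card (Sylow 2 G) = 9 := by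
    obtain ⟨T⟩ : Nonempty (Sylow 2 G) := inferInstance
    have hne : Nat.card (Sylow 2 G) ≠ 1 :=
      card_sylow_ne_one_of_simple T (by rw [hc2 T]; norm_num) (by rw [hc2 T, hG]; norm_num)
    have htop : normalizer ((T : Subgroup G) : Set G) ≠ ⊤ := by
      intro h
      apply hne
      rw [Sylow.card_eq_index_normalizer T]
      show (normalizer ((T : Subgroup G) : Set G)).index = 1
      rw [h, index_top]
    have h8' := hidx _ htop
    have h9 : Nat.card (Sylow 2 G) = (normalizer ((T : Subgroup G) : Set G)).index :=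
      Sylow.card_eq_index_normalizer T
    have hle := card_union_ge 8 {g : G | g ≠ 1 ∧ g ^ 8 = 1} hc2 hTI
      (fun P g hg hg1 => ⟨hg1, h8 P g hg⟩)
    have hA2 := A2_le hG
    have hdvd : Nat.card (Sylow 2 G) ∣ 63 :=
      card_sylow_dvd_of_card_eq 3 63 (by norm_num) (by rw [hG]; norm_num)
    have h89 : Nat.card (Sylow 2 G) = 8 ∨ Nat.card (Sylow 2 G) = 9 := by omega
    rcases h89 with h | h
    · rw [h] at hdvd; norm_num at hdvd
    · exact h
  refine ⟨hsq, hcomm, hC, hTI, hn2, ?_⟩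
  intro T
  have := card_sylow_mul_card_normalizer T
  rw [hn2, hG] at this
  omega

end abs

end Cfsg.Agent.Lib.Helper5.G504
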