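import Cfsg.Agent.Lib.Helper5.G504B

set_option autoImplicit false

namespace Cfsg.Agent.Lib.Helper5.G504

open Subgroup Cfsg.Agent.Lib.Helper8 Cfsg.Agent.S1002 Cfsg.Agent.S1003 Cfsg.Agent.S1006

section gen
variable {G : Type*} [Group G]

/-- the conjugate of `a` by `x ^ i` -/
def cj (x a : G) (i : ℕ) : G := x ^ i * a * (x ^ i)⁻¹

theorem cj_conj (x a : G) (m i : ℕ) : x ^ m * cj x a i * (x ^ m)⁻¹ = cj x a (m + i) := by
  unfold cj; rw [pow_add]; group

theorem cj_per (x a : G) (hx : x ^ 7 = 1) (i : ℕ) : cj x a (i + 7) = cj x a i := by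
  unfold cj; rw [pow_add, hx, mul_one]

theorem cj_zero (x a : G) : cj x a 0 = a := by unfold cj; simp

theorem pow_smul_fixed {α : Type*} [MulAction G α] (x : G) (p : α) (h : x • p = p) (i : ℕ) :
    x ^ i • p = p := by
  induction i with
  | zero => simp
  | succ n ih => rw [pow_succ, mul_smul, h, ih]

theorem cj_smul {α : Type*} [MulAction G α] (x a : G) (p : α) (h : x • p = p) (i : ℕ) :
    cj x a i • p = x ^ i • a • p := by
  unfold cj
  rw [mul_smul, mul_smul, inv_smul_eq_iff.mpr (pow_smul_fixed x p h i).symm]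

theorem rule_cases (c : ℕ → G) (hper : ∀ i, c (i + 7) = c i)
    (hcomm : ∀ i j, c i * c j = c j * c i) (hsq : ∀ i, c i * c i = 1)
    (hinj : ∀ i j, i < 7 → j < 7 → c i = c j → i = j) (hne : ∀ i, c i ≠ 1)
    (k : ℕ) (hk : k < 7) (hrule : ∀ i, c i * c (i + 1) = c (i + k)) : k = 3 ∨ k = 5 := by
  interval_cases k
  · exfalso
    have h : c 0 * c 1 = c 0 := hrule 0
    exact hne 1 (mul_left_cancel (h.trans (mul_one _).symm))
  · exfalso
    have h : c 0 * c 1 = c 1 := hrule 0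
    exact hne 0 (mul_right_cancel (h.trans (one_mul _).symm))
  · exfalso
    have h0 : c 0 * c 1 = c 2 := hrule 0
    have h1 : c 1 * c 2 = c 3 := hrule 1
    have : c 3 = c 0 := by rw [← h1, ← h0, hcomm 0 1, ← mul_assoc, hsq 1, one_mul]
    have := hinj 3 0 (by norm_num) (by norm_num) this
    omega
  · exact Or.inl rfl
  · exfalso
    have h0 : c 0 * c 1 = c 4 := hrule 0
    have h3 : c 3 * c 4 = c 7 := hrule 3
    have h7 : c 7 = c 0 := hper 0
    have e1 : c 3 * (c 0 * c 1) = c 0 := by rw [h0, h3]; exact h7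
    have e2 : c 3 * c 1 = 1 := by
      have : c 0 * (c 3 * c 1) = c 0 * 1 := by
        rw [mul_one, ← mul_assoc, hcomm 0 3, mul_assoc]; exact e1
      exact mul_left_cancel this
    have e3 : c 3 = c 1 := by
      calc c 3 = c 3 * (c 1 * c 1) := by rw [hsq 1, mul_one]
        _ = (c 3 * c 1) * c 1 := (mul_assoc _ _ _).symm
        _ = c 1 := by rw [e2, one_mul]
    have := hinj 3 1 (by norm_num) (by norm_num) e3
    omega
  · exact Or.inr rfl
  · exfalso
    have h0 : c 0 * c 1 = c 6 := hrule 0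
    have h6 : c 6 * c 7 = c 12 := hrule 6
    have h7 : c 7 = c 0 := hper 0
    have h12 : c 12 = c 5 := hper 5
    rw [h7, h12, ← h0, hcomm 0 1, mul_assoc, hsq 0, mul_one] at h6
    have := hinj 1 5 (by norm_num) (by norm_num) h6
    omega

/-- labelling of nine points -/
noncomputable def psi9 {α : Type*} [MulAction G α] (T T₀ Q : α) (x : G) (j : Fin 9) : α :=
  if j = 7 then T else if j = 8 then T₀ else x ^ (j : ℕ) • Q

theorem psi9_pow {α : Type*} [MulAction G α] (T T₀ Q : α) (x : G) (hox : x ^ 7 = 1) (n : ℕ) :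
    x ^ n • Q = psi9 T T₀ Q x ⟨n % 7, by omega⟩ := by
  have h7 : (⟨n % 7, by omega⟩ : Fin 9) ≠ 7 := by
    intro h
    have h' : n % 7 = 7 := congrArg Fin.val h
    omega
  have h8 : (⟨n % 7, by omega⟩ : Fin 9) ≠ 8 := by
    intro h
    have h' : n % 7 = 8 := congrArg Fin.val h
    omega
  rw [psi9, if_neg h7, if_neg h8]
  show x ^ n • Q = x ^ (n % 7) • Q
  have e : x ^ n = x ^ (n % 7) := by
    conv_lhs => rw [← Nat.div_add_mod n 7]
    rw [pow_add, pow_mul, hox, one_pow, one_mul]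
  rw [e]

theorem psi9_inj {α : Type*} [MulAction G α] (T T₀ Q : α) (x : G) (hT : x • T = T)
    (hT₀ : x • T₀ = T₀) (h1 : T₀ ≠ T) (h2 : Q ≠ T) (h3 : Q ≠ T₀)
    (hfree : ∀ i : ℕ, ¬ 7 ∣ i → x ^ i • Q ≠ Q) : Function.Injective (psi9 T T₀ Q x) := by
  have hneT : ∀ i : ℕ, x ^ i • Q ≠ T := by
    intro i h
    have : x ^ i • Q = x ^ i • T := by rw [pow_smul_fixed x T hT, h]
    exact h2 (smul_left_cancel _ this)
  have hneT₀ : ∀ i : ℕ, x ^ i • Q ≠ T₀ := by
    intro i h
    have : x ^ i • Q = x ^ i • T₀ := by rw [pow_smul_fixed x T₀ hT₀, h]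
    exact h3 (smul_left_cancel _ this)
  have aux : ∀ a b : ℕ, a ≤ b → b < 7 → x ^ a • Q = x ^ b • Q → a = b := by
    intro a b hab hb h
    have e : x ^ b = x ^ a * x ^ (b - a) := by
      rw [← pow_add]; congr 1; omega
    rw [e, mul_smul] at h
    have h' := smul_left_cancel _ h
    by_contra hne
    exact hfree (b - a) (by omega) h'.symm
  intro a b hab
  by_cases ha7 : a = 7
  · by_cases hb7 : b = 7
    · rw [ha7, hb7]
    · exfalso
      rw [psi9, psi9, if_pos ha7, if_neg hb7] at hab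
      by_cases hb8 : b = 8
      · rw [if_pos hb8] at hab; exact h1 hab.symm
      · rw [if_neg hb8] at hab; exact hneT _ hab.symm
  · by_cases ha8 : a = 8
    · by_cases hb7 : b = 7
      · exfalso
        rw [psi9, psi9, if_neg ha7, if_pos ha8, if_pos hb7] at hab
        exact h1 hab
      · by_cases hb8 : b = 8
        · rw [ha8, hb8]
        · exfalso
          rw [psi9, psi9, if_neg ha7, if_pos ha8, if_neg hb7, if_neg hb8] at hab
          exact hneT₀ _ hab.symm
    · by_cases hb7 : b = 7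
      · exfalso
        rw [psi9, psi9, if_neg ha7, if_neg ha8, if_pos hb7] at hab
        exact hneT _ hab
      · by_cases hb8 : b = 8
        · exfalso
          rw [psi9, psi9, if_neg ha7, if_neg ha8, if_neg hb7, if_pos hb8] at hab
          exact hneT₀ _ hab
        · rw [psi9, psi9, if_neg ha7, if_neg ha8, if_neg hb7, if_neg hb8] at hab
          have ha' : (a : ℕ) < 7 := by
            have h1 := a.2
            have h2 : (a : ℕ) ≠ 7 := fun h => ha7 (Fin.ext h)
            have h3 : (a : ℕ) ≠ 8 := fun h => ha8 (Fin.ext h)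
            omega
          have hb' : (b : ℕ) < 7 := by
            have h1 := b.2
            have h2 : (b : ℕ) ≠ 7 := fun h => hb7 (Fin.ext h)
            have h3 : (b : ℕ) ≠ 8 := fun h => hb8 (Fin.ext h)
            omega
          apply Fin.ext
          rcases le_total (a : ℕ) b with h | h
          · exact aux _ _ h hb' hab
          · exact (aux _ _ h ha' hab.symm).symm

end gen

section abs
set_option linter.unusedSectionVars false
variable {G : Type*} [Group G] [Finite G]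

theorem card_nonid (H : Subgroup G) : Nat.card {g : G // g ∈ H ∧ g ≠ 1} = Nat.card H - 1 := by
  have e : {g : G | g ∈ H ∧ g ≠ 1} = (H : Set G) \ {1} := by ext g; simp
  have e2 : Nat.card {g : G // g ∈ H ∧ g ≠ 1} = ({g : G | g ∈ H ∧ g ≠ 1}).ncard :=
    Nat.card_coe_set_eq _
  rw [e2, e, Set.ncard_sdiff_singleton_of_mem (one_mem _), ← Nat.card_coe_set_eq]
  rfl

theorem fix_eq_one [IsSimpleGroup G] (hG : Nat.card G = 504) [Fact (Nat.Prime 2)]
    [Fact (Nat.Prime 3)] [Fact (Nat.Prime 7)] (T T₀ : Sylow 2 G) (hne : T₀ ≠ T) (u : G)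
    (hu : u ∈ (T : Subgroup G)) (hfix : u • T₀ = T₀) : u = 1 := by
  obtain ⟨hsq, hcomm, hC, hTI, hn2, hN2⟩ := sylow2_struct hG
  by_contra hu1
  have h1 : u ∈ (T : Subgroup G) ⊓ normalizer ((T₀ : Subgroup G) : Set G) :=
    ⟨hu, Sylow.smul_eq_iff_mem_normalizer.mp hfix⟩
  have h0 := IsPGroup.inf_normalizer_sylow T.isPGroup' T₀
  have h3 : u ∈ (T : Subgroup G) ⊓ (T₀ : Subgroup G) := by rw [← h0]; exact h1
  exact hne (hTI T T₀ u hu1 hu h3.2).symm

theorem cj_facts [IsSimpleGroup G] (hG : Nat.card G = 504) [Fact (Nat.Prime 2)]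
    [Fact (Nat.Prime 3)] [Fact (Nat.Prime 7)] (T : Sylow 2 G) (x a : G)
    (hox : orderOf x = 7) (hxT : x • T = T) (haT : a ∈ (T : Subgroup G)) (ha1 : a ≠ 1) :
    (∀ i, cj x a i ∈ (T : Subgroup G)) ∧ (∀ i, cj x a i ≠ 1) ∧
    (∀ m : ℕ, cj x a m = a → 7 ∣ m) ∧
    (∀ i j, i < 7 → j < 7 → cj x a i = cj x a j → i = j) ∧
    (∀ b : G, b ∈ (T : Subgroup G) → b ≠ 1 → ∃ k, k < 7 ∧ b = cj x a k) := by
  obtain ⟨hc7, hc3, hc2, hn7, hn3, hN7, hN3, hnc, hidx⟩ := facts504 hG
  obtain ⟨hsq, hcomm, hC, hTI, hn2, hN2⟩ := sylow2_struct hG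
  have hxN : x ∈ normalizer ((T : Subgroup G) : Set G) := Sylow.smul_eq_iff_mem_normalizer.mp hxT
  have hcT : ∀ i, cj x a i ∈ (T : Subgroup G) := by
    intro i
    exact (Subgroup.mem_normalizer_iff.mp (pow_mem hxN i) a).mp haT
  have hc1 : ∀ i, cj x a i ≠ 1 := by
    intro i h
    apply ha1
    have : a = (x ^ i)⁻¹ * cj x a i * x ^ i := by unfold cj; group
    rw [this, h]; group
  have hinj0 : ∀ m : ℕ, cj x a m = a → 7 ∣ m := by
    intro m h
    have hcm : x ^ m * a = a * x ^ m := by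
      have : x ^ m * a = cj x a m * x ^ m := by unfold cj; group
      rw [this, h]
    have hmem : x ^ m ∈ centralizer ({a} : Set G) := by
      rw [Subgroup.mem_centralizer_singleton_iff]; exact hcm
    rw [hC T a haT ha1] at hmem
    have h8 : orderOf (x ^ m) ∣ 8 := by
      have := Subgroup.orderOf_dvd_natCard _ hmem
      rwa [hc2 T] at this
    have h7' : orderOf (x ^ m) ∣ 7 := by
      rw [← hox]; exact orderOf_pow_dvd m
    have h1 := Nat.eq_one_of_dvd_coprimes (by norm_num : Nat.Coprime 8 7) h8 h7'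
    rw [orderOf_eq_one_iff] at h1
    rw [← hox]; exact orderOf_dvd_of_pow_eq_one h1
  have hinj : ∀ i j, i < 7 → j < 7 → cj x a i = cj x a j → i = j := by
    have aux : ∀ i j, i ≤ j → j < 7 → cj x a i = cj x a j → i = j := by
      intro i j hij hj h
      have h1 := cj_conj x a i (j - i)
      rw [show i + (j - i) = j by omega, ← h] at h1
      have h2 : x ^ i * cj x a (j - i) * (x ^ i)⁻¹ = x ^ i * a * (x ^ i)⁻¹ := h1
      have e : cj x a (j - i) = a := mul_left_cancel (mul_right_cancel h2)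
      have := hinj0 (j - i) e
      omega
    intro i j hi hj h
    rcases le_total i j with hij | hij
    · exact aux i j hij hj h
    · exact (aux j i hij hi h.symm).symm
  refine ⟨hcT, hc1, hinj0, hinj, ?_⟩
  let φ : Fin 7 → {g : G // g ∈ (T : Subgroup G) ∧ g ≠ 1} :=
    fun i => ⟨cj x a i, hcT i, hc1 i⟩
  have hφ : Function.Injective φ := by
    intro i j hij
    have h1 : cj x a i = cj x a j := congrArg Subtype.val hij
    exact Fin.ext (hinj i j i.2 j.2 h1)
  have hcard : Nat.card {g : G // g ∈ (T : Subgroup G) ∧ g ≠ 1} = 7 := by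
    rw [card_nonid, hc2 T]
  have hbij : Function.Bijective φ := hφ.bijective_of_nat_card_le (by rw [hcard]; simp)
  intro b hb hb1
  obtain ⟨i, hi⟩ := hbij.2 ⟨b, hb, hb1⟩
  exact ⟨i, i.2, (congrArg Subtype.val hi).symm⟩

theorem exists_xa [IsSimpleGroup G] (hG : Nat.card G = 504) [Fact (Nat.Prime 2)]
    [Fact (Nat.Prime 3)] [Fact (Nat.Prime 7)] :
    ∃ (T T₀ : Sylow 2 G) (x a : G), T₀ ≠ T ∧ orderOf x = 7 ∧ x • T = T ∧ x • T₀ = T₀ ∧
      a ∈ (T : Subgroup G) ∧ a ≠ 1 ∧ a * cj x a 1 = cj x a 3 := by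
  obtain ⟨hc7, hc3, hc2, hn7, hn3, hN7, hN3, hnc, hidx⟩ := facts504 hG
  obtain ⟨hsq, hcomm, hC, hTI, hn2, hN2⟩ := sylow2_struct hG
  obtain ⟨T⟩ : Nonempty (Sylow 2 G) := inferInstance
  have h7 : 7 ∣ Nat.card (normalizer ((T : Subgroup G) : Set G)) := by rw [hN2 T]; norm_num
  obtain ⟨x', hx'⟩ := exists_prime_orderOf_dvd_card' 7 h7
  obtain ⟨x, hx⟩ : ∃ x : G, x = (x' : G) := ⟨_, rfl⟩
  have hox : orderOf x = 7 := by rw [hx, Subgroup.orderOf_coe]; exact hx'
  have hxN : x ∈ normalizer ((T : Subgroup G) : Set G) := by rw [hx]; exact x'.2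
  have hxT : x • T = T := Sylow.smul_eq_iff_mem_normalizer.mpr hxN
  obtain ⟨T₀, hT₀, hxT₀⟩ := exists_fixed_ne x hox T hxT (by rw [hn2]; decide)
  obtain ⟨a, haT, ha1⟩ : ∃ a : G, a ∈ (T : Subgroup G) ∧ a ≠ 1 := by
    by_contra hcon
    push Not at hcon
    have hb : (T : Subgroup G) = ⊥ := (Subgroup.eq_bot_iff_forall _).mpr hcon
    have h8' : Nat.card (T : Subgroup G) = 8 := hc2 T
    rw [hb] at h8'
    simp at h8'
  have hx7 : x ^ 7 = 1 := by rw [← hox]; exact pow_orderOf_eq_one x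
  obtain ⟨hcT, hc1, hinj0, hinj, hsurj⟩ := cj_facts hG T x a hox hxT haT ha1
  have hcsq : ∀ i, cj x a i * cj x a i = 1 := fun i => hsq T _ (hcT i)
  have hccomm : ∀ i j, cj x a i * cj x a j = cj x a j * cj x a i :=
    fun i j => hcomm T _ _ (hcT i) (hcT j)
  have hper : ∀ i, cj x a (i + 7) = cj x a i := cj_per x a hx7
  have h0 : cj x a 0 = a := cj_zero x a
  have hprod1 : a * cj x a 1 ≠ 1 := by
    intro h
    have e1 : cj x a 1 = a := mul_left_cancel (h.trans (hsq T a haT).symm)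
    have := hinj0 1 e1
    omega
  obtain ⟨k, hk7, hk⟩ := hsurj _ (mul_mem haT (hcT 1)) hprod1
  have hrule : ∀ i, cj x a i * cj x a (i + 1) = cj x a (i + k) := by
    intro i
    calc cj x a i * cj x a (i + 1)
        = (x ^ i * cj x a 0 * (x ^ i)⁻¹) * (x ^ i * cj x a 1 * (x ^ i)⁻¹) := by
          rw [cj_conj, cj_conj]; rfl
      _ = x ^ i * (a * cj x a 1) * (x ^ i)⁻¹ := by rw [h0]; group
      _ = cj x a (i + k) := by rw [hk, cj_conj]
  rcases rule_cases (cj x a) hper hccomm hcsq hinj hc1 k hk7 hrule with rfl | rfl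
  · exact ⟨T, T₀, x, a, hT₀, hox, hxT, hxT₀, haT, ha1, hk⟩
  · refine ⟨T, T₀, x⁻¹, a, hT₀, by rw [orderOf_inv]; exact hox, ?_, ?_, haT, ha1, ?_⟩
    · rw [inv_smul_eq_iff, hxT]
    · rw [inv_smul_eq_iff, hxT₀]
    · have hxi : x⁻¹ = x ^ 6 := inv_eq_of_mul_eq_one_right (by rw [← pow_succ', hx7])
      have e1 : cj x⁻¹ a 1 = cj x a 6 := by unfold cj; rw [hxi, pow_one]
      have e3 : cj x⁻¹ a 3 = cj x a 4 := by
        have : x ^ (6 * 3) = x ^ 4 := by
          calc x ^ (6 * 3) = x ^ (4 + 7 * 2) := by norm_num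
            _ = x ^ 4 * (x ^ 7) ^ 2 := by rw [pow_add, pow_mul]
            _ = x ^ 4 := by rw [hx7, one_pow, mul_one]
        unfold cj; rw [hxi, ← pow_mul, this]
      rw [e1, e3]
      have h6 := hrule 6
      have e7 : cj x a (6 + 1) = a := by
        rw [show 6 + 1 = 0 + 7 by norm_num, hper, h0]
      have e11 : cj x a (6 + 5) = cj x a 4 := hper 4
      rw [e7, e11] at h6
      rw [← h6]
      exact hcomm T a _ haT (hcT 6)

end abs

end Cfsg.Agent.Lib.Helper5.G504
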