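import Cfsg.Agent.Lib.Helper5.G504C

set_option autoImplicit false

namespace Cfsg.Agent.Lib.Helper5.G504

open Subgroup Cfsg.Agent.Lib.Helper8 Cfsg.Agent.S1002 Cfsg.Agent.S1003 Cfsg.Agent.S1006

theorem sq_mod7 : ∀ m : ℕ, m < 7 → m * m % 7 = 1 % 7 → m = 1 ∨ m = 6 := by decide

section abs
set_option linter.unusedSectionVars false
variable {G : Type*} [Group G] [Finite G]

theorem table504 [IsSimpleGroup G] (hG : Nat.card G = 504) [Fact (Nat.Prime 2)]
    [Fact (Nat.Prime 3)] [Fact (Nat.Prime 7)] (T : Sylow 2 G) (x a : G)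
    (hox : orderOf x = 7) (hxT : x • T = T) (haT : a ∈ (T : Subgroup G)) (ha1 : a ≠ 1)
    (h3 : a * cj x a 1 = cj x a 3) :
    a * cj x a 3 = cj x a 1 ∧ a * cj x a 2 = cj x a 6 ∧ a * cj x a 6 = cj x a 2 ∧
    a * cj x a 4 = cj x a 5 ∧ a * cj x a 5 = cj x a 4 := by
  obtain ⟨hsq, hcomm, hC, hTI, hn2, hN2⟩ := sylow2_struct hG
  obtain ⟨hcT, hc1, hinj0, hinj, hsurj⟩ := cj_facts hG T x a hox hxT haT ha1
  have hx7 : x ^ 7 = 1 := by rw [← hox]; exact pow_orderOf_eq_one x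
  have hcsq : ∀ i, cj x a i * cj x a i = 1 := fun i => hsq T _ (hcT i)
  have hccomm : ∀ i j, cj x a i * cj x a j = cj x a j * cj x a i :=
    fun i j => hcomm T _ _ (hcT i) (hcT j)
  have hper : ∀ i, cj x a (i + 7) = cj x a i := cj_per x a hx7
  have h0 : cj x a 0 = a := cj_zero x a
  have hrule : ∀ i, cj x a i * cj x a (i + 1) = cj x a (i + 3) := by
    intro i
    calc cj x a i * cj x a (i + 1)
        = (x ^ i * cj x a 0 * (x ^ i)⁻¹) * (x ^ i * cj x a 1 * (x ^ i)⁻¹) := by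
          rw [cj_conj, cj_conj]; rfl
      _ = x ^ i * (a * cj x a 1) * (x ^ i)⁻¹ := by rw [h0]; group
      _ = cj x a (i + 3) := by rw [h3, cj_conj]
  have r6 : cj x a 6 * a = cj x a 2 := by
    have h := hrule 6
    have e7 : cj x a (6 + 1) = a := by rw [show 6 + 1 = 0 + 7 by norm_num, hper, h0]
    have e9 : cj x a (6 + 3) = cj x a 2 := hper 2
    rw [e7, e9] at h; exact h
  have r4 : cj x a 4 * cj x a 5 = a := by
    have h := hrule 4
    have e7 : cj x a (4 + 3) = a := by rw [show 4 + 3 = 0 + 7 by norm_num, hper, h0]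
    rw [e7] at h; exact h
  have a6 : a * cj x a 6 = cj x a 2 := by rw [← r6]; exact hcomm T a _ haT (hcT 6)
  refine ⟨?_, ?_, a6, ?_, ?_⟩
  · rw [← h3, ← mul_assoc, hsq T a haT, one_mul]
  · rw [← a6, ← mul_assoc, hsq T a haT, one_mul]
  · calc a * cj x a 4 = (cj x a 4 * cj x a 5) * cj x a 4 := by rw [r4]
      _ = cj x a 5 * (cj x a 4 * cj x a 4) := by rw [hccomm 4 5, mul_assoc]
      _ = cj x a 5 := by rw [hcsq 4, mul_one]
  · calc a * cj x a 5 = (cj x a 4 * cj x a 5) * cj x a 5 := by rw [r4]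
      _ = cj x a 4 * (cj x a 5 * cj x a 5) := by rw [mul_assoc]
      _ = cj x a 4 := by rw [hcsq 5, mul_one]

theorem points504 [IsSimpleGroup G] (hG : Nat.card G = 504) [Fact (Nat.Prime 2)]
    [Fact (Nat.Prime 3)] [Fact (Nat.Prime 7)] (T T₀ : Sylow 2 G) (x a : G) (hT₀ : T₀ ≠ T)
    (hox : orderOf x = 7) (hxT : x • T = T) (hxT₀ : x • T₀ = T₀)
    (haT : a ∈ (T : Subgroup G)) (ha1 : a ≠ 1) :
    a • T₀ ≠ T ∧ a • T₀ ≠ T₀ ∧ Function.Bijective (psi9 T T₀ (a • T₀) x) := by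
  obtain ⟨hsq, hcomm, hC, hTI, hn2, hN2⟩ := sylow2_struct hG
  obtain ⟨hcT, hc1, hinj0, hinj, hsurj⟩ := cj_facts hG T x a hox hxT haT ha1
  have haT' : a • T = T := Sylow.smul_eq_iff_mem_normalizer.mpr (le_normalizer haT)
  have h2 : a • T₀ ≠ T := by
    intro h
    have : a • T₀ = a • T := by rw [haT', h]
    exact hT₀ (smul_left_cancel _ this)
  have h3 : a • T₀ ≠ T₀ := fun h => ha1 (fix_eq_one hG T T₀ hT₀ a haT h)
  have hfree : ∀ i : ℕ, ¬ 7 ∣ i → x ^ i • (a • T₀) ≠ a • T₀ := by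
    intro i hi h
    rw [← cj_smul x a T₀ hxT₀ i] at h
    have h' : (a⁻¹ * cj x a i) • T₀ = T₀ := by
      rw [mul_smul, h, inv_smul_smul]
    have h1 := fix_eq_one hG T T₀ hT₀ _ (mul_mem (inv_mem haT) (hcT i)) h'
    have h4 : cj x a i = a := by
      have : cj x a i = a * (a⁻¹ * cj x a i) := by group
      rw [this, h1, mul_one]
    exact hi (hinj0 i h4)
  have hinj9 := psi9_inj T T₀ (a • T₀) x hxT hxT₀ hT₀ h2 h3 hfree
  exact ⟨h2, h3, hinj9.bijective_of_nat_card_le (by rw [hn2]; simp)⟩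

theorem exists_t504 [IsSimpleGroup G] (hG : Nat.card G = 504) [Fact (Nat.Prime 2)]
    [Fact (Nat.Prime 3)] [Fact (Nat.Prime 7)] (T T₀ Q : Sylow 2 G) (x : G) (hT₀ : T₀ ≠ T)
    (hox : orderOf x = 7) (hxT : x • T = T) (hxT₀ : x • T₀ = T₀) (hQT : Q ≠ T)
    (hQT₀ : Q ≠ T₀) (hbij : Function.Bijective (psi9 T T₀ Q x)) :
    ∃ t : G, t • T = T₀ ∧ t • T₀ = T ∧ t • Q = Q ∧ t * x * t⁻¹ = x ^ 6 := by
  obtain ⟨hc7, hc3, hc2, hn7, hn3, hN7, hN3, hnc, hidx⟩ := facts504 hG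
  have hx7 : x ^ 7 = 1 := by rw [← hox]; exact pow_orderOf_eq_one x
  have hall : ∀ R : Sylow 2 G, R = T ∨ R = T₀ ∨ ∃ i : ℕ, R = x ^ i • Q := by
    intro R
    obtain ⟨j, hj⟩ := hbij.2 R
    by_cases hj7 : j = 7
    · left; rw [← hj, psi9, if_pos hj7]
    · by_cases hj8 : j = 8
      · right; left; rw [← hj, psi9, if_neg hj7, if_pos hj8]
      · right; right; exact ⟨j, by rw [← hj, psi9, if_neg hj7, if_neg hj8]⟩
  have hQfree : x ^ 6 • Q ≠ Q := by
    intro h
    have e6 := psi9_pow T T₀ Q x hx7 6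
    have e0 := psi9_pow T T₀ Q x hx7 0
    rw [pow_zero, one_smul] at e0
    have e : psi9 T T₀ Q x ⟨6 % 7, by omega⟩ = psi9 T T₀ Q x ⟨0 % 7, by omega⟩ := by
      rw [← e6, ← e0]; exact h
    have := congrArg Fin.val (hbij.1 e)
    simp at this
  have hfixed : ∀ R : Sylow 2 G, x ^ 6 • R = R → R = T ∨ R = T₀ := by
    intro R hR
    rcases hall R with h | h | ⟨i, h⟩
    · exact Or.inl h
    · exact Or.inr h
    · exfalso
      rw [h, ← mul_smul, ← pow_add, add_comm, pow_add, mul_smul] at hR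
      exact hQfree (smul_left_cancel _ hR)
  have hpg : IsPGroup 7 (zpowers x) :=
    IsPGroup.of_card (n := 1) (by rw [Nat.card_zpowers, hox, pow_one])
  obtain ⟨P, hP⟩ := hpg.exists_le_sylow
  have hPz : zpowers x = (P : Subgroup G) :=
    Subgroup.eq_of_le_of_card_ge hP (by rw [Nat.card_zpowers, hox, hc7 P])
  have h2 : 2 ∣ Nat.card (normalizer ((P : Subgroup G) : Set G)) := by rw [hN7 P]; norm_num
  obtain ⟨t', ht'⟩ := exists_prime_orderOf_dvd_card' 2 h2
  obtain ⟨t₁, ht₁⟩ : ∃ t₁ : G, t₁ = (t' : G) := ⟨_, rfl⟩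
  have hot : orderOf t₁ = 2 := by rw [ht₁, Subgroup.orderOf_coe]; exact ht'
  have htN : t₁ ∈ normalizer ((P : Subgroup G) : Set G) := by rw [ht₁]; exact t'.2
  have ht2 : t₁ * t₁ = 1 := by rw [← pow_two, ← hot]; exact pow_orderOf_eq_one t₁
  have h1 : t₁ * x * t₁⁻¹ ∈ (P : Subgroup G) :=
    (Subgroup.mem_normalizer_iff.mp htN x).mp (hP (mem_zpowers x))
  rw [← hPz] at h1
  obtain ⟨k, hk⟩ := Subgroup.mem_zpowers_iff.mp h1
  obtain ⟨m, hm7, hm⟩ : ∃ m : ℕ, m < 7 ∧ x ^ m = t₁ * x * t₁⁻¹ := by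
    refine ⟨(k % 7).toNat, ?_, ?_⟩
    · omega
    · rw [← hk, ← zpow_natCast, Int.toNat_of_nonneg (by omega)]
      have := zpow_mod_orderOf x k
      rw [hox] at this
      exact this
  have hmm : x ^ (m * m) = x ^ 1 := by
    have e1 : t₁ * (t₁ * x * t₁⁻¹) * t₁⁻¹ = x := by
      calc t₁ * (t₁ * x * t₁⁻¹) * t₁⁻¹ = (t₁ * t₁) * x * (t₁ * t₁)⁻¹ := by group
        _ = x := by rw [ht2]; simp
    rw [pow_one, pow_mul]
    nth_rewrite 1 [hm]
    rw [conj_pow, hm]
    exact e1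
  rw [pow_eq_pow_iff_modEq, hox] at hmm
  have htx : t₁ * x * t₁⁻¹ = x ^ 6 := by
    rcases sq_mod7 m hm7 hmm with rfl | rfl
    · exfalso
      rw [pow_one] at hm
      have hcomm : Commute x t₁ := by
        have e2 : t₁ * x = x * t₁ := by
          calc t₁ * x = (t₁ * x * t₁⁻¹) * t₁ := by group
            _ = x * t₁ := by rw [← hm]
        exact e2.symm
      have hmem := commute_mem_zpowers Nat.prime_two hc7 (by rw [hG]; norm_num) hN7
        x t₁ hox hcomm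
      have := Subgroup.orderOf_dvd_natCard _ hmem
      rw [Nat.card_zpowers, hox, hot] at this
      norm_num at this
    · exact hm.symm
  have htx' : t₁ * x = x ^ 6 * t₁ := by rw [← htx]; group
  have hfix1 : ∀ R : Sylow 2 G, x • R = R → x ^ 6 • (t₁ • R) = t₁ • R := by
    intro R hR
    rw [← mul_smul, ← htx', mul_smul, hR]
  have hT1 : t₁ • T = T₀ := by
    rcases hfixed _ (hfix1 T hxT) with h | h
    · exfalso
      have hmemT : t₁ ∈ (T : Subgroup G) :=
        mem_sylow_of_order T t₁ (Sylow.smul_eq_iff_mem_normalizer.mp h) hot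
      rcases hfixed _ (hfix1 T₀ hxT₀) with h' | h'
      · have : t₁ • T₀ = t₁ • T := by rw [h, h']
        exact hT₀ (smul_left_cancel _ this)
      · have := fix_eq_one hG T T₀ hT₀ t₁ hmemT h'
        rw [this, orderOf_one] at hot
        omega
    · exact h
  have hT2 : t₁ • T₀ = T := by
    rw [← hT1, ← mul_smul, ht2, one_smul]
  obtain ⟨j, hj⟩ : ∃ j : ℕ, t₁ • Q = x ^ j • Q := by
    rcases hall (t₁ • Q) with h | h | h
    · exfalso
      have : t₁ • Q = t₁ • T₀ := by rw [hT2, h]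
      exact hQT₀ (smul_left_cancel _ this)
    · exfalso
      have : t₁ • Q = t₁ • T := by rw [hT1, h]
      exact hQT (smul_left_cancel _ this)
    · exact h
  refine ⟨x ^ (6 * j) * t₁, ?_, ?_, ?_, ?_⟩
  · rw [mul_smul, hT1, pow_smul_fixed x T₀ hxT₀]
  · rw [mul_smul, hT2, pow_smul_fixed x T hxT]
  · rw [mul_smul, hj, ← mul_smul, ← pow_add, show 6 * j + j = 7 * j by ring, pow_mul, hx7,
      one_pow, one_smul]
  · calc x ^ (6 * j) * t₁ * x * (x ^ (6 * j) * t₁)⁻¹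
        = x ^ (6 * j) * (t₁ * x * t₁⁻¹) * (x ^ (6 * j))⁻¹ := by group
      _ = x ^ 6 := by
        rw [htx, ← pow_add, add_comm, pow_add, mul_inv_cancel_right]

theorem closure_top504 [IsSimpleGroup G] (hG : Nat.card G = 504) [Fact (Nat.Prime 2)]
    [Fact (Nat.Prime 3)] [Fact (Nat.Prime 7)] (T T₀ : Sylow 2 G) (x a t : G) (hT₀ : T₀ ≠ T)
    (hox : orderOf x = 7) (hxT : x • T = T) (haT : a ∈ (T : Subgroup G)) (ha1 : a ≠ 1)
    (htT : t • T = T₀) : closure ({x, t, a} : Set G) = ⊤ := by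
  obtain ⟨hc7, hc3, hc2, hn7, hn3, hN7, hN3, hnc, hidx⟩ := facts504 hG
  obtain ⟨hsq, hcomm, hC, hTI, hn2, hN2⟩ := sylow2_struct hG
  obtain ⟨hcT, hc1, hinj0, hinj, hsurj⟩ := cj_facts hG T x a hox hxT haT ha1
  have hx : x ∈ closure ({x, t, a} : Set G) := subset_closure (by simp)
  have ht : t ∈ closure ({x, t, a} : Set G) := subset_closure (by simp)
  have ha : a ∈ closure ({x, t, a} : Set G) := subset_closure (by simp)
  have hTK : (T : Subgroup G) ≤ closure ({x, t, a} : Set G) := by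
    intro b hb
    by_cases hb1 : b = 1
    · rw [hb1]; exact one_mem _
    · obtain ⟨k, -, hk⟩ := hsurj b hb hb1
      rw [hk]
      exact mul_mem (mul_mem (pow_mem hx k) ha) (inv_mem (pow_mem hx k))
  by_contra hne
  have hxN : x ∈ normalizer ((T : Subgroup G) : Set G) :=
    Sylow.smul_eq_iff_mem_normalizer.mp hxT
  have hJK : (T : Subgroup G) ⊔ zpowers x ≤ closure ({x, t, a} : Set G) :=
    sup_le hTK (by rwa [zpowers_le])
  have hJN : (T : Subgroup G) ⊔ zpowers x ≤ normalizer ((T : Subgroup G) : Set G) :=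
    sup_le le_normalizer (by rwa [zpowers_le])
  have hJ56 : 56 ≤ Nat.card ((T : Subgroup G) ⊔ zpowers x : Subgroup G) := by
    have d1 : 8 ∣ Nat.card ((T : Subgroup G) ⊔ zpowers x : Subgroup G) := by
      have := Subgroup.card_dvd_of_le
        (le_sup_left : (T : Subgroup G) ≤ (T : Subgroup G) ⊔ zpowers x)
      rwa [hc2 T] at this
    have d2 : 7 ∣ Nat.card ((T : Subgroup G) ⊔ zpowers x : Subgroup G) := by
      have := Subgroup.card_dvd_of_le
        (le_sup_right : zpowers x ≤ (T : Subgroup G) ⊔ zpowers x)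
      rwa [Nat.card_zpowers, hox] at this
    have d3 : 8 * 7 ∣ Nat.card ((T : Subgroup G) ⊔ zpowers x : Subgroup G) :=
      Nat.Coprime.mul_dvd_of_dvd_of_dvd (by norm_num) d1 d2
    exact Nat.le_of_dvd Nat.card_pos d3
  have hJeqN := Subgroup.eq_of_le_of_card_ge hJN (by rw [hN2 T]; exact hJ56)
  have hK8 := hidx _ hne
  have hKcard := Subgroup.card_mul_index (closure ({x, t, a} : Set G))
  rw [hG] at hKcard
  have hK63 : Nat.card (closure ({x, t, a} : Set G)) ≤ 63 := by nlinarith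
  have hK56 : 56 ∣ Nat.card (closure ({x, t, a} : Set G)) := by
    have := Subgroup.card_dvd_of_le hJK
    rw [hJeqN, hN2 T] at this; exact this
  have hKeq : Nat.card (closure ({x, t, a} : Set G)) = 56 := by
    obtain ⟨c, hc⟩ := hK56
    have hpos : 0 < Nat.card (closure ({x, t, a} : Set G)) := Nat.card_pos
    rw [hc] at hK63 hpos
    have : c = 1 := by omega
    rw [hc, this]
  have hNK : normalizer ((T : Subgroup G) : Set G) = closure ({x, t, a} : Set G) := by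
    rw [← hJeqN]
    exact Subgroup.eq_of_le_of_card_ge hJK (by rw [hKeq]; exact hJ56)
  have htN : t ∈ normalizer ((T : Subgroup G) : Set G) := by rw [hNK]; exact ht
  have : t • T = T := Sylow.smul_eq_iff_mem_normalizer.mpr htN
  exact hT₀ (htT.symm.trans this)

end abs

end Cfsg.Agent.Lib.Helper5.G504
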