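import Mathlib
import Cfsg.Agent.S0987

set_option autoImplicit false

namespace Cfsg.Agent.Lib.Helper5.Ord60

open Subgroup

/-- `G` has a normal subgroup of order `m`. -/
def NS (G : Type*) [Group G] (m : ℕ) : Prop := ∃ M : Subgroup G, M.Normal ∧ Nat.card M = m

variable {G : Type*} [Group G]

/-- a normal Sylow subgroup of a normal subgroup gives a normal subgroup of the whole group -/
theorem ns_of_sylow_normal [Finite G] (N : Subgroup G) [N.Normal] (p : ℕ) [Fact p.Prime]
    (Q : Sylow p N) (hQ : (Q : Subgroup N).Normal) : NS G (Nat.card (Q : Subgroup N)) := by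
  have hc : (Q : Subgroup N).Characteristic := Q.characteristic_of_normal hQ
  refine ⟨(Q : Subgroup N).map N.subtype, ConjAct.normal_of_characteristic_of_normal, ?_⟩
  exact Subgroup.card_map_of_injective N.subtype_injective

/-- the order of a Sylow subgroup from a factorisation of the group order -/
theorem sylow_card_eq [Finite G] (p k m : ℕ) [Fact p.Prime] (hG : Nat.card G = p ^ k * m)
    (hm : ¬ p ∣ m) (Q : Sylow p G) : Nat.card (Q : Subgroup G) = p ^ k := by
  have hp := (Fact.out : p.Prime)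
  have hm0 : m ≠ 0 := fun h => hm (h ▸ dvd_zero p)
  rw [Q.card_eq_multiplicity, hG, Nat.factorization_mul (pow_ne_zero k hp.ne_zero) hm0,
    Nat.Prime.factorization_pow hp, Finsupp.add_apply, Finsupp.single_eq_same,
    Nat.factorization_eq_zero_of_not_dvd hm, add_zero]

/-- a Sylow subgroup is normal when the arithmetic forces a single one -/
theorem sylow_normal_of_numeric [Finite G] (p k m : ℕ) [Fact p.Prime]
    (hG : Nat.card G = p ^ k * m) (hm : ¬ p ∣ m) (h1 : ∀ d, d ∣ m → d % p = 1 → d = 1)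
    (Q : Sylow p G) : (Q : Subgroup G).Normal := by
  have hp := (Fact.out : p.Prime)
  have hc := sylow_card_eq p k m hG hm Q
  have hidx : (Q : Subgroup G).index = m := by
    have h2 := (Q : Subgroup G).card_mul_index
    rw [hc, hG] at h2
    exact Nat.eq_of_mul_eq_mul_left (pow_pos hp.pos k) h2
  have h3 : Nat.card (Sylow p G) ∣ m := hidx ▸ Q.card_dvd_index
  have h4 : Nat.card (Sylow p G) % p = 1 := by
    have := card_sylow_modEq_one p G
    rw [Nat.ModEq, Nat.mod_eq_of_lt hp.one_lt] at this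
    exact this
  have h5 := h1 _ h3 h4
  have : Subsingleton (Sylow p G) := (Nat.card_eq_one_iff_unique.mp h5).1
  exact Q.normal_of_subsingleton

/-- pulling back a normal subgroup of a quotient -/
theorem ns_of_quot [Finite G] (N : Subgroup G) [N.Normal] (m : ℕ) (h : NS (G ⧸ N) m) :
    NS G (m * Nat.card N) := by
  obtain ⟨M, hM, hc⟩ := h
  refine ⟨M.comap (QuotientGroup.mk' N), hM.comap _, ?_⟩
  have h1 : (M.comap (QuotientGroup.mk' N)).index = M.index :=
    Subgroup.index_comap_of_surjective M (QuotientGroup.mk'_surjective N)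
  have h2 := (M.comap (QuotientGroup.mk' N)).card_mul_index
  have h3 := M.card_mul_index
  have h4 : Nat.card G = Nat.card (G ⧸ N) * Nat.card N :=
    Subgroup.card_eq_card_quotient_mul_card_subgroup N
  rw [h1, h4, ← h3, hc] at h2
  have hpos : 0 < M.index := Nat.pos_of_ne_zero Subgroup.index_ne_zero_of_finite
  apply Nat.eq_of_mul_eq_mul_right hpos
  rw [h2]; ring

theorem card_quot [Finite G] (N : Subgroup G) [N.Normal] (a b : ℕ) (ha : 0 < a)
    (hN : Nat.card N = a) (hG : Nat.card G = b * a) : Nat.card (G ⧸ N) = b := by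
  have h4 : Nat.card G = Nat.card (G ⧸ N) * Nat.card N :=
    Subgroup.card_eq_card_quotient_mul_card_subgroup N
  rw [hN, hG] at h4
  exact (Nat.eq_of_mul_eq_mul_right ha h4).symm

/-- the key case: no normal subgroup of order 12 -/
theorem not_ns_twelve [Finite G] (h : Nat.card G = 60) [Fact (Nat.Prime 5)] (P : Sylow 5 G)
    (hP : ¬ (P : Subgroup G).Normal) : ¬ NS G 12 := by
  have p3 : Fact (Nat.Prime 3) := ⟨by norm_num⟩
  rintro ⟨N, hN, hc⟩
  have := hN
  obtain ⟨Q⟩ : Nonempty (Sylow 3 N) := inferInstance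
  have hQc : Nat.card (Q : Subgroup N) = 3 := by
    have := sylow_card_eq (G := N) 3 1 4 (by norm_num [hc]) (by norm_num) Q
    rwa [pow_one] at this
  obtain ⟨R, hR⟩ : ∃ R : Subgroup G, R = (Q : Subgroup N).map N.subtype := ⟨_, rfl⟩
  have hRc : Nat.card R = 3 := by
    rw [hR, Subgroup.card_map_of_injective N.subtype_injective, hQc]
  have hfr : normalizer (R : Set G) ⊔ N = ⊤ := by rw [hR]; exact Sylow.normalizer_sup_eq_top Q
  have hq : Nat.card (G ⧸ N) = 5 := card_quot N 12 5 (by norm_num) hc (by norm_num [h])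
  have h5d : 5 ∣ Nat.card (normalizer (R : Set G)) := by
    have hsurj : Function.Surjective
        ((QuotientGroup.mk' N).comp (normalizer (R : Set G)).subtype) := by
      intro y
      obtain ⟨g, rfl⟩ := QuotientGroup.mk'_surjective N y
      have hg : g ∈ normalizer (R : Set G) ⊔ N := by rw [hfr]; trivial
      have hg' : g ∈ ((normalizer (R : Set G) ⊔ N : Subgroup G) : Set G) := hg
      rw [Subgroup.mul_normal] at hg'
      obtain ⟨a, ha, b, hb, rfl⟩ := Set.mem_mul.mp hg'
      refine ⟨⟨a, ha⟩, ?_⟩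
      show ((a : G) : G ⧸ N) = ((a * b : G) : G ⧸ N)
      rw [QuotientGroup.eq]
      simpa using hb
    have h1 := Subgroup.card_dvd_of_surjective _ hsurj
    rwa [hq] at h1
  obtain ⟨g', hg'⟩ := exists_prime_orderOf_dvd_card' 5 h5d
  obtain ⟨g, hg⟩ : ∃ g : G, g = (g' : G) := ⟨_, rfl⟩
  have hgN : g ∈ normalizer (R : Set G) := hg ▸ g'.2
  have hg5 : orderOf g = 5 := by rw [hg, Subgroup.orderOf_coe]; exact hg'
  obtain ⟨r', hr'⟩ := exists_prime_orderOf_dvd_card' 3 (hRc ▸ dvd_rfl : 3 ∣ Nat.card R)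
  obtain ⟨r, hr⟩ : ∃ r : G, r = (r' : G) := ⟨_, rfl⟩
  have hrR : r ∈ R := hr ▸ r'.2
  have hr3 : orderOf r = 3 := by rw [hr, Subgroup.orderOf_coe]; exact hr'
  have hr1 : r ≠ 1 := by
    intro h1; rw [h1, orderOf_one] at hr3; omega
  have hrpow : r ^ 3 = 1 := by rw [← hr3]; exact pow_orderOf_eq_one r
  have hgpow : g ^ 5 = 1 := by rw [← hg5]; exact pow_orderOf_eq_one g
  have hRz : R = zpowers r := by
    symm
    apply Subgroup.eq_of_le_of_card_ge ((Subgroup.zpowers_le).mpr hrR)
    rw [Nat.card_zpowers, hr3, hRc]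
  have hc1 : g * r * g⁻¹ ∈ zpowers r := by
    rw [← hRz]; exact ((Subgroup.mem_normalizer_iff.mp hgN) r).mp hrR
  obtain ⟨k, hk⟩ := Subgroup.mem_zpowers_iff.mp hc1
  have hk' : r ^ (k % 3) = g * r * g⁻¹ := by
    rw [← hk]
    have := zpow_mod_orderOf r k
    rw [hr3] at this
    exact_mod_cast this
  have hcomm : g * r = r * g := by
    have hk3 : k % 3 = 0 ∨ k % 3 = 1 ∨ k % 3 = 2 := by omega
    rcases hk3 with h0 | h0 | h0
    · rw [h0, zpow_zero] at hk'
      exfalso; apply hr1
      have : g * r * g⁻¹ = g * 1 * g⁻¹ := by rw [← hk']; group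
      have h2 := mul_right_cancel this
      exact mul_left_cancel h2
    · rw [h0, zpow_one] at hk'
      calc g * r = (g * r * g⁻¹) * g := by group
        _ = r * g := by rw [← hk']
    · exfalso
      have hcr : g * r * g⁻¹ = r ^ 2 := by
        rw [← hk', h0]; exact zpow_ofNat r 2
      have e2 : g * (g * r * g⁻¹) * g⁻¹ = r := by
        rw [hcr, ← conj_pow, hcr, ← pow_mul, show 2 * 2 = 3 + 1 from rfl, pow_succ, hrpow,
          one_mul]
      have e5 : g ^ 5 * r * (g ^ 5)⁻¹
          = g * (g * (g * (g * (g * r * g⁻¹) * g⁻¹) * g⁻¹) * g⁻¹) * g⁻¹ := by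
        simp only [pow_succ, pow_zero, one_mul, mul_inv_rev, mul_assoc]
      rw [hgpow, inv_one, mul_one, one_mul, e2, e2, hcr] at e5
      apply hr1
      have : r * r = r * 1 := by rw [mul_one, ← pow_two]; exact e5.symm
      exact mul_left_cancel this
  -- the Sylow 5-subgroup generated by `g`
  have hz5 : Nat.card (zpowers g) = 5 ^ 1 := by rw [Nat.card_zpowers, hg5, pow_one]
  obtain ⟨Q5, hQ5⟩ := (IsPGroup.of_card hz5).exists_le_sylow
  have hQ5c : Nat.card (Q5 : Subgroup G) = 5 := by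
    have := sylow_card_eq 5 1 12 (by norm_num [h]) (by norm_num) Q5
    rwa [pow_one] at this
  have hQ5z : zpowers g = Q5 := Subgroup.eq_of_le_of_card_ge hQ5 (by rw [hQ5c, hz5]; norm_num)
  have hgn : g ∈ normalizer ((Q5 : Subgroup G) : Set G) :=
    Subgroup.le_normalizer (hQ5z ▸ Subgroup.mem_zpowers g)
  have hrn : r ∈ normalizer ((Q5 : Subgroup G) : Set G) := by
    apply Subgroup.centralizer_le_normalizer
    rw [← hQ5z, Subgroup.mem_centralizer_iff]
    intro x hx
    obtain ⟨j, rfl⟩ := Subgroup.mem_zpowers_iff.mp hx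
    exact ((show Commute g r from hcomm).zpow_left j).eq
  have h3d : 3 ∣ Nat.card (normalizer ((Q5 : Subgroup G) : Set G)) := by
    have := Subgroup.orderOf_dvd_natCard _ hrn
    rwa [hr3] at this
  have h5d' : 5 ∣ Nat.card (normalizer ((Q5 : Subgroup G) : Set G)) := by
    have := Subgroup.orderOf_dvd_natCard _ hgn
    rwa [hg5] at this
  have h15 : 15 ∣ Nat.card (normalizer ((Q5 : Subgroup G) : Set G)) :=
    Nat.Coprime.mul_dvd_of_dvd_of_dvd (by norm_num : Nat.Coprime 3 5) h3d h5d'
  have hci := (normalizer ((Q5 : Subgroup G) : Set G)).card_mul_index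
  have hn : Nat.card (Sylow 5 G) = (normalizer ((Q5 : Subgroup G) : Set G)).index :=
    Q5.card_eq_index_normalizer
  rw [h, ← hn] at hci
  have hmod : Nat.card (Sylow 5 G) % 5 = 1 := by
    have := card_sylow_modEq_one 5 G
    rw [Nat.ModEq] at this
    exact this
  obtain ⟨c, hc'⟩ := h15
  rw [hc'] at hci
  have hn1 : Nat.card (Sylow 5 G) = 1 := by
    have hle : Nat.card (Sylow 5 G) ≤ 4 := by
      by_contra hlt
      push Not at hlt
      have hcpos : 0 < c := by
        rcases Nat.eq_zero_or_pos c with h0 | h0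
        · rw [h0] at hci; omega
        · exact h0
      nlinarith
    omega
  have : Subsingleton (Sylow 5 G) := (Nat.card_eq_one_iff_unique.mp hn1).1
  exact hP P.normal_of_subsingleton

/-- a group of order 60 whose Sylow 5-subgroup is not normal is simple -/
theorem simple_of_not_normal [Finite G] (h : Nat.card G = 60) [Fact (Nat.Prime 5)]
    (P : Sylow 5 G) (hP : ¬ (P : Subgroup G).Normal) : IsSimpleGroup G := by
  have p2 : Fact (Nat.Prime 2) := ⟨by norm_num⟩
  have p3 : Fact (Nat.Prime 3) := ⟨by norm_num⟩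
  have h5 : ¬ NS G 5 := by
    rintro ⟨M, hM, hc⟩
    obtain ⟨Q, hQ⟩ := (IsPGroup.of_card (n := 1) (by rw [hc, pow_one])).exists_le_sylow
    have hQc := sylow_card_eq 5 1 12 (by norm_num [h]) (by norm_num) Q
    have hMQ : M = Q := Subgroup.eq_of_le_of_card_ge hQ (by rw [hc, hQc]; norm_num)
    have hQn : (Q : Subgroup G).Normal := hMQ ▸ hM
    obtain ⟨g, hg⟩ := MulAction.exists_smul_eq G Q P
    rw [Sylow.smul_eq_of_normal] at hg
    exact hP (hg ▸ hQn)
  have h5m : ∀ m, (m = 2 ∨ m = 3 ∨ m = 4) → ¬ NS G (5 * m) := by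
    rintro m hm ⟨N, hN, hc⟩
    have := hN
    obtain ⟨Q⟩ : Nonempty (Sylow 5 N) := inferInstance
    have hm5 : ¬ 5 ∣ m := by omega
    have hQn := sylow_normal_of_numeric (G := N) 5 1 m (by rw [hc, pow_one]) hm5
      (by intro d hd h1; have := Nat.le_of_dvd (by omega) hd; omega) Q
    have h6 := ns_of_sylow_normal N 5 Q hQn
    rw [sylow_card_eq (G := N) 5 1 m (by rw [hc, pow_one]) hm5 Q, pow_one] at h6
    exact h5 h6
  have h3 : ¬ NS G 3 := by
    rintro ⟨N, hN, hc⟩
    have := hN
    have hq : Nat.card (G ⧸ N) = 20 := card_quot N 3 20 (by norm_num) hc (by norm_num [h])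
    obtain ⟨Q⟩ : Nonempty (Sylow 5 (G ⧸ N)) := inferInstance
    have hQn := sylow_normal_of_numeric (G := G ⧸ N) 5 1 4 (by norm_num [hq]) (by norm_num)
      (by intro d hd h1; have := Nat.le_of_dvd (by norm_num) hd; omega) Q
    have hQc := sylow_card_eq (G := G ⧸ N) 5 1 4 (by norm_num [hq]) (by norm_num) Q
    have h7 := ns_of_quot N 5 ⟨Q, hQn, by rw [hQc]; norm_num⟩
    rw [hc] at h7
    exact h5m 3 (by simp) h7
  have h4 : ¬ NS G 4 := by
    rintro ⟨N, hN, hc⟩
    have := hN
    have hq : Nat.card (G ⧸ N) = 15 := card_quot N 4 15 (by norm_num) hc (by norm_num [h])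
    obtain ⟨Q⟩ : Nonempty (Sylow 5 (G ⧸ N)) := inferInstance
    have hQn := sylow_normal_of_numeric (G := G ⧸ N) 5 1 3 (by norm_num [hq]) (by norm_num)
      (by intro d hd h1; have := Nat.le_of_dvd (by norm_num) hd; omega) Q
    have hQc := sylow_card_eq (G := G ⧸ N) 5 1 3 (by norm_num [hq]) (by norm_num) Q
    have h7 := ns_of_quot N 5 ⟨Q, hQn, by rw [hQc]; norm_num⟩
    rw [hc] at h7
    exact h5m 4 (by simp) h7
  have h6 : ¬ NS G 6 := by
    rintro ⟨N, hN, hc⟩
    have := hN
    obtain ⟨Q⟩ : Nonempty (Sylow 3 N) := inferInstance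
    have hQn := sylow_normal_of_numeric (G := N) 3 1 2 (by norm_num [hc]) (by norm_num)
      (by intro d hd h1; have := Nat.le_of_dvd (by norm_num) hd; omega) Q
    have h7 := ns_of_sylow_normal N 3 Q hQn
    rw [sylow_card_eq (G := N) 3 1 2 (by norm_num [hc]) (by norm_num) Q, pow_one] at h7
    exact h3 h7
  have h2 : ¬ NS G 2 := by
    rintro ⟨N, hN, hc⟩
    have := hN
    have hq : Nat.card (G ⧸ N) = 30 := card_quot N 2 30 (by norm_num) hc (by norm_num [h])
    obtain ⟨Q⟩ : Nonempty (Sylow 5 (G ⧸ N)) := inferInstance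
    have hQn := Cfsg.Agent.S0987.result (G := G ⧸ N) 2 3 5 Nat.prime_two Nat.prime_three
      (by norm_num) (by norm_num) (by norm_num [hq]) Q
    have hQc := sylow_card_eq (G := G ⧸ N) 5 1 6 (by norm_num [hq]) (by norm_num) Q
    have h7 := ns_of_quot N 5 ⟨Q, hQn, by rw [hQc]; norm_num⟩
    rw [hc] at h7
    exact h5m 2 (by simp) h7
  have h30 : ¬ NS G 30 := by
    rintro ⟨N, hN, hc⟩
    have := hN
    obtain ⟨Q⟩ : Nonempty (Sylow 5 N) := inferInstance
    have hQn := Cfsg.Agent.S0987.result (G := N) 2 3 5 Nat.prime_two Nat.prime_three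
      (by norm_num) (by norm_num) (by norm_num [hc]) Q
    have h7 := ns_of_sylow_normal N 5 Q hQn
    rw [sylow_card_eq (G := N) 5 1 6 (by norm_num [hc]) (by norm_num) Q, pow_one] at h7
    exact h5 h7
  have h12 := not_ns_twelve h P hP
  have : Nontrivial G := by
    rw [← Finite.one_lt_card_iff_nontrivial, h]; norm_num
  refine ⟨fun H hH => ?_⟩
  have hd : Nat.card H ∣ 60 := h ▸ Subgroup.card_subgroup_dvd_card H
  obtain ⟨m, hm⟩ : ∃ m, Nat.card H = m := ⟨_, rfl⟩
  rw [hm] at hd
  have hle : m ≤ 60 := Nat.le_of_dvd (by norm_num) hd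
  have hpos : 0 < m := hm ▸ Nat.card_pos
  have hns : NS G m := ⟨H, hH, hm⟩
  have hcases : m = 1 ∨ m = 60 := by
    by_contra hcon
    push Not at hcon
    interval_cases m <;> first
      | omega
      | exact h2 hns
      | exact h3 hns
      | exact h4 hns
      | exact h5 hns
      | exact h6 hns
      | exact h5m 2 (by simp) hns
      | exact h12 hns
      | exact h5m 3 (by simp) hns
      | exact h5m 4 (by simp) hns
      | exact h30 hns
  rcases hcases with h1 | h1
  · left; exact Subgroup.card_eq_one.mp (hm.trans h1)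
  · right; exact Subgroup.eq_top_of_card_eq H (by rw [hm, h1, h])

end Cfsg.Agent.Lib.Helper5.Ord60
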