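import Mathlib
import Cfsg.Agent.Lib.Helper10.DihSyl
import Cfsg.Agent.Lib.Helper21.Dihedral

/-!
Subgroups with a normal Sylow `p`-subgroup and cyclic quotient.
-/

namespace Cfsg.Agent.Lib.Helper5

open Cfsg.Agent.Lib.Helper10

/-- In a finite cyclic group `⟨a⟩`, an element killed by `d` lies in the subgroup generated by
any element of order `d`. -/
theorem cyc_mem_zpowers_of_order {P : Type*} [Group P] [Finite P] (a : P) {x y : P} (d : ℕ)
    (hx : x ∈ Subgroup.zpowers a) (hy : y ∈ Subgroup.zpowers a) (hyd : orderOf y = d)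
    (hxd : x ^ d = 1) : x ∈ Subgroup.zpowers y := by
  have hN : orderOf a ≠ 0 := (orderOf_pos a).ne'
  have hdN : d ∣ orderOf a := hyd ▸ orderOf_dvd_of_mem_zpowers hy
  have hd0 : d ≠ 0 := by rw [← hyd]; exact (orderOf_pos y).ne'
  obtain ⟨b, hb⟩ : ∃ b, b = a ^ (orderOf a / d) := ⟨_, rfl⟩
  have hbo : orderOf b = d := by rw [hb]; exact orderOf_pow_orderOf_div hN hdN
  have key : ∀ w ∈ Subgroup.zpowers a, w ^ d = 1 → w ∈ Subgroup.zpowers b := by
    intro w hw hwd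
    obtain ⟨i, rfl⟩ := Subgroup.mem_zpowers_iff.mp hw
    have h1 : (orderOf a : ℤ) ∣ i * d := by
      rw [orderOf_dvd_iff_zpow_eq_one, zpow_mul, zpow_natCast]; exact hwd
    obtain ⟨q, hq⟩ := hdN
    have hq' : orderOf a / d = q := by
      rw [hq]; exact Nat.mul_div_cancel_left q (Nat.pos_of_ne_zero hd0)
    have h2 : (q : ℤ) ∣ i := by
      apply Int.dvd_of_mul_dvd_mul_right (Int.natCast_ne_zero.mpr hd0)
      have h3 : ((q : ℤ) * (d : ℤ)) = (orderOf a : ℤ) := by rw [hq]; push_cast; ring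
      rw [h3]; exact h1
    obtain ⟨j, rfl⟩ := h2
    rw [hb, hq']
    refine Subgroup.mem_zpowers_iff.mpr ⟨j, ?_⟩
    rw [← zpow_natCast, ← zpow_mul]
  have hyb : y ∈ Subgroup.zpowers b := key y hy (by rw [← hyd]; exact pow_orderOf_eq_one y)
  have heq : Subgroup.zpowers y = Subgroup.zpowers b := by
    apply Subgroup.eq_of_le_of_card_ge (Subgroup.zpowers_le.mpr hyb)
    rw [Nat.card_zpowers, Nat.card_zpowers, hbo, hyd]
  rw [heq]; exact key x hx hxd

/-- Every `p`-subgroup is conjugate into a given Sylow `p`-subgroup. -/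
theorem exists_conj_le_sylow {G : Type*} [Group G] [Finite G] {p : ℕ} [Fact p.Prime]
    (P : Sylow p G) (Q : Subgroup G) (hQ : IsPGroup p Q) :
    ∃ g : G, ∀ q ∈ Q, g * q * g⁻¹ ∈ (P : Subgroup G) := by
  obtain ⟨P', hP'⟩ := hQ.exists_le_sylow
  obtain ⟨g, hg⟩ := MulAction.exists_smul_eq G P' P
  refine ⟨g, fun q hq => ?_⟩
  rw [← hg, Sylow.coe_subgroup_smul, Subgroup.mem_smul_pointwise_iff_exists]
  exact ⟨q, hP' hq, rfl⟩

/-- The conjugate of a subgroup, with its membership and the isomorphism. -/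
theorem exists_conj_subgroup {G : Type*} [Group G] (g : G) (Q : Subgroup G) :
    ∃ Q' : Subgroup G, (∀ x, x ∈ Q' ↔ ∃ q ∈ Q, g * q * g⁻¹ = x) ∧ Nonempty (↥Q ≃* ↥Q') :=
  ⟨_, fun x => by rw [Subgroup.mem_map]; rfl, ⟨(MulAut.conj g).subgroupMap Q⟩⟩

/-- `2` is not a power of an odd prime. -/
theorem two_ne_prime_pow {p : ℕ} [Fact p.Prime] (hp : p ≠ 2) (a : ℕ) (h : 2 = p ^ a) : False := by
  have hpp : p.Prime := Fact.out
  rcases Nat.eq_zero_or_pos a with h0 | h0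
  · rw [h0, pow_zero] at h
    omega
  · have h1 : p ∣ 2 := by rw [h]; exact dvd_pow_self p (by omega)
    exact hp ((Nat.prime_dvd_prime_iff_eq hpp Nat.prime_two).mp h1)

/-- A `p`-subgroup satisfies the hypotheses on Sylow subgroups trivially. -/
theorem pgroup_sylow_hyps {G : Type*} [Group G] {p : ℕ} [Fact p.Prime] (H : Subgroup G)
    (hH : IsPGroup p H) :
    (∀ S : Sylow p ↥H, (S : Subgroup ↥H).Normal) ∧
      (∀ (S : Sylow p ↥H) [(S : Subgroup ↥H).Normal], IsCyclic (↥H ⧸ (S : Subgroup ↥H))) := by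
  have htop : ∀ S : Sylow p ↥H, (S : Subgroup ↥H) = ⊤ := by
    intro S
    have hT : IsPGroup p (⊤ : Subgroup ↥H) := hH.to_subgroup ⊤
    exact (S.is_maximal' hT le_top).symm
  refine ⟨fun S => ?_, fun S _ => ?_⟩
  · rw [htop S]
    exact ⟨fun _ _ _ => Subgroup.mem_top _⟩
  · have hsub : Subsingleton (↥H ⧸ (S : Subgroup ↥H)) := by
      rw [htop S]; exact QuotientGroup.subsingleton_quotient_top
    infer_instance

/-- For a `p`-subgroup `R` and `x` normalizing it, `R ⊔ ⟨x⟩` has a normal Sylow `p`-subgroup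
with cyclic quotient. -/
theorem sup_zpowers_sylow {G : Type*} [Group G] [Finite G] {p : ℕ} [Fact p.Prime]
    (R : Subgroup G) (hR : IsPGroup p R) (x : G) (hx : x ∈ Subgroup.normalizer (R : Set G))
    (H : Subgroup G) (hH : H = R ⊔ Subgroup.zpowers x) :
    (∀ S : Sylow p ↥H, (S : Subgroup ↥H).Normal) ∧
      (∀ (S : Sylow p ↥H) [(S : Subgroup ↥H).Normal], IsCyclic (↥H ⧸ (S : Subgroup ↥H))) := by
  have hRH : R ≤ H := by rw [hH]; exact le_sup_left
  have hxH : x ∈ H := by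
    rw [hH]; exact (le_sup_right : Subgroup.zpowers x ≤ _) (Subgroup.mem_zpowers x)
  have hHN : H ≤ Subgroup.normalizer (R : Set G) := by
    rw [hH]; exact sup_le Subgroup.le_normalizer (Subgroup.zpowers_le.mpr hx)
  have hR'n : (R.subgroupOf H).Normal := Subgroup.normal_subgroupOf_of_le_normalizer hHN
  have hR'p : IsPGroup p (R.subgroupOf H) := hR.comap_subtype
  have hsup : R.subgroupOf H ⊔ Subgroup.zpowers (⟨x, hxH⟩ : ↥H) = ⊤ := by
    have h1 : (R ⊔ Subgroup.zpowers x).subgroupOf H = ⊤ := by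
      rw [← hH]; exact Subgroup.subgroupOf_self H
    rw [Subgroup.subgroupOf_sup hRH (Subgroup.zpowers_le.mpr hxH)] at h1
    apply top_le_iff.mp
    rw [← h1]
    apply sup_le_sup_left
    intro h hh
    obtain ⟨i, hi⟩ := Subgroup.mem_zpowers_iff.mp (Subgroup.mem_subgroupOf.mp hh)
    refine Subgroup.mem_zpowers_iff.mpr ⟨i, ?_⟩
    apply Subtype.ext
    rw [Subgroup.coe_zpow]
    exact hi
  have hquot : ∀ (N : Subgroup ↥H) [N.Normal], R.subgroupOf H ≤ N → IsCyclic (↥H ⧸ N) := by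
    intro N _ hle
    rw [isCyclic_iff_exists_zpowers_eq_top]
    refine ⟨QuotientGroup.mk' N ⟨x, hxH⟩, ?_⟩
    have h1 : Subgroup.map (QuotientGroup.mk' N)
        (R.subgroupOf H ⊔ Subgroup.zpowers (⟨x, hxH⟩ : ↥H)) = ⊤ := by
      rw [hsup]
      exact Subgroup.map_top_of_surjective _ (QuotientGroup.mk'_surjective _)
    rw [Subgroup.map_sup, (Subgroup.map_eq_bot_iff _).mpr
      (by rw [QuotientGroup.ker_mk']; exact hle), bot_sup_eq, MonoidHom.map_zpowers] at h1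
    exact h1
  have hcycR : IsCyclic (↥H ⧸ R.subgroupOf H) := hquot _ le_rfl
  have hle : ∀ S : Sylow p ↥H, R.subgroupOf H ≤ (S : Subgroup ↥H) :=
    fun S => hR'p.le_sylow_of_normal S
  refine ⟨fun S => ?_, fun S _ => hquot _ (hle S)⟩
  constructor
  intro s hs h
  have hcomm : ∀ a b : ↥H ⧸ R.subgroupOf H, a * b = b * a := by
    intro a b
    obtain ⟨g, hg⟩ := hcycR.exists_generator
    obtain ⟨i, hi⟩ := Subgroup.mem_zpowers_iff.mp (hg a)
    obtain ⟨j, hj⟩ := Subgroup.mem_zpowers_iff.mp (hg b)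
    rw [← hi, ← hj, ← zpow_add, ← zpow_add, add_comm]
  have hc : h * s * h⁻¹ * s⁻¹ ∈ R.subgroupOf H := by
    rw [← QuotientGroup.eq_one_iff]
    have e1 : ((h * s * h⁻¹ * s⁻¹ : ↥H) : ↥H ⧸ R.subgroupOf H) =
        (QuotientGroup.mk h) * (QuotientGroup.mk s) * (QuotientGroup.mk h)⁻¹ *
          (QuotientGroup.mk s)⁻¹ := rfl
    rw [e1, hcomm (QuotientGroup.mk h) (QuotientGroup.mk s), mul_inv_cancel_right,
      mul_inv_cancel]
  have h2 : h * s * h⁻¹ = (h * s * h⁻¹ * s⁻¹) * s := by group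
  rw [h2]
  exact Subgroup.mul_mem _ (hle S hc) hs

/-- Under the hypothesis on `p`-by-cyclic subgroups, an element normalizing a `p`-subgroup
centralizes it or is an involution inverting it. -/
theorem centralizes_or_inverts {G : Type*} [Group G] [Finite G] {p : ℕ} [Fact p.Prime]
    (hp : p ≠ 2)
    (hL : ∀ H : Subgroup G, (∀ S : Sylow p ↥H, (S : Subgroup ↥H).Normal) →
        (∀ (S : Sylow p ↥H) [(S : Subgroup ↥H).Normal], IsCyclic (↥H ⧸ (S : Subgroup ↥H))) →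
        IsCyclic H ∨ (∃ n : ℕ, Nonempty (H ≃* DihedralGroup (p ^ n))))
    (R : Subgroup G) (hR : IsPGroup p R) (x : G) (hx : x ∈ Subgroup.normalizer (R : Set G)) :
    x ∈ Subgroup.centralizer (R : Set G) ∨ (orderOf x = 2 ∧ ∀ r ∈ R, x * r * x⁻¹ = r⁻¹) := by
  obtain ⟨H, hH⟩ : ∃ H : Subgroup G, H = R ⊔ Subgroup.zpowers x := ⟨_, rfl⟩
  have hRH : R ≤ H := by rw [hH]; exact le_sup_left
  have hxH : x ∈ H := by
    rw [hH]; exact (le_sup_right : Subgroup.zpowers x ≤ _) (Subgroup.mem_zpowers x)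
  obtain ⟨h1, h2⟩ := sup_zpowers_sylow R hR x hx H hH
  rcases hL H h1 h2 with hc | ⟨n, ⟨e⟩⟩
  · left
    rw [Subgroup.mem_centralizer_iff]
    intro r hr
    obtain ⟨g, hg⟩ := hc.exists_generator
    obtain ⟨i, hi⟩ := Subgroup.mem_zpowers_iff.mp (hg ⟨r, hRH hr⟩)
    obtain ⟨j, hj⟩ := Subgroup.mem_zpowers_iff.mp (hg ⟨x, hxH⟩)
    have h3 : (⟨r, hRH hr⟩ : ↥H) * ⟨x, hxH⟩ = ⟨x, hxH⟩ * ⟨r, hRH hr⟩ := by
      rw [← hi, ← hj, ← zpow_add, ← zpow_add, add_comm]
    exact congrArg Subtype.val h3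
  · have hRT : R ≤ rotSub H e := by
      intro r hr
      by_contra hnot
      have h3 := orderOf_of_not_mem_rotSub H e (hRH hr) hnot
      obtain ⟨k, hk⟩ := (IsPGroup.iff_orderOf.mp hR) ⟨r, hr⟩
      rw [Subgroup.orderOf_mk, h3] at hk
      exact two_ne_prime_pow hp k hk
    by_cases hxT : x ∈ rotSub H e
    · left
      rw [Subgroup.mem_centralizer_iff]
      intro r hr
      have hT : rotSub H e = Subgroup.zpowers ((e.symm (DihedralGroup.r 1) : ↥H) : G) := rfl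
      have h3 := hRT hr
      rw [hT] at h3 hxT
      obtain ⟨i, hi⟩ := Subgroup.mem_zpowers_iff.mp h3
      obtain ⟨j, hj⟩ := Subgroup.mem_zpowers_iff.mp hxT
      rw [← hi, ← hj, ← zpow_add, ← zpow_add, add_comm]
    · right
      have hxo : orderOf x = 2 := orderOf_of_not_mem_rotSub H e hxH hxT
      have hxx : x * x = 1 := by rw [← pow_two, ← hxo]; exact pow_orderOf_eq_one x
      refine ⟨hxo, fun r hr => ?_⟩
      have hxr : x * r ∉ rotSub H e := by
        intro h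
        apply hxT
        have h3 := Subgroup.mul_mem _ h (Subgroup.inv_mem _ (hRT hr))
        rwa [mul_inv_cancel_right] at h3
      have hxro : orderOf (x * r) = 2 :=
        orderOf_of_not_mem_rotSub H e (H.mul_mem hxH (hRH hr)) hxr
      have hxr2 : x * r * (x * r) = 1 := by rw [← pow_two, ← hxro]; exact pow_orderOf_eq_one _
      rw [inv_eq_of_mul_eq_one_left hxx]
      calc x * r * x = (x * r * (x * r)) * r⁻¹ := by group
        _ = r⁻¹ := by rw [hxr2, one_mul]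

/-- Structure of a subgroup with a normal Sylow `p`-subgroup and cyclic quotient. -/
theorem normal_sylow_cyclic_quot {G : Type*} [Group G] [Finite G] {p : ℕ} [Fact p.Prime]
    (H : Subgroup G) (S : Sylow p ↥H) (hSn : (S : Subgroup ↥H).Normal)
    (hcyc : IsCyclic (↥H ⧸ (S : Subgroup ↥H))) :
    ∃ (R : Subgroup G) (y : G) (k m : ℕ), R ≤ H ∧ IsPGroup p R ∧ Nat.card R = p ^ k ∧
      Nat.Coprime m p ∧ Nat.card H = p ^ k * m ∧ y ∈ H ∧ orderOf y = m ∧
      y ∈ Subgroup.normalizer (R : Set G) ∧ (∀ h ∈ H, ∃ i : ℕ, h * (y ^ i)⁻¹ ∈ R) ∧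
      (∀ h ∈ H, ∀ r ∈ R, h * r * h⁻¹ ∈ R) := by
  have hpp : p.Prime := Fact.out
  obtain ⟨k, hk⟩ := IsPGroup.iff_card.mp S.isPGroup'
  obtain ⟨m, hm⟩ : ∃ m, m = (S : Subgroup ↥H).index := ⟨_, rfl⟩
  have hmodd : Nat.Coprime m p := by
    rw [hm]
    exact ((Nat.Prime.coprime_iff_not_dvd hpp).mpr S.not_dvd_index).symm
  have hcardH : Nat.card H = p ^ k * m := by
    rw [← hk, hm]; exact ((S : Subgroup ↥H).card_mul_index).symm
  have hcardq : Nat.card (↥H ⧸ (S : Subgroup ↥H)) = m := by rw [hm]; rfl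
  obtain ⟨gq, hgq⟩ := hcyc.exists_generator
  obtain ⟨h₀, rfl⟩ := QuotientGroup.mk_surjective gq
  have ho : orderOf (QuotientGroup.mk h₀ : ↥H ⧸ (S : Subgroup ↥H)) = m := by
    rw [orderOf_eq_card_of_forall_mem_zpowers hgq, hcardq]
  obtain ⟨y₀, hy₀⟩ : ∃ y₀ : ↥H, y₀ = h₀ ^ (p ^ k) := ⟨_, rfl⟩
  have hy₀m : y₀ ^ m = 1 := by
    rw [hy₀, ← pow_mul, ← hcardH]; exact pow_card_eq_one'
  have ho2 : orderOf (QuotientGroup.mk y₀ : ↥H ⧸ (S : Subgroup ↥H)) = m := by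
    rw [hy₀, QuotientGroup.mk_pow, Nat.Coprime.orderOf_pow, ho]
    rw [ho]; exact Nat.Coprime.pow_right k hmodd
  have hy₀o : orderOf y₀ = m := by
    apply Nat.dvd_antisymm (orderOf_dvd_of_pow_eq_one hy₀m)
    rw [← ho2]
    exact orderOf_map_dvd (QuotientGroup.mk' (S : Subgroup ↥H)) y₀
  have hgen : ∀ h : ↥H, ∃ i : ℕ, h * (y₀ ^ i)⁻¹ ∈ (S : Subgroup ↥H) := by
    intro h
    have hz : Subgroup.zpowers (QuotientGroup.mk y₀ : ↥H ⧸ (S : Subgroup ↥H)) = ⊤ := by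
      apply Subgroup.eq_top_of_card_eq
      rw [Nat.card_zpowers, ho2, hcardq]
    have hmem : (QuotientGroup.mk h : ↥H ⧸ (S : Subgroup ↥H)) ∈
        Subgroup.zpowers (QuotientGroup.mk y₀ : ↥H ⧸ (S : Subgroup ↥H)) := by
      rw [hz]; exact Subgroup.mem_top _
    obtain ⟨i, hi⟩ := (Submonoid.mem_powers_iff _ _).mp (mem_powers_iff_mem_zpowers.mpr hmem)
    refine ⟨i, ?_⟩
    rw [← QuotientGroup.eq_one_iff, QuotientGroup.mk_mul, QuotientGroup.mk_inv,
      QuotientGroup.mk_pow, hi, mul_inv_cancel]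
  obtain ⟨Q, hQdef⟩ : ∃ Q : Subgroup G, Q = (S : Subgroup ↥H).map H.subtype := ⟨_, rfl⟩
  have hQH : Q ≤ H := by rw [hQdef]; exact Subgroup.map_subtype_le _
  have hQmem : ∀ h : ↥H, (h : G) ∈ Q ↔ h ∈ (S : Subgroup ↥H) := by
    intro h
    rw [hQdef]
    constructor
    · rintro ⟨s, hs, hsh⟩
      have h1 : s = h := Subtype.ext hsh
      rwa [← h1]
    · intro hh
      exact ⟨h, hh, rfl⟩
  have hQ2 : IsPGroup p Q := by rw [hQdef]; exact S.isPGroup'.map H.subtype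
  have hcardQ : Nat.card Q = p ^ k := by
    rw [← hk, hQdef]
    exact (Nat.card_congr ((S : Subgroup ↥H).equivMapOfInjective H.subtype
      H.subtype_injective).toEquiv).symm
  have hconj : ∀ h ∈ H, ∀ r ∈ Q, h * r * h⁻¹ ∈ Q := by
    intro h hh u hu
    have huH := hQH hu
    have hs : (⟨u, huH⟩ : ↥H) ∈ (S : Subgroup ↥H) := (hQmem ⟨u, huH⟩).mp hu
    have h1 := hSn.conj_mem _ hs ⟨h, hh⟩
    exact (hQmem _).mpr h1
  refine ⟨Q, (y₀ : G), k, m, hQH, hQ2, hcardQ, hmodd, hcardH, y₀.2, ?_, ?_, ?_, hconj⟩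
  · rw [Subgroup.orderOf_coe, hy₀o]
  · apply mem_normalizer_of_conj_mem_finite
    intro u hu
    exact hconj (y₀ : G) y₀.2 u hu
  · intro h hh
    obtain ⟨i, hi⟩ := hgen ⟨h, hh⟩
    exact ⟨i, (hQmem _).mpr hi⟩

/-- If the generator of the quotient centralizes the cyclic Sylow subgroup, the group is cyclic. -/
theorem cyclic_of_central_gen {G : Type*} [Group G] [Finite G] {p : ℕ} [Fact p.Prime]
    (H R : Subgroup G) (y : G) (k m : ℕ) (hRH : R ≤ H) (hRc : IsCyclic R)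
    (hcardR : Nat.card R = p ^ k) (hm : Nat.Coprime m p) (hcardH : Nat.card H = p ^ k * m)
    (hyH : y ∈ H) (hyo : orderOf y = m) (hyC : ∀ r ∈ R, r * y = y * r) : IsCyclic H := by
  obtain ⟨q₀, hq₀⟩ := (Subgroup.isCyclic_iff_exists_zpowers_eq_top R).mp hRc
  have hq₀Q : q₀ ∈ R := hq₀ ▸ Subgroup.mem_zpowers q₀
  have hq₀o : orderOf q₀ = p ^ k := by rw [← Nat.card_zpowers, hq₀, hcardR]
  have hcomm : Commute q₀ y := hyC q₀ hq₀Q
  have hcop : (orderOf q₀).Coprime (orderOf y) := by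
    rw [hq₀o, hyo]; exact Nat.Coprime.pow_left k hm.symm
  have hord : orderOf (q₀ * y) = p ^ k * m := by
    rw [hcomm.orderOf_mul_eq_mul_orderOf_of_coprime hcop, hq₀o, hyo]
  rw [isCyclic_iff_exists_orderOf_eq_natCard]
  refine ⟨⟨q₀ * y, H.mul_mem (hRH hq₀Q) hyH⟩, ?_⟩
  rw [Subgroup.orderOf_mk, hord, hcardH]

end Cfsg.Agent.Lib.Helper5
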