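import Cfsg.Agent.Lib.Helper5.WielandtFamily

set_option autoImplicit false

namespace Cfsg.Agent.Lib.Helper5

open scoped Pointwise

universe u

/-- Relative join theorem: a join of subgroups of `M` that are subnormal in `M` is subnormal in
`M`. -/
theorem isSubnormal_subgroupOf_sSup {G : Type u} [Group G] [Finite G] (M : Subgroup G)
    (T : Set (Subgroup G)) (hT : ∀ U ∈ T, U ≤ M) (hsn : ∀ U ∈ T, (U.subgroupOf M).IsSubnormal) :
    ((sSup T).subgroupOf M).IsSubnormal := by
  set T' : Set (Subgroup M) := (fun U => U.subgroupOf M) '' T with hT'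
  have h1 : (sSup T').IsSubnormal := by
    apply isSubnormal_sSup
    rintro _ ⟨U, hU, rfl⟩
    exact hsn U hU
  have h2 : (sSup T).subgroupOf M = sSup T' := by
    apply le_antisymm
    · intro x hx
      have h3 : sSup T ≤ (sSup T').map M.subtype := by
        apply sSup_le
        intro U hU u hu
        refine ⟨⟨u, hT U hU hu⟩, ?_, rfl⟩
        have h4 : U.subgroupOf M ≤ sSup T' := le_sSup ⟨U, hU, rfl⟩
        exact h4 (Subgroup.mem_subgroupOf.mpr hu)
      obtain ⟨x', hx', hxx⟩ := h3 (Subgroup.mem_subgroupOf.mp hx)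
      have : x' = x := Subtype.ext hxx
      exact this ▸ hx'
    · apply sSup_le
      rintro _ ⟨U, hU, rfl⟩
      intro x hx
      exact Subgroup.mem_subgroupOf.mpr (le_sSup hU (Subgroup.mem_subgroupOf.mp hx))
  rw [h2]
  exact h1

theorem isSubnormal_subgroupOf_of_le {G : Type u} [Group G] (U N M : Subgroup G) (hNM : N ≤ M)
    (h : (U.subgroupOf M).IsSubnormal) : (U.subgroupOf N).IsSubnormal := by
  have h1 := h.comap (Subgroup.inclusion hNM)
  have h2 : (U.subgroupOf M).comap (Subgroup.inclusion hNM) = U.subgroupOf N := by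
    ext x
    simp [Subgroup.mem_subgroupOf]
  rw [h2] at h1
  exact h1

/-- In a finite nilpotent group every subgroup is subnormal. -/
theorem isSubnormal_of_isNilpotent {G : Type u} [Group G] [Finite G] [Group.IsNilpotent G]
    (H : Subgroup G) : H.IsSubnormal := by
  have hnc : NormalizerCondition G := Group.normalizerCondition_of_isNilpotent
  induction H using WellFoundedGT.induction with
  | ind H ih =>
    by_cases hH : H = ⊤
    · rw [hH]
      exact Subgroup.IsSubnormal.top
    · have hlt : H < Subgroup.normalizer (H : Set G) := hnc H (lt_top_iff_ne_top.mpr hH)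
      have h1 := ih _ hlt
      have h2 : (H.subgroupOf (Subgroup.normalizer (H : Set G))).IsSubnormal :=
        Subgroup.Normal.isSubnormal Subgroup.normal_in_normalizer
      exact Subgroup.IsSubnormal.trans hlt.le h2 h1

/-- Wielandt's lemma on families of subgroups of `M` that are subnormal in `M`. -/
theorem wielandt_family_rel {G : Type u} [Group G] [Finite G] :
    ∀ (n : ℕ) (M : Subgroup G), Nat.card M = n → ∀ (S S₀ : Set (Subgroup G)),
      (∀ U ∈ S, U ≤ M) → (∀ U ∈ S, (U.subgroupOf M).IsSubnormal) →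
      (∀ U ∈ S, ∀ g ∈ M, MulAut.conj g • U ∈ S) → S₀ ⊂ S →
      ∃ X ∈ S, X ∉ S₀ ∧ X ≤ Subgroup.normalizer ((sSup S₀ : Subgroup G) : Set G) := by
  intro n
  induction n using Nat.strong_induction_on with
  | _ n ih =>
    intro M hMn S S₀ hSM hSsn hconj hss
    set G₀ : Subgroup G := sSup S₀ with hG₀
    have hG₀M : G₀ ≤ M := sSup_le (fun U hU => hSM U (hss.subset hU))
    have hsub : (G₀.subgroupOf M).IsSubnormal :=
      isSubnormal_subgroupOf_sSup M S₀ (fun U hU => hSM U (hss.subset hU))
        (fun U hU => hSsn U (hss.subset hU))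
    obtain ⟨X, hXS, hXS₀⟩ := Set.exists_of_ssubset hss
    by_cases hEq : G₀ = M
    · refine ⟨X, hXS, hXS₀, ?_⟩
      exact (hSM X hXS).trans (hEq ▸ Subgroup.le_normalizer)
    · rcases hsub.lt_normal with htop | ⟨N', hN'n, hN'le, hN'lt⟩
      · exfalso
        apply hEq
        exact le_antisymm hG₀M (Subgroup.subgroupOf_eq_top.mp htop)
      · set N : Subgroup G := N'.map M.subtype with hN
        have hNM : N ≤ M := by
          intro x hx
          obtain ⟨y, hy, hyx⟩ := hx
          rw [← hyx]
          exact y.2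
        have hNlt : N < M := by
          refine lt_of_le_of_ne hNM ?_
          intro hNeq
          apply ne_of_lt hN'lt
          rw [eq_top_iff]
          intro y _
          have hy : (y : G) ∈ N := by rw [hNeq]; exact y.2
          obtain ⟨y', hy', hyy⟩ := hy
          have : y' = y := Subtype.ext hyy
          exact this ▸ hy'
        have hG₀N : G₀ ≤ N := by
          intro x hx
          exact ⟨⟨x, hG₀M hx⟩, hN'le (Subgroup.mem_subgroupOf.mpr hx), rfl⟩
        have hNconj : ∀ g ∈ M, ∀ U : Subgroup G, U ≤ N → MulAut.conj g • U ≤ N := by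
          intro g hg U hU
          rintro _ ⟨x, hx, rfl⟩
          obtain ⟨y, hy, rfl⟩ := hU hx
          refine ⟨⟨g, hg⟩ * y * ⟨g, hg⟩⁻¹, hN'n.conj_mem y hy ⟨g, hg⟩, ?_⟩
          simp [MulAut.smul_def]
        set S₁ : Set (Subgroup G) := {X ∈ S | X ≤ N} with hS₁
        have hS₀S₁ : S₀ ⊆ S₁ := fun U hU => ⟨hss.subset hU, (le_sSup hU).trans hG₀N⟩
        have hS₁conj : ∀ U ∈ S₁, ∀ g ∈ M, MulAut.conj g • U ∈ S₁ :=
          fun U hU g hg => ⟨hconj U hU.1 g hg, hNconj g hg U hU.2⟩
        rcases eq_or_ssubset_of_subset hS₀S₁ with heq | hssub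
        · refine ⟨X, hXS, hXS₀, ?_⟩
          refine (hSM X hXS).trans ?_
          intro g hg
          rw [hG₀, heq]
          exact mem_normalizer_sSup_of_conj_mem S₁ g (fun U hU => hS₁conj U hU g hg)
            (fun U hU => hS₁conj U hU g⁻¹ (M.inv_mem hg))
        · have hcard : Nat.card N < n := by
            rw [← hMn]
            refine lt_of_le_of_ne (Subgroup.card_le_of_le hNlt.le) ?_
            intro hc
            exact ne_of_lt hNlt (Subgroup.eq_of_le_of_card_ge hNlt.le hc.ge)
          obtain ⟨Y, hYS₁, hYS₀, hYn⟩ := ih (Nat.card N) hcard N rfl S₁ S₀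
            (fun U hU => hU.2)
            (fun U hU => isSubnormal_subgroupOf_of_le U N M hNM (hSsn U hU.1))
            (fun U hU g hg => hS₁conj U hU g (hNM hg)) hssub
          exact ⟨Y, hYS₁.1, hYS₀, hYn⟩

end Cfsg.Agent.Lib.Helper5
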